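import Cfsg.Agent.E6MinDeg65.Center

/-!
The two degrees just below the bound do not divide the group order.
-/

set_option autoImplicit false

namespace CfsgLib.TwistedLie.E6.MinDeg65

theorem elim_pow {R F a b c : ℤ} (e : a * R + b * F = c) :
    ∀ (n : ℕ) (X : ℤ), R ∣ X * F ^ n → R ∣ X * c ^ n
  | 0, _, h => by simpa using h
  | n + 1, X, h => by
    have h1 : R ∣ X * c * F ^ n := by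
      have e1 : X * c * F ^ n = R * (a * X * F ^ n) + b * (X * F ^ (n + 1)) := by rw [← e]; ring
      rw [e1]
      exact dvd_add (dvd_mul_right _ _) (h.mul_left b)
    have h2 := elim_pow e n (X * c) h1
    rwa [pow_succ, ← mul_assoc, mul_right_comm]

theorem r7_bound (Q : ℤ) (h : ((-1) + (1) * Q ^ 1 + (-1) * Q ^ 2 + (1) * Q ^ 3 + (-1) * Q ^ 4 + (1) * Q ^ 5 + (1) * Q ^ 7) ∣ ((-1) + (1) * Q ^ 1) ^ 4 * ((1) + (1) * Q ^ 1) ^ 6 * ((1) + (1) * Q ^ 1 + (1) * Q ^ 2) ^ 2 * ((1) + (1) * Q ^ 2) ^ 2 * ((1) + (-1) * Q ^ 1 + (1) * Q ^ 2) ^ 3 * ((1) + (1) * Q ^ 4) ^ 1 * ((1) + (-1) * Q ^ 1 + (1) * Q ^ 2 + (-1) * Q ^ 3 + (1) * Q ^ 4) ^ 1 * ((1) + (-1) * Q ^ 3 + (1) * Q ^ 6) ^ 1 * ((1) * Q ^ 1) ^ 36) :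
    ((-1) + (1) * Q ^ 1 + (-1) * Q ^ 2 + (1) * Q ^ 3 + (-1) * Q ^ 4 + (1) * Q ^ 5 + (1) * Q ^ 7) ∣ 117649 := by
  replace h : ((-1) + (1) * Q ^ 1 + (-1) * Q ^ 2 + (1) * Q ^ 3 + (-1) * Q ^ 4 + (1) * Q ^ 5 + (1) * Q ^ 7) ∣ (((-1) + (1) * Q ^ 1) ^ 4 * ((1) + (1) * Q ^ 1) ^ 6 * ((1) + (1) * Q ^ 1 + (1) * Q ^ 2) ^ 2 * ((1) + (1) * Q ^ 2) ^ 2 * ((1) + (-1) * Q ^ 1 + (1) * Q ^ 2) ^ 3 * ((1) + (1) * Q ^ 4) ^ 1 * ((1) + (-1) * Q ^ 1 + (1) * Q ^ 2 + (-1) * Q ^ 3 + (1) * Q ^ 4) ^ 1 * ((1) + (-1) * Q ^ 3 + (1) * Q ^ 6) ^ 1) * 1 := by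
    have e := elim_pow (R := ((-1) + (1) * Q ^ 1 + (-1) * Q ^ 2 + (1) * Q ^ 3 + (-1) * Q ^ 4 + (1) * Q ^ 5 + (1) * Q ^ 7)) (F := ((1) * Q ^ 1)) (a := ((-1))) (b := ((1) + (-1) * Q ^ 1 + (1) * Q ^ 2 + (-1) * Q ^ 3 + (1) * Q ^ 4 + (1) * Q ^ 6))
      (c := 1) (by ring) 36 (((-1) + (1) * Q ^ 1) ^ 4 * ((1) + (1) * Q ^ 1) ^ 6 * ((1) + (1) * Q ^ 1 + (1) * Q ^ 2) ^ 2 * ((1) + (1) * Q ^ 2) ^ 2 * ((1) + (-1) * Q ^ 1 + (1) * Q ^ 2) ^ 3 * ((1) + (1) * Q ^ 4) ^ 1 * ((1) + (-1) * Q ^ 1 + (1) * Q ^ 2 + (-1) * Q ^ 3 + (1) * Q ^ 4) ^ 1 * ((1) + (-1) * Q ^ 3 + (1) * Q ^ 6) ^ 1 * 1) (dvd_trans h (dvd_of_eq (by ring)))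
    exact dvd_trans e (dvd_of_eq (by ring))
  replace h : ((-1) + (1) * Q ^ 1 + (-1) * Q ^ 2 + (1) * Q ^ 3 + (-1) * Q ^ 4 + (1) * Q ^ 5 + (1) * Q ^ 7) ∣ (((-1) + (1) * Q ^ 1) ^ 4 * ((1) + (1) * Q ^ 1) ^ 6 * ((1) + (1) * Q ^ 1 + (1) * Q ^ 2) ^ 2 * ((1) + (1) * Q ^ 2) ^ 2 * ((1) + (-1) * Q ^ 1 + (1) * Q ^ 2) ^ 3 * ((1) + (1) * Q ^ 4) ^ 1 * ((1) + (-1) * Q ^ 1 + (1) * Q ^ 2 + (-1) * Q ^ 3 + (1) * Q ^ 4) ^ 1) * 1 := by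
    have e := elim_pow (R := ((-1) + (1) * Q ^ 1 + (-1) * Q ^ 2 + (1) * Q ^ 3 + (-1) * Q ^ 4 + (1) * Q ^ 5 + (1) * Q ^ 7)) (F := ((1) + (-1) * Q ^ 3 + (1) * Q ^ 6)) (a := ((-1) + (1) * Q ^ 2 + (-1) * Q ^ 4)) (b := ((1) * Q ^ 1 + (1) * Q ^ 5))
      (c := 1) (by ring) 1 (((-1) + (1) * Q ^ 1) ^ 4 * ((1) + (1) * Q ^ 1) ^ 6 * ((1) + (1) * Q ^ 1 + (1) * Q ^ 2) ^ 2 * ((1) + (1) * Q ^ 2) ^ 2 * ((1) + (-1) * Q ^ 1 + (1) * Q ^ 2) ^ 3 * ((1) + (1) * Q ^ 4) ^ 1 * ((1) + (-1) * Q ^ 1 + (1) * Q ^ 2 + (-1) * Q ^ 3 + (1) * Q ^ 4) ^ 1 * 1) (dvd_trans h (dvd_of_eq (by ring)))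
    exact dvd_trans e (dvd_of_eq (by ring))
  replace h : ((-1) + (1) * Q ^ 1 + (-1) * Q ^ 2 + (1) * Q ^ 3 + (-1) * Q ^ 4 + (1) * Q ^ 5 + (1) * Q ^ 7) ∣ (((-1) + (1) * Q ^ 1) ^ 4 * ((1) + (1) * Q ^ 1) ^ 6 * ((1) + (1) * Q ^ 1 + (1) * Q ^ 2) ^ 2 * ((1) + (1) * Q ^ 2) ^ 2 * ((1) + (-1) * Q ^ 1 + (1) * Q ^ 2) ^ 3 * ((1) + (1) * Q ^ 4) ^ 1) * 1 := by
    have e := elim_pow (R := ((-1) + (1) * Q ^ 1 + (-1) * Q ^ 2 + (1) * Q ^ 3 + (-1) * Q ^ 4 + (1) * Q ^ 5 + (1) * Q ^ 7)) (F := ((1) + (-1) * Q ^ 1 + (1) * Q ^ 2 + (-1) * Q ^ 3 + (1) * Q ^ 4)) (a := ((-1) * Q ^ 1 + (1) * Q ^ 2)) (b := ((1) + (1) * Q ^ 2 + (-1) * Q ^ 5))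
      (c := 1) (by ring) 1 (((-1) + (1) * Q ^ 1) ^ 4 * ((1) + (1) * Q ^ 1) ^ 6 * ((1) + (1) * Q ^ 1 + (1) * Q ^ 2) ^ 2 * ((1) + (1) * Q ^ 2) ^ 2 * ((1) + (-1) * Q ^ 1 + (1) * Q ^ 2) ^ 3 * ((1) + (1) * Q ^ 4) ^ 1 * 1) (dvd_trans h (dvd_of_eq (by ring)))
    exact dvd_trans e (dvd_of_eq (by ring))
  replace h : ((-1) + (1) * Q ^ 1 + (-1) * Q ^ 2 + (1) * Q ^ 3 + (-1) * Q ^ 4 + (1) * Q ^ 5 + (1) * Q ^ 7) ∣ (((-1) + (1) * Q ^ 1) ^ 4 * ((1) + (1) * Q ^ 1) ^ 6 * ((1) + (1) * Q ^ 1 + (1) * Q ^ 2) ^ 2 * ((1) + (1) * Q ^ 2) ^ 2 * ((1) + (-1) * Q ^ 1 + (1) * Q ^ 2) ^ 3) * 1 := by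
    have e := elim_pow (R := ((-1) + (1) * Q ^ 1 + (-1) * Q ^ 2 + (1) * Q ^ 3 + (-1) * Q ^ 4 + (1) * Q ^ 5 + (1) * Q ^ 7)) (F := ((1) + (1) * Q ^ 4)) (a := ((1) * Q ^ 2)) (b := ((1) + (1) * Q ^ 2 + (-1) * Q ^ 3 + (-1) * Q ^ 5))
      (c := 1) (by ring) 1 (((-1) + (1) * Q ^ 1) ^ 4 * ((1) + (1) * Q ^ 1) ^ 6 * ((1) + (1) * Q ^ 1 + (1) * Q ^ 2) ^ 2 * ((1) + (1) * Q ^ 2) ^ 2 * ((1) + (-1) * Q ^ 1 + (1) * Q ^ 2) ^ 3 * 1) (dvd_trans h (dvd_of_eq (by ring)))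
    exact dvd_trans e (dvd_of_eq (by ring))
  replace h : ((-1) + (1) * Q ^ 1 + (-1) * Q ^ 2 + (1) * Q ^ 3 + (-1) * Q ^ 4 + (1) * Q ^ 5 + (1) * Q ^ 7) ∣ (((-1) + (1) * Q ^ 1) ^ 4 * ((1) + (1) * Q ^ 1) ^ 6 * ((1) + (1) * Q ^ 1 + (1) * Q ^ 2) ^ 2 * ((1) + (1) * Q ^ 2) ^ 2) * 1 := by
    have e := elim_pow (R := ((-1) + (1) * Q ^ 1 + (-1) * Q ^ 2 + (1) * Q ^ 3 + (-1) * Q ^ 4 + (1) * Q ^ 5 + (1) * Q ^ 7)) (F := ((1) + (-1) * Q ^ 1 + (1) * Q ^ 2)) (a := ((1) + (-1) * Q ^ 1)) (b := ((2) + (-2) * Q ^ 3 + (1) * Q ^ 6))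
      (c := 1) (by ring) 3 (((-1) + (1) * Q ^ 1) ^ 4 * ((1) + (1) * Q ^ 1) ^ 6 * ((1) + (1) * Q ^ 1 + (1) * Q ^ 2) ^ 2 * ((1) + (1) * Q ^ 2) ^ 2 * 1) (dvd_trans h (dvd_of_eq (by ring)))
    exact dvd_trans e (dvd_of_eq (by ring))
  replace h : ((-1) + (1) * Q ^ 1 + (-1) * Q ^ 2 + (1) * Q ^ 3 + (-1) * Q ^ 4 + (1) * Q ^ 5 + (1) * Q ^ 7) ∣ (((-1) + (1) * Q ^ 1) ^ 4 * ((1) + (1) * Q ^ 1) ^ 6 * ((1) + (1) * Q ^ 1 + (1) * Q ^ 2) ^ 2) * 1 := by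
    have e := elim_pow (R := ((-1) + (1) * Q ^ 1 + (-1) * Q ^ 2 + (1) * Q ^ 3 + (-1) * Q ^ 4 + (1) * Q ^ 5 + (1) * Q ^ 7)) (F := ((1) + (1) * Q ^ 2)) (a := ((-1))) (b := ((1) * Q ^ 1 + (-1) * Q ^ 2 + (1) * Q ^ 5))
      (c := 1) (by ring) 2 (((-1) + (1) * Q ^ 1) ^ 4 * ((1) + (1) * Q ^ 1) ^ 6 * ((1) + (1) * Q ^ 1 + (1) * Q ^ 2) ^ 2 * 1) (dvd_trans h (dvd_of_eq (by ring)))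
    exact dvd_trans e (dvd_of_eq (by ring))
  replace h : ((-1) + (1) * Q ^ 1 + (-1) * Q ^ 2 + (1) * Q ^ 3 + (-1) * Q ^ 4 + (1) * Q ^ 5 + (1) * Q ^ 7) ∣ (((-1) + (1) * Q ^ 1) ^ 4 * ((1) + (1) * Q ^ 1) ^ 6) * 1 := by
    have e := elim_pow (R := ((-1) + (1) * Q ^ 1 + (-1) * Q ^ 2 + (1) * Q ^ 3 + (-1) * Q ^ 4 + (1) * Q ^ 5 + (1) * Q ^ 7)) (F := ((1) + (1) * Q ^ 1 + (1) * Q ^ 2)) (a := ((-1) + (-1) * Q ^ 1)) (b := ((1) * Q ^ 6))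
      (c := 1) (by ring) 2 (((-1) + (1) * Q ^ 1) ^ 4 * ((1) + (1) * Q ^ 1) ^ 6 * 1) (dvd_trans h (dvd_of_eq (by ring)))
    exact dvd_trans e (dvd_of_eq (by ring))
  replace h : ((-1) + (1) * Q ^ 1 + (-1) * Q ^ 2 + (1) * Q ^ 3 + (-1) * Q ^ 4 + (1) * Q ^ 5 + (1) * Q ^ 7) ∣ (((-1) + (1) * Q ^ 1) ^ 4) * 117649 := by
    have e := elim_pow (R := ((-1) + (1) * Q ^ 1 + (-1) * Q ^ 2 + (1) * Q ^ 3 + (-1) * Q ^ 4 + (1) * Q ^ 5 + (1) * Q ^ 7)) (F := ((1) + (1) * Q ^ 1)) (a := ((-1))) (b := ((6) + (-5) * Q ^ 1 + (4) * Q ^ 2 + (-3) * Q ^ 3 + (2) * Q ^ 4 + (-1) * Q ^ 5 + (1) * Q ^ 6))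
      (c := 7) (by ring) 6 (((-1) + (1) * Q ^ 1) ^ 4 * 1) (dvd_trans h (dvd_of_eq (by ring)))
    exact dvd_trans e (dvd_of_eq (by ring))
  replace h : ((-1) + (1) * Q ^ 1 + (-1) * Q ^ 2 + (1) * Q ^ 3 + (-1) * Q ^ 4 + (1) * Q ^ 5 + (1) * Q ^ 7) ∣ (1) * 117649 := by
    have e := elim_pow (R := ((-1) + (1) * Q ^ 1 + (-1) * Q ^ 2 + (1) * Q ^ 3 + (-1) * Q ^ 4 + (1) * Q ^ 5 + (1) * Q ^ 7)) (F := ((-1) + (1) * Q ^ 1)) (a := ((1))) (b := ((-2) + (-1) * Q ^ 1 + (-2) * Q ^ 2 + (-1) * Q ^ 3 + (-2) * Q ^ 4 + (-1) * Q ^ 5 + (-1) * Q ^ 6))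
      (c := 1) (by ring) 4 (1 * 117649) (dvd_trans h (dvd_of_eq (by ring)))
    exact dvd_trans e (dvd_of_eq (by ring))
  simpa using h

theorem r10_bound (Q : ℤ) (h : ((2) + (1) * Q ^ 1 + (1) * Q ^ 2 + (1) * Q ^ 3 + (2) * Q ^ 4 + (1) * Q ^ 5 + (1) * Q ^ 6 + (1) * Q ^ 8 + (1) * Q ^ 9 + (1) * Q ^ 10) ∣ ((-1) + (1) * Q ^ 1) ^ 3 * ((1) + (1) * Q ^ 1) ^ 6 * ((1) + (1) * Q ^ 1 + (1) * Q ^ 2) ^ 2 * ((1) + (1) * Q ^ 2) ^ 2 * ((1) + (-1) * Q ^ 1 + (1) * Q ^ 2) ^ 3 * ((1) + (1) * Q ^ 4) ^ 1 * ((1) + (-1) * Q ^ 1 + (1) * Q ^ 2 + (-1) * Q ^ 3 + (1) * Q ^ 4) ^ 1 * ((1) + (-1) * Q ^ 2 + (1) * Q ^ 4) ^ 1 * ((1) + (-1) * Q ^ 3 + (1) * Q ^ 6) ^ 1 * ((1) * Q ^ 1) ^ 36) :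
    ((2) + (1) * Q ^ 1 + (1) * Q ^ 2 + (1) * Q ^ 3 + (2) * Q ^ 4 + (1) * Q ^ 5 + (1) * Q ^ 6 + (1) * Q ^ 8 + (1) * Q ^ 9 + (1) * Q ^ 10) ∣ 3081759181814101966848 := by
  replace h : ((2) + (1) * Q ^ 1 + (1) * Q ^ 2 + (1) * Q ^ 3 + (2) * Q ^ 4 + (1) * Q ^ 5 + (1) * Q ^ 6 + (1) * Q ^ 8 + (1) * Q ^ 9 + (1) * Q ^ 10) ∣ (((-1) + (1) * Q ^ 1) ^ 3 * ((1) + (1) * Q ^ 1) ^ 6 * ((1) + (1) * Q ^ 1 + (1) * Q ^ 2) ^ 2 * ((1) + (1) * Q ^ 2) ^ 2 * ((1) + (-1) * Q ^ 1 + (1) * Q ^ 2) ^ 3 * ((1) + (1) * Q ^ 4) ^ 1 * ((1) + (-1) * Q ^ 1 + (1) * Q ^ 2 + (-1) * Q ^ 3 + (1) * Q ^ 4) ^ 1 * ((1) + (-1) * Q ^ 2 + (1) * Q ^ 4) ^ 1 * ((1) + (-1) * Q ^ 3 + (1) * Q ^ 6) ^ 1) * 68719476736 := by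
    have e := elim_pow (R := ((2) + (1) * Q ^ 1 + (1) * Q ^ 2 + (1) * Q ^ 3 + (2) * Q ^ 4 + (1) * Q ^ 5 + (1) * Q ^ 6 + (1) * Q ^ 8 + (1) * Q ^ 9 + (1) * Q ^ 10)) (F := ((1) * Q ^ 1)) (a := ((1))) (b := ((-1) + (-1) * Q ^ 1 + (-1) * Q ^ 2 + (-2) * Q ^ 3 + (-1) * Q ^ 4 + (-1) * Q ^ 5 + (-1) * Q ^ 7 + (-1) * Q ^ 8 + (-1) * Q ^ 9))
      (c := 2) (by ring) 36 (((-1) + (1) * Q ^ 1) ^ 3 * ((1) + (1) * Q ^ 1) ^ 6 * ((1) + (1) * Q ^ 1 + (1) * Q ^ 2) ^ 2 * ((1) + (1) * Q ^ 2) ^ 2 * ((1) + (-1) * Q ^ 1 + (1) * Q ^ 2) ^ 3 * ((1) + (1) * Q ^ 4) ^ 1 * ((1) + (-1) * Q ^ 1 + (1) * Q ^ 2 + (-1) * Q ^ 3 + (1) * Q ^ 4) ^ 1 * ((1) + (-1) * Q ^ 2 + (1) * Q ^ 4) ^ 1 * ((1) + (-1) * Q ^ 3 + (1) * Q ^ 6) ^ 1 * 1) (dvd_trans h (dvd_of_eq (by ring)))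
    exact dvd_trans e (dvd_of_eq (by ring))
  replace h : ((2) + (1) * Q ^ 1 + (1) * Q ^ 2 + (1) * Q ^ 3 + (2) * Q ^ 4 + (1) * Q ^ 5 + (1) * Q ^ 6 + (1) * Q ^ 8 + (1) * Q ^ 9 + (1) * Q ^ 10) ∣ (((-1) + (1) * Q ^ 1) ^ 3 * ((1) + (1) * Q ^ 1) ^ 6 * ((1) + (1) * Q ^ 1 + (1) * Q ^ 2) ^ 2 * ((1) + (1) * Q ^ 2) ^ 2 * ((1) + (-1) * Q ^ 1 + (1) * Q ^ 2) ^ 3 * ((1) + (1) * Q ^ 4) ^ 1 * ((1) + (-1) * Q ^ 1 + (1) * Q ^ 2 + (-1) * Q ^ 3 + (1) * Q ^ 4) ^ 1 * ((1) + (-1) * Q ^ 2 + (1) * Q ^ 4) ^ 1) * 137438953472 := by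
    have e := elim_pow (R := ((2) + (1) * Q ^ 1 + (1) * Q ^ 2 + (1) * Q ^ 3 + (2) * Q ^ 4 + (1) * Q ^ 5 + (1) * Q ^ 6 + (1) * Q ^ 8 + (1) * Q ^ 9 + (1) * Q ^ 10)) (F := ((1) + (-1) * Q ^ 3 + (1) * Q ^ 6)) (a := ((1) + (-1) * Q ^ 1)) (b := ((1) * Q ^ 1 + (1) * Q ^ 5))
      (c := 2) (by ring) 1 (((-1) + (1) * Q ^ 1) ^ 3 * ((1) + (1) * Q ^ 1) ^ 6 * ((1) + (1) * Q ^ 1 + (1) * Q ^ 2) ^ 2 * ((1) + (1) * Q ^ 2) ^ 2 * ((1) + (-1) * Q ^ 1 + (1) * Q ^ 2) ^ 3 * ((1) + (1) * Q ^ 4) ^ 1 * ((1) + (-1) * Q ^ 1 + (1) * Q ^ 2 + (-1) * Q ^ 3 + (1) * Q ^ 4) ^ 1 * ((1) + (-1) * Q ^ 2 + (1) * Q ^ 4) ^ 1 * 68719476736) (dvd_trans h (dvd_of_eq (by ring)))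
    exact dvd_trans e (dvd_of_eq (by ring))
  replace h : ((2) + (1) * Q ^ 1 + (1) * Q ^ 2 + (1) * Q ^ 3 + (2) * Q ^ 4 + (1) * Q ^ 5 + (1) * Q ^ 6 + (1) * Q ^ 8 + (1) * Q ^ 9 + (1) * Q ^ 10) ∣ (((-1) + (1) * Q ^ 1) ^ 3 * ((1) + (1) * Q ^ 1) ^ 6 * ((1) + (1) * Q ^ 1 + (1) * Q ^ 2) ^ 2 * ((1) + (1) * Q ^ 2) ^ 2 * ((1) + (-1) * Q ^ 1 + (1) * Q ^ 2) ^ 3 * ((1) + (1) * Q ^ 4) ^ 1 * ((1) + (-1) * Q ^ 1 + (1) * Q ^ 2 + (-1) * Q ^ 3 + (1) * Q ^ 4) ^ 1) * 137438953472 := by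
    have e := elim_pow (R := ((2) + (1) * Q ^ 1 + (1) * Q ^ 2 + (1) * Q ^ 3 + (2) * Q ^ 4 + (1) * Q ^ 5 + (1) * Q ^ 6 + (1) * Q ^ 8 + (1) * Q ^ 9 + (1) * Q ^ 10)) (F := ((1) + (-1) * Q ^ 2 + (1) * Q ^ 4)) (a := ((1) + (-1) * Q ^ 1)) (b := ((-1) + (1) * Q ^ 1 + (-1) * Q ^ 2 + (1) * Q ^ 3 + (-1) * Q ^ 4 + (1) * Q ^ 5 + (1) * Q ^ 7))
      (c := 1) (by ring) 1 (((-1) + (1) * Q ^ 1) ^ 3 * ((1) + (1) * Q ^ 1) ^ 6 * ((1) + (1) * Q ^ 1 + (1) * Q ^ 2) ^ 2 * ((1) + (1) * Q ^ 2) ^ 2 * ((1) + (-1) * Q ^ 1 + (1) * Q ^ 2) ^ 3 * ((1) + (1) * Q ^ 4) ^ 1 * ((1) + (-1) * Q ^ 1 + (1) * Q ^ 2 + (-1) * Q ^ 3 + (1) * Q ^ 4) ^ 1 * 137438953472) (dvd_trans h (dvd_of_eq (by ring)))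
    exact dvd_trans e (dvd_of_eq (by ring))
  replace h : ((2) + (1) * Q ^ 1 + (1) * Q ^ 2 + (1) * Q ^ 3 + (2) * Q ^ 4 + (1) * Q ^ 5 + (1) * Q ^ 6 + (1) * Q ^ 8 + (1) * Q ^ 9 + (1) * Q ^ 10) ∣ (((-1) + (1) * Q ^ 1) ^ 3 * ((1) + (1) * Q ^ 1) ^ 6 * ((1) + (1) * Q ^ 1 + (1) * Q ^ 2) ^ 2 * ((1) + (1) * Q ^ 2) ^ 2 * ((1) + (-1) * Q ^ 1 + (1) * Q ^ 2) ^ 3 * ((1) + (1) * Q ^ 4) ^ 1) * 1511828488192 := by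
    have e := elim_pow (R := ((2) + (1) * Q ^ 1 + (1) * Q ^ 2 + (1) * Q ^ 3 + (2) * Q ^ 4 + (1) * Q ^ 5 + (1) * Q ^ 6 + (1) * Q ^ 8 + (1) * Q ^ 9 + (1) * Q ^ 10)) (F := ((1) + (-1) * Q ^ 1 + (1) * Q ^ 2 + (-1) * Q ^ 3 + (1) * Q ^ 4)) (a := ((6) + (-3) * Q ^ 1 + (-1) * Q ^ 2 + (-1) * Q ^ 3)) (b := ((-1) + (-1) * Q ^ 1 + (-1) * Q ^ 2 + (-1) * Q ^ 3 + (-7) * Q ^ 4 + (-4) * Q ^ 5 + (3) * Q ^ 6 + (7) * Q ^ 7 + (3) * Q ^ 8 + (1) * Q ^ 9))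
      (c := 11) (by ring) 1 (((-1) + (1) * Q ^ 1) ^ 3 * ((1) + (1) * Q ^ 1) ^ 6 * ((1) + (1) * Q ^ 1 + (1) * Q ^ 2) ^ 2 * ((1) + (1) * Q ^ 2) ^ 2 * ((1) + (-1) * Q ^ 1 + (1) * Q ^ 2) ^ 3 * ((1) + (1) * Q ^ 4) ^ 1 * 137438953472) (dvd_trans h (dvd_of_eq (by ring)))
    exact dvd_trans e (dvd_of_eq (by ring))
  replace h : ((2) + (1) * Q ^ 1 + (1) * Q ^ 2 + (1) * Q ^ 3 + (2) * Q ^ 4 + (1) * Q ^ 5 + (1) * Q ^ 6 + (1) * Q ^ 8 + (1) * Q ^ 9 + (1) * Q ^ 10) ∣ (((-1) + (1) * Q ^ 1) ^ 3 * ((1) + (1) * Q ^ 1) ^ 6 * ((1) + (1) * Q ^ 1 + (1) * Q ^ 2) ^ 2 * ((1) + (1) * Q ^ 2) ^ 2 * ((1) + (-1) * Q ^ 1 + (1) * Q ^ 2) ^ 3) * 3023656976384 := by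
    have e := elim_pow (R := ((2) + (1) * Q ^ 1 + (1) * Q ^ 2 + (1) * Q ^ 3 + (2) * Q ^ 4 + (1) * Q ^ 5 + (1) * Q ^ 6 + (1) * Q ^ 8 + (1) * Q ^ 9 + (1) * Q ^ 10)) (F := ((1) + (1) * Q ^ 4)) (a := ((1) + (-1) * Q ^ 1)) (b := ((1) * Q ^ 1 + (-1) * Q ^ 4 + (1) * Q ^ 7))
      (c := 2) (by ring) 1 (((-1) + (1) * Q ^ 1) ^ 3 * ((1) + (1) * Q ^ 1) ^ 6 * ((1) + (1) * Q ^ 1 + (1) * Q ^ 2) ^ 2 * ((1) + (1) * Q ^ 2) ^ 2 * ((1) + (-1) * Q ^ 1 + (1) * Q ^ 2) ^ 3 * 1511828488192) (dvd_trans h (dvd_of_eq (by ring)))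
    exact dvd_trans e (dvd_of_eq (by ring))
  replace h : ((2) + (1) * Q ^ 1 + (1) * Q ^ 2 + (1) * Q ^ 3 + (2) * Q ^ 4 + (1) * Q ^ 5 + (1) * Q ^ 6 + (1) * Q ^ 8 + (1) * Q ^ 9 + (1) * Q ^ 10) ∣ (((-1) + (1) * Q ^ 1) ^ 3 * ((1) + (1) * Q ^ 1) ^ 6 * ((1) + (1) * Q ^ 1 + (1) * Q ^ 2) ^ 2 * ((1) + (1) * Q ^ 2) ^ 2) * 3023656976384 := by
    have e := elim_pow (R := ((2) + (1) * Q ^ 1 + (1) * Q ^ 2 + (1) * Q ^ 3 + (2) * Q ^ 4 + (1) * Q ^ 5 + (1) * Q ^ 6 + (1) * Q ^ 8 + (1) * Q ^ 9 + (1) * Q ^ 10)) (F := ((1) + (-1) * Q ^ 1 + (1) * Q ^ 2)) (a := ((-1) + (1) * Q ^ 1)) (b := ((3) + (2) * Q ^ 1 + (-1) * Q ^ 2 + (-3) * Q ^ 3 + (-1) * Q ^ 4 + (1) * Q ^ 5 + (2) * Q ^ 6 + (-1) * Q ^ 8 + (-1) * Q ^ 9))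
      (c := 1) (by ring) 3 (((-1) + (1) * Q ^ 1) ^ 3 * ((1) + (1) * Q ^ 1) ^ 6 * ((1) + (1) * Q ^ 1 + (1) * Q ^ 2) ^ 2 * ((1) + (1) * Q ^ 2) ^ 2 * 3023656976384) (dvd_trans h (dvd_of_eq (by ring)))
    exact dvd_trans e (dvd_of_eq (by ring))
  replace h : ((2) + (1) * Q ^ 1 + (1) * Q ^ 2 + (1) * Q ^ 3 + (2) * Q ^ 4 + (1) * Q ^ 5 + (1) * Q ^ 6 + (1) * Q ^ 8 + (1) * Q ^ 9 + (1) * Q ^ 10) ∣ (((-1) + (1) * Q ^ 1) ^ 3 * ((1) + (1) * Q ^ 1) ^ 6 * ((1) + (1) * Q ^ 1 + (1) * Q ^ 2) ^ 2) * 48378511622144 := by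
    have e := elim_pow (R := ((2) + (1) * Q ^ 1 + (1) * Q ^ 2 + (1) * Q ^ 3 + (2) * Q ^ 4 + (1) * Q ^ 5 + (1) * Q ^ 6 + (1) * Q ^ 8 + (1) * Q ^ 9 + (1) * Q ^ 10)) (F := ((1) + (1) * Q ^ 2)) (a := ((1) + (-1) * Q ^ 1)) (b := ((2) + (1) * Q ^ 1 + (-2) * Q ^ 2 + (-1) * Q ^ 3 + (1) * Q ^ 4 + (2) * Q ^ 5 + (-1) * Q ^ 6 + (-1) * Q ^ 7 + (1) * Q ^ 9))
      (c := 4) (by ring) 2 (((-1) + (1) * Q ^ 1) ^ 3 * ((1) + (1) * Q ^ 1) ^ 6 * ((1) + (1) * Q ^ 1 + (1) * Q ^ 2) ^ 2 * 3023656976384) (dvd_trans h (dvd_of_eq (by ring)))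
    exact dvd_trans e (dvd_of_eq (by ring))
  replace h : ((2) + (1) * Q ^ 1 + (1) * Q ^ 2 + (1) * Q ^ 3 + (2) * Q ^ 4 + (1) * Q ^ 5 + (1) * Q ^ 6 + (1) * Q ^ 8 + (1) * Q ^ 9 + (1) * Q ^ 10) ∣ (((-1) + (1) * Q ^ 1) ^ 3 * ((1) + (1) * Q ^ 1) ^ 6) * 435406604599296 := by
    have e := elim_pow (R := ((2) + (1) * Q ^ 1 + (1) * Q ^ 2 + (1) * Q ^ 3 + (2) * Q ^ 4 + (1) * Q ^ 5 + (1) * Q ^ 6 + (1) * Q ^ 8 + (1) * Q ^ 9 + (1) * Q ^ 10)) (F := ((1) + (1) * Q ^ 1 + (1) * Q ^ 2)) (a := ((1) + (-1) * Q ^ 1)) (b := ((1) + (-1) * Q ^ 2 + (1) * Q ^ 3 + (-1) * Q ^ 4 + (1) * Q ^ 5 + (-1) * Q ^ 8 + (1) * Q ^ 9))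
      (c := 3) (by ring) 2 (((-1) + (1) * Q ^ 1) ^ 3 * ((1) + (1) * Q ^ 1) ^ 6 * 48378511622144) (dvd_trans h (dvd_of_eq (by ring)))
    exact dvd_trans e (dvd_of_eq (by ring))
  replace h : ((2) + (1) * Q ^ 1 + (1) * Q ^ 2 + (1) * Q ^ 3 + (2) * Q ^ 4 + (1) * Q ^ 5 + (1) * Q ^ 6 + (1) * Q ^ 8 + (1) * Q ^ 9 + (1) * Q ^ 10) ∣ (((-1) + (1) * Q ^ 1) ^ 3) * 1783425452438716416 := by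
    have e := elim_pow (R := ((2) + (1) * Q ^ 1 + (1) * Q ^ 2 + (1) * Q ^ 3 + (2) * Q ^ 4 + (1) * Q ^ 5 + (1) * Q ^ 6 + (1) * Q ^ 8 + (1) * Q ^ 9 + (1) * Q ^ 10)) (F := ((1) + (1) * Q ^ 1)) (a := ((1))) (b := ((2) + (-3) * Q ^ 1 + (2) * Q ^ 2 + (-3) * Q ^ 3 + (1) * Q ^ 4 + (-2) * Q ^ 5 + (1) * Q ^ 6 + (-1) * Q ^ 7 + (-1) * Q ^ 9))
      (c := 4) (by ring) 6 (((-1) + (1) * Q ^ 1) ^ 3 * 435406604599296) (dvd_trans h (dvd_of_eq (by ring)))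
    exact dvd_trans e (dvd_of_eq (by ring))
  replace h : ((2) + (1) * Q ^ 1 + (1) * Q ^ 2 + (1) * Q ^ 3 + (2) * Q ^ 4 + (1) * Q ^ 5 + (1) * Q ^ 6 + (1) * Q ^ 8 + (1) * Q ^ 9 + (1) * Q ^ 10) ∣ (1) * 3081759181814101966848 := by
    have e := elim_pow (R := ((2) + (1) * Q ^ 1 + (1) * Q ^ 2 + (1) * Q ^ 3 + (2) * Q ^ 4 + (1) * Q ^ 5 + (1) * Q ^ 6 + (1) * Q ^ 8 + (1) * Q ^ 9 + (1) * Q ^ 10)) (F := ((-1) + (1) * Q ^ 1)) (a := ((1))) (b := ((-10) + (-9) * Q ^ 1 + (-8) * Q ^ 2 + (-7) * Q ^ 3 + (-5) * Q ^ 4 + (-4) * Q ^ 5 + (-3) * Q ^ 6 + (-3) * Q ^ 7 + (-2) * Q ^ 8 + (-1) * Q ^ 9))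
      (c := 12) (by ring) 3 (1 * 1783425452438716416) (dvd_trans h (dvd_of_eq (by ring)))
    exact dvd_trans e (dvd_of_eq (by ring))
  simpa using h

/-- A multiple of the group order. -/
def ordN (q : ℕ) : ℕ :=
  q ^ 36 * (q ^ 2 - 1) * (q ^ 5 + 1) * (q ^ 6 - 1) * (q ^ 8 - 1) * (q ^ 9 + 1) * (q ^ 12 - 1)

theorem ordN_cast {q : ℕ} (hq : 2 ≤ q) : (ordN q : ℤ) = (q : ℤ) ^ 36 * ((q : ℤ) ^ 2 - 1) *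
    ((q : ℤ) ^ 5 + 1) * ((q : ℤ) ^ 6 - 1) * ((q : ℤ) ^ 8 - 1) * ((q : ℤ) ^ 9 + 1) *
    ((q : ℤ) ^ 12 - 1) := by
  have a : ∀ n, 1 ≤ q ^ n := fun n => Nat.one_le_pow _ _ (by omega)
  unfold ordN
  push_cast [a 2, a 6, a 8, a 12]
  ring

theorem small_check : ∀ q < 141, 2 ≤ q →
    ordN q % (minT q - 1) ≠ 0 ∧ ordN q % (minT q - 2) ≠ 0 := by decide +kernel

theorem minT_cast {q : ℕ} (hq : 2 ≤ q) :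
    (minT q : ℤ) = (q : ℤ) * ((q : ℤ) ^ 6 - (q : ℤ) ^ 3 + 1) * ((q : ℤ) ^ 4 + 1) := by
  have : q ^ 3 ≤ q ^ 6 := Nat.pow_le_pow_right (by omega) (by norm_num)
  unfold minT
  push_cast [this]
  ring

theorem minT_big {q : ℕ} (hq : 2 ≤ q) : 3 ≤ minT q := by
  unfold minT
  have h3 : 2 ^ 3 ≤ q ^ 3 := Nat.pow_le_pow_left hq 3
  have : q ^ 3 ≤ q ^ 6 := Nat.pow_le_pow_right (by omega) (by norm_num)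
  have h4 : 2 ^ 4 ≤ q ^ 4 := Nat.pow_le_pow_left hq 4
  calc 3 ≤ 2 * 1 * (2 ^ 4 + 1) := by norm_num
    _ ≤ _ := Nat.mul_le_mul (Nat.mul_le_mul hq (by omega)) (by omega)

theorem no_dvd {q : ℕ} (hq : 2 ≤ q) {j : ℕ} (hj : j = 1 ∨ j = 2) : ¬ minT q - j ∣ ordN q := by
  intro h
  by_cases hs : q < 141
  · obtain ⟨h1, h2⟩ := small_check q hs hq
    rcases hj with rfl | rfl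
    exacts [h1 (Nat.mod_eq_zero_of_dvd h), h2 (Nat.mod_eq_zero_of_dvd h)]
  have h3 := minT_big hq
  have hQ : (141 : ℤ) ≤ q := by exact_mod_cast not_lt.1 hs
  have hz : ((minT q - j : ℕ) : ℤ) ∣ (ordN q : ℤ) := Int.natCast_dvd_natCast.2 h
  rw [Nat.cast_sub (by omega), minT_cast hq, ordN_cast hq] at hz
  set Q := (q : ℤ)
  rcases hj with rfl | rfl
  · have hne : Q ^ 4 - Q ^ 2 + 1 ≠ 0 := by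
      have : (141 : ℤ) ^ 2 ≤ Q ^ 2 := pow_le_pow_left₀ (by norm_num) hQ 2
      nlinarith
    have hb := r7_bound Q ((mul_dvd_mul_iff_right hne).1 (by
      refine dvd_trans (dvd_of_eq ?_) (dvd_trans hz (dvd_of_eq ?_)) <;> push_cast <;> ring))
    have hbig : (0 : ℤ) ≤ Q ^ 2 * (Q - 1) * (Q ^ 2 + 1) + (Q - 1) := by
      have : (0 : ℤ) ≤ Q - 1 := by linarith
      positivity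
    have h7 : (141 : ℤ) ^ 7 ≤ Q ^ 7 := pow_le_pow_left₀ (by norm_num) hQ 7
    have := Int.le_of_dvd (by norm_num) hb
    nlinarith
  · have hne : Q - 1 ≠ 0 := by linarith
    have hb := r10_bound Q ((mul_dvd_mul_iff_right hne).1 (by
      refine dvd_trans (dvd_of_eq ?_) (dvd_trans hz (dvd_of_eq ?_)) <;> push_cast <;> ring))
    have h10 : (141 : ℤ) ^ 10 ≤ Q ^ 10 := pow_le_pow_left₀ (by norm_num) hQ 10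
    have h9 : (141 : ℤ) ^ 9 ≤ Q ^ 9 := pow_le_pow_left₀ (by norm_num) hQ 9
    have hrest : (0 : ℤ) ≤ Q ^ 8 + Q ^ 6 + Q ^ 5 + 2 * Q ^ 4 + Q ^ 3 + Q ^ 2 + Q := by
      have : (0 : ℤ) ≤ Q := by linarith
      positivity
    have := Int.le_of_dvd (by norm_num) hb
    nlinarith

end CfsgLib.TwistedLie.E6.MinDeg65
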