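import Cfsg.Agent.TwistedLie.E6Order
import Mathlib.Algebra.BigOperators.Fin
import Mathlib.NumberTheory.LegendreSymbol.AddCharacter
import Mathlib.Analysis.Fourier.FiniteAbelian.PontryaginDuality

/-!
Abelian-by-central coordinate blocks of root groups in `²E₆(q)`.
-/

set_option autoImplicit false

namespace CfsgLib.TwistedLie.E6.MinDeg65

open Cfsg.Lie CfsgLib.Chevalley CfsgLib.TwistedLie

local notation "S" => sysE6

section Plain

variable {K : Type*} [Field K]

/-- The element of the highest root. -/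
noncomputable def zE (t : K) : GL chevE6.Idx K := Sys.xG S K 71 t

theorem conj_term {r s w : ℕ} {C : ℤ} (hr : r < chevE6.nroots) (hs : s < chevE6.nroots) (h1 : s ≠ r)
    (h2 : s ≠ chevE6.neg r) (h : chevE6.commTerms r s = [(w, C, 1, 1)]) (a u : K) :
    Sys.xG S K r a * Sys.xG S K s u * (Sys.xG S K r a)⁻¹ =
      Sys.xG S K s u * Sys.xG S K w ((C : K) * a * u) := by
  have e := Sys.xG_comm S K hr hs h1 h2 (-a) u
  have e' : Sys.wG S K (chevE6.commWord K r s (-a) u) = Sys.xG S K w ((C : K) * a * u) := by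
    simp [ChevalleyDatum.commWord, h, Sys.wG, mul_assoc]
  rw [e', ← Sys.xG_inv, inv_inv] at e
  exact e

theorem conj_none {r s : ℕ} (hr : r < chevE6.nroots) (hs : s < chevE6.nroots) (h1 : s ≠ r)
    (h2 : s ≠ chevE6.neg r) (h : chevE6.commTerms r s = []) (a u : K) :
    Sys.xG S K r a * Sys.xG S K s u * (Sys.xG S K r a)⁻¹ = Sys.xG S K s u := by
  rw [(xG_commute S K hr hs h1 h2 h a u).eq, mul_inv_cancel_right]

theorem zE_add (t u : K) : zE t * zE u = zE (t + u) := Sys.xG_add S K 71 t u

theorem zE_zero : zE (0 : K) = 1 := Sys.xG_zero S K 71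

theorem zE_inj {t u : K} (h : zE t = zE u) : t = u := xG_inj S K (by decide) h

theorem zE_commute {r : ℕ} (h36 : 36 ≤ r) (h : r < 71) (a t : K) :
    Commute (Sys.xG S K r a) (zE t) := by
  have hd := (by decide +kernel : ∀ r < 71, 36 ≤ r → chevE6.commTerms r 71 = [] ∧ 71 ≠ chevE6.neg r)
    r h h36
  have hr : r < chevE6.nroots := lt_trans h (by decide)
  exact xG_commute S K hr (by decide) (by omega) hd.2 hd.1 a t

end Plain

/-- A block of root coordinates, closed under the symmetry, whose root groups commute up to the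
highest root. -/
structure Blk (n : ℕ) where
  /-- the roots -/
  rt : Fin n → ℕ
  /-- the symmetry -/
  pr : Fin n → Fin n
  /-- its signs -/
  sg : Fin n → ℤ
  /-- the commutator constants -/
  cz : Fin n → Fin n → ℤ
  /-- the fixed positions -/
  fixs : List (Fin n)
  /-- the pairs -/
  pairs : List (Fin n × Fin n)
  rt_pos : ∀ i, 36 ≤ rt i ∧ rt i < 71
  rt_sorted : (List.range' 36 36).filter (fun r => decide (r = 71 ∨ ∃ i, rt i = r)) =
    List.ofFn rt ++ [71]
  rt_comm : ∀ i j, i ≠ j → rt j ≠ rt i ∧ rt j ≠ chevE6.neg (rt i) ∧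
    chevE6.commTerms (rt i) (rt j) = if cz i j = 0 then [] else [(71, cz i j, 1, 1)]
  cz_self : ∀ i, cz i i = 0
  pr_rt : ∀ i, pE (rt i) = rt (pr i) ∧ sgE (rt i) = sg i
  pr_pr : ∀ i, pr (pr i) = i
  sg_fix : ∀ i, pr i = i → sg i = 1
  sg_sg : ∀ i, sg i * sg (pr i) = 1
  ord_perm : (fixs ++ pairs.flatMap fun e => [e.1, e.2]).Perm (List.finRange n)
  fixs_ok : ∀ i ∈ fixs, pr i = i
  pairs_ok : ∀ e ∈ pairs, pr e.1 = e.2 ∧ e.1 ≠ e.2 ∧ cz e.2 e.1 = 0

namespace Blk

variable {n : ℕ} (B : Blk n)

/-- The order of the factors. -/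
def ord : List (Fin n) := B.fixs ++ B.pairs.flatMap fun e => [e.1, e.2]

theorem mem_ord (i : Fin n) : i ∈ B.ord := B.ord_perm.mem_iff.2 (List.mem_finRange i)

theorem ord_nodup : B.ord.Nodup := B.ord_perm.nodup_iff.2 (List.nodup_finRange n)

theorem rt_lt (i : Fin n) : B.rt i < chevE6.nroots := lt_trans (B.rt_pos i).2 (by decide)

variable {K : Type*} [Field K]

/-- A root element of the block. -/
noncomputable def xr (i : Fin n) (t : K) : GL chevE6.Idx K := Sys.xG S K (B.rt i) t

/-- A product of root elements along a list. -/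
noncomputable def EL (l : List (Fin n)) (x : Fin n → K) : GL chevE6.Idx K :=
  (l.map fun i => B.xr i (x i)).prod

/-- The coordinate map. -/
noncomputable def E (x : Fin n → K) : GL chevE6.Idx K := B.EL B.ord x

theorem EL_nil (x : Fin n → K) : B.EL [] x = 1 := rfl

theorem EL_cons (i : Fin n) (l : List (Fin n)) (x : Fin n → K) :
    B.EL (i :: l) x = B.xr i (x i) * B.EL l x := by simp [EL]

theorem EL_append (l m : List (Fin n)) (x : Fin n → K) :
    B.EL (l ++ m) x = B.EL l x * B.EL m x := by simp [EL]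

theorem EL_commute_z (l : List (Fin n)) (x : Fin n → K) (t : K) : Commute (B.EL l x) (zE t) := by
  induction l with
  | nil => exact Commute.one_left _
  | cons i l ih =>
    rw [EL_cons]
    exact (zE_commute (B.rt_pos i).1 (B.rt_pos i).2 _ t).mul_left ih

theorem swap_one (i j : Fin n) (t u : K) :
    B.xr i t * B.xr j u = B.xr j u * B.xr i t * zE ((B.cz i j : K) * t * u) := by
  rcases eq_or_ne i j with rfl | hij
  · rw [B.cz_self, Int.cast_zero, zero_mul, zero_mul, zE_zero, mul_one, xr, xr, Sys.xG_add,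
      Sys.xG_add, add_comm]
  obtain ⟨h1, h2, h3⟩ := B.rt_comm i j hij
  by_cases hc : B.cz i j = 0
  · rw [if_pos hc] at h3
    rw [hc, Int.cast_zero, zero_mul, zero_mul, zE_zero, mul_one]
    exact (xG_commute S K (B.rt_lt i) (B.rt_lt j) h1 h2 h3 t u).eq
  · rw [if_neg hc] at h3
    have e := conj_term (B.rt_lt i) (B.rt_lt j) h1 h2 h3 t u
    rw [mul_inv_eq_iff_eq_mul] at e
    rw [show B.xr i t * B.xr j u = _ from e, mul_assoc, ← zE,
      ← (zE_commute (B.rt_pos i).1 (B.rt_pos i).2 t _).eq, ← mul_assoc]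
    rfl

/-- Moving a root element past a product. -/
theorem swap (i : Fin n) (t : K) (l : List (Fin n)) (y : Fin n → K) :
    B.xr i t * B.EL l y = B.EL l y * B.xr i t *
      zE ((l.map fun j => (B.cz i j : K) * t * y j).sum) := by
  induction l with
  | nil => simp [EL, zE_zero]
  | cons j l ih =>
    rw [EL_cons, List.map_cons, List.sum_cons, ← zE_add, ← mul_assoc, swap_one,
      mul_assoc (B.xr j (y j) * B.xr i t), ← (B.EL_commute_z l y _).eq,
      mul_assoc (B.xr j (y j)), ← mul_assoc (B.xr i t), ih]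
    simp only [mul_assoc]
    rw [zE_add, zE_add, add_comm]

theorem EL_mul (l : List (Fin n)) (x y : Fin n → K) : ∃ w,
    B.EL l x * B.EL l y = B.EL l (x + y) * zE w ∧
      ((∀ i ∈ l, ∀ j ∈ l, x i ≠ 0 → y j ≠ 0 → B.cz i j = 0) → w = 0) := by
  induction l with
  | nil => exact ⟨0, by simp [EL, zE_zero], fun _ => rfl⟩
  | cons i l ih =>
    obtain ⟨w, hw, hw0⟩ := ih
    set s := (l.map fun j => (B.cz i j : K) * y i * x j).sum
    have hsw := B.swap i (y i) l x
    have h : B.EL l x * B.xr i (y i) = B.xr i (y i) * B.EL l x * zE (-s) := by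
      rw [hsw, mul_assoc, zE_add, add_neg_cancel, zE_zero, mul_one]
    refine ⟨w + -s, ?_, ?_⟩
    · rw [EL_cons, EL_cons, EL_cons, Pi.add_apply,
        show B.xr i (x i + y i) = B.xr i (x i) * B.xr i (y i) from (Sys.xG_add S K _ _ _).symm,
        mul_assoc, ← mul_assoc (B.EL l x), h]
      simp only [mul_assoc]
      rw [← (B.EL_commute_z l y (-s)).eq, ← mul_assoc (B.EL l x), hw, mul_assoc, zE_add]
    · intro hc
      rw [hw0 (fun a ha b hb => hc a (List.mem_cons_of_mem _ ha) b (List.mem_cons_of_mem _ hb)),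
        zero_add, neg_eq_zero]
      refine List.sum_eq_zero fun c hc' => ?_
      obtain ⟨j, hj, rfl⟩ := List.mem_map.1 hc'
      by_cases h1 : y i = 0
      · rw [h1, mul_zero, zero_mul]
      by_cases h2 : x j = 0
      · rw [h2, mul_zero]
      have e := hc j (List.mem_cons_of_mem _ hj) i (List.mem_cons_self ..) h2 h1
      rcases eq_or_ne i j with rfl | hij
      · rw [e, Int.cast_zero, zero_mul, zero_mul]
      have e2 := B.swap_one (K := K) i j 1 1
      rw [show B.xr j (1 : K) * B.xr i 1 = B.xr i 1 * B.xr j 1 * zE ((B.cz j i : K) * 1 * 1) from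
        B.swap_one j i 1 1, e, Int.cast_zero, zero_mul, zero_mul, zE_zero, mul_one] at e2
      have e3 : (B.cz i j : K) * 1 * 1 = 0 := zE_inj (by rw [zE_zero]; exact mul_eq_left.mp e2.symm)
      rw [mul_one, mul_one] at e3
      rw [e3, zero_mul, zero_mul]

theorem E_add (x y : Fin n → K) : ∃ w, B.E x * B.E y = B.E (x + y) * zE w :=
  (B.EL_mul B.ord x y).imp fun _ h => h.1

/-- Exact additivity on mutually commuting coordinates. -/
theorem E_add_exact {x y : Fin n → K} (h : ∀ i j, x i ≠ 0 → y j ≠ 0 → B.cz i j = 0) :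
    B.E x * B.E y = B.E (x + y) := by
  obtain ⟨w, hw, h0⟩ := B.EL_mul B.ord x y
  rw [h0 fun i _ j _ => h i j, zE_zero, mul_one] at hw
  exact hw

theorem E_zero : B.E (0 : Fin n → K) = 1 := by
  refine List.prod_eq_one fun g hg => ?_
  obtain ⟨i, -, rfl⟩ := List.mem_map.1 hg
  exact Sys.xG_zero S K _

theorem EL_single (i : Fin n) (t : K) (l : List (Fin n)) (hl : l.Nodup) (hi : i ∈ l) :
    B.EL l (Pi.single i t) = B.xr i t := by
  rw [EL, List.prod_map_eq_pow_single i, List.count_eq_one_of_mem hl hi, pow_one, Pi.single_eq_same]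
  intro j hj _
  rw [Pi.single_eq_of_ne hj, xr, Sys.xG_zero]

theorem E_single (i : Fin n) (t : K) : B.E (Pi.single i t) = B.xr i t :=
  B.EL_single i t _ B.ord_nodup (B.mem_ord i)

/-- Congruence modulo the highest root group. -/
def Rel (g : GL chevE6.Idx K) (x : Fin n → K) : Prop := ∃ w, g = B.E x * zE w

theorem rel_E (x : Fin n → K) : B.Rel (B.E x) x := ⟨0, by rw [zE_zero, mul_one]⟩

theorem rel_z (w : K) : B.Rel (zE w) 0 := ⟨w, by rw [E_zero, one_mul]⟩

theorem rel_xr (i : Fin n) (t : K) : B.Rel (B.xr i t) (Pi.single i t) :=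
  B.E_single i t ▸ B.rel_E _

theorem Rel.mul {g h : GL chevE6.Idx K} {x y : Fin n → K} (hg : B.Rel g x) (hh : B.Rel h y) :
    B.Rel (g * h) (x + y) := by
  obtain ⟨u, rfl⟩ := hg
  obtain ⟨v, rfl⟩ := hh
  obtain ⟨w, hw⟩ := B.E_add x y
  refine ⟨w + (u + v), ?_⟩
  rw [← zE_add, ← zE_add]
  simp only [← mul_assoc]
  rw [mul_assoc (B.E x), ← (show B.E y * zE u = zE u * B.E y from (B.EL_commute_z B.ord y u).eq),
    ← mul_assoc, hw]

theorem rel_list {ι : Type*} (l : List ι) (g : ι → GL chevE6.Idx K) (x : ι → Fin n → K)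
    (h : ∀ a ∈ l, B.Rel (g a) (x a)) : B.Rel (l.map g).prod (l.map x).sum := by
  induction l with
  | nil => exact ⟨0, by simp [E_zero, zE_zero]⟩
  | cons a l ih =>
    rw [List.map_cons, List.map_cons, List.prod_cons, List.sum_cons]
    exact Rel.mul B (h a (List.mem_cons_self ..)) (ih fun b hb => h b (List.mem_cons_of_mem _ hb))

theorem sum_single (x : Fin n → K) (l : List (Fin n)) (hl : l.Perm (List.finRange n)) :
    (l.map fun i => Pi.single i (x i)).sum = x := by
  rw [(hl.map _).sum_eq, ← Fin.sum_univ_def, Finset.univ_sum_single]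

theorem rel_sorted (x : Fin n → K) : B.Rel (B.EL (List.finRange n) x) x := by
  have h := B.rel_list (List.finRange n) (fun i => B.xr i (x i)) (fun i => Pi.single i (x i))
    fun i _ => B.rel_xr i (x i)
  rwa [sum_single x _ (List.Perm.refl _)] at h

/-- The coordinates are unique modulo the highest root group. -/
theorem rel_unique {g : GL chevE6.Idx K} {x y : Fin n → K} (hx : B.Rel g x) (hy : B.Rel g y) :
    x = y := by
  classical
  -- coordinates in increasing order
  let ext : (Fin n → K) → K → ℕ → K := fun v w r =>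
    if r = 71 then w else if h : ∃ i, B.rt i = r then v h.choose else 0
  have hinj : Function.Injective B.rt := fun i j h => by
    by_contra hne
    exact (B.rt_comm i j hne).1 h.symm
  have key : ∀ v w, B.EL (List.finRange n) v * zE w =
      Sys.ordProd S K (ext v w) (chevE6.nroots / 2) := by
    intro v w
    have h36 : (List.range' (chevE6.nroots / 2) (chevE6.nroots - chevE6.nroots / 2)) =
      List.range' 36 36 := by rfl
    rw [Sys.ordProd, Sys.wG, h36, List.map_map]
    have hfil : ∀ l : List ℕ, (l.map fun r => Sys.xG S K r (ext v w r)).prod =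
        ((l.filter fun r => decide (r = 71 ∨ ∃ i, B.rt i = r)).map
          fun r => Sys.xG S K r (ext v w r)).prod := by
      intro l
      induction l with
      | nil => rfl
      | cons a l ih =>
        by_cases ha : a = 71 ∨ ∃ i, B.rt i = a
        · rw [List.filter_cons_of_pos (by simpa using ha)]
          simp [ih]
        · rw [List.filter_cons_of_neg (by simpa using ha), List.map_cons, List.prod_cons, ih]
          push Not at ha
          have : ext v w a = 0 := by
            simp only [ext, if_neg ha.1]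
            rw [dif_neg]
            rintro ⟨i, hi⟩
            exact ha.2 i hi
          rw [this, Sys.xG_zero, one_mul]
    rw [show ((fun e : ℕ × K => Sys.xG S K e.1 e.2) ∘ fun r => (r, ext v w r)) =
      fun r => Sys.xG S K r (ext v w r) from rfl, hfil, B.rt_sorted, List.map_append,
      List.prod_append, List.ofFn_eq_map, List.map_map]
    congr 1
    · refine congrArg List.prod (List.map_congr_left fun i _ => ?_)
      show _ = Sys.xG S K (B.rt i) (ext v w (B.rt i))
      have h : ∃ j, B.rt j = B.rt i := ⟨i, rfl⟩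
      simp only [ext, if_neg (show B.rt i ≠ 71 by have := (B.rt_pos i).2; omega), dif_pos h,
        hinj h.choose_spec]
      rfl
    · simp [ext, zE]
  obtain ⟨u, hu⟩ := hx
  obtain ⟨v, hv⟩ := hy
  obtain ⟨u', hu'⟩ := B.rel_sorted x
  obtain ⟨v', hv'⟩ := B.rel_sorted y
  have e : B.EL (List.finRange n) x * zE (u - u') = B.EL (List.finRange n) y * zE (v - v') := by
    rw [hu', hv', mul_assoc, mul_assoc, zE_add, zE_add, add_sub_cancel, add_sub_cancel, ← hu, ← hv]
  rw [key, key] at e
  funext i
  have h := Sys.ordProd_inj_half S K e (r := B.rt i) (by have := (B.rt_pos i).1; exact this)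
    (B.rt_lt i)
  have hh : ∃ j, B.rt j = B.rt i := ⟨i, rfl⟩
  simpa only [ext, if_neg (show B.rt i ≠ 71 by have := (B.rt_pos i).2; omega), dif_pos hh,
    hinj hh.choose_spec] using h

/-- The pairing of coordinates. -/
def dot (A x : Fin n → K) : K := ∑ i, A i * x i

theorem dot_add_right (A x y : Fin n → K) : dot A (x + y) = dot A x + dot A y := by
  simp [dot, mul_add, Finset.sum_add_distrib]

theorem dot_add_left (A A' x : Fin n → K) : dot (A + A') x = dot A x + dot A' x := by
  simp [dot, add_mul, Finset.sum_add_distrib]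

theorem dot_smul_left (c : K) (A x : Fin n → K) : dot (c • A) x = c * dot A x := by
  simp [dot, Finset.mul_sum, mul_assoc]

theorem dot_smul_right (c : K) (A x : Fin n → K) : dot A (c • x) = c * dot A x := by
  simp [dot, Finset.mul_sum, mul_left_comm]

theorem dot_single (A : Fin n → K) (i : Fin n) (t : K) : dot A (Pi.single i t) = A i * t := by
  simp [dot, Pi.single_apply]

end Blk

section Finite

variable {K : Type*} [Field K] [Fintype K] {q : ℕ} (hq : IsPrimePow q) (hK : Fintype.card K = q ^ 2)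

local notation "G1" => chevE6.genSubgroup K (e6Words K q)

/-- The field with `q` elements. -/
noncomputable abbrev F0 : Subfield K := (phi hq hK).eqLocusField (RingHom.id K)

theorem F0_phi (t : F0 hq hK) : phi hq hK (t : K) = t := t.2

theorem card_F0 : Nat.card (F0 hq hK) = q :=
  (Nat.card_congr (Equiv.subtypeEquivRight fun _ => Iff.rfl)).trans
    (card_fixedAdd K hq hK (phi_apply hq hK))

theorem exists_phi_ne : ∃ t : K, phi hq hK t ≠ t := by
  by_contra hcon
  push Not at hcon
  have h := card_F0 hq hK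
  rw [Nat.card_congr (Equiv.subtypeUnivEquiv (α := K) (p := (· ∈ F0 hq hK)) fun t => hcon t),
    Nat.card_eq_fintype_card, hK] at h
  have := hq.two_le
  nlinarith

theorem mem_of_fixed {g : GL chevE6.Idx K} (hg : g ∈ chevE6.posUnipotent K)
    (hfix : sigma hq hK g = g) : g ∈ G1 := by
  refine (tw hq hK).flipFix_le_G longWord ((tw hq hK).mem_flipFix.2 ⟨?_, hfix⟩)
  rw [Sys.posUnipotent_eq S] at hg
  refine (Subgroup.closure_le _).2 ?_ hg
  rintro _ ⟨r, ⟨h12, h24⟩, t, rfl⟩
  refine Sys.xG_mem_uSub S K (P := Sys.flipSet S K ((tw hq hK).nW longWord))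
    ⟨h24, ?_⟩ h12 h24 t
  rw [(tw hq hK).perm_nW]
  show (Sys.wperm S (longWord.flatMap blkF) ⟨r, h24⟩ : ℕ) < _
  rw [wperm_flat]
  exact long_neg r h24 h12

theorem sigma_x {r : ℕ} (hr : r < chevE6.nroots) (t : K) :
    sigma hq hK (Sys.xG S K r t) = Sys.xG S K (pE r) ((sgE r : K) * phi hq hK t) :=
  twistHom_x S K graphE6 (phi hq hK) hr t

omit [Fintype K] in
theorem xG_pos {r : ℕ} (h36 : 36 ≤ r) (h : r < 72) (t : K) :
    Sys.xG S K r t ∈ chevE6.posUnipotent K := by
  rw [Sys.posUnipotent_eq S]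
  exact Subgroup.subset_closure ⟨r, ⟨h36, h⟩, t, rfl⟩

theorem sigma_z (t : K) : sigma hq hK (zE t) = zE (phi hq hK t) := by
  rw [zE, sigma_x hq hK (by decide), show pE 71 = 71 by decide +kernel,
    show sgE 71 = 1 by decide +kernel, Int.cast_one, one_mul]
  rfl

theorem zE_mem {t : K} (ht : phi hq hK t = t) : zE t ∈ G1 :=
  mem_of_fixed hq hK (xG_pos (by norm_num) (by norm_num) t) (by rw [sigma_z, ht])

theorem zE_mem_iff {t : K} : zE t ∈ G1 ↔ phi hq hK t = t := by
  refine ⟨fun h => ?_, zE_mem hq hK⟩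
  have hs := (tw hq hK).σ_mem h
  change sigma hq hK _ = _ at hs
  rw [sigma_z] at hs
  exact zE_inj hs

namespace Blk

variable {n : ℕ} (B : Blk n)

/-- The coordinates fixed by the twisting. -/
def M : AddSubgroup (Fin n → K) where
  carrier := {x | ∀ i, x (B.pr i) = (B.sg i : K) * phi hq hK (x i)}
  zero_mem' := fun i => by simp
  add_mem' := fun {x y} hx hy i => by rw [Pi.add_apply, Pi.add_apply, map_add, hx i, hy i, mul_add]
  neg_mem' := fun {x} hx i => by rw [Pi.neg_apply, Pi.neg_apply, map_neg, hx i, mul_neg]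

theorem mem_M {x : Fin n → K} :
    x ∈ B.M hq hK ↔ ∀ i, x (B.pr i) = (B.sg i : K) * phi hq hK (x i) := Iff.rfl

omit [Fintype K] in
theorem sg_cast (i : Fin n) : (B.sg i : K) * (B.sg (B.pr i) : K) = 1 := by
  rw [← Int.cast_mul, B.sg_sg, Int.cast_one]

theorem sigma_xr (i : Fin n) (t : K) :
    sigma hq hK (B.xr i t) = B.xr (B.pr i) ((B.sg i : K) * phi hq hK t) := by
  rw [xr, sigma_x hq hK (B.rt_lt i), (B.pr_rt i).1, (B.pr_rt i).2]
  rfl

omit [Fintype K] in
theorem EL_pos (l : List (Fin n)) (x : Fin n → K) : B.EL l x ∈ chevE6.posUnipotent K := by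
  refine Subgroup.list_prod_mem _ fun g hg => ?_
  obtain ⟨i, -, rfl⟩ := List.mem_map.1 hg
  exact xG_pos (B.rt_pos i).1 (lt_trans (B.rt_pos i).2 (by norm_num)) _

theorem E_mem {x : Fin n → K} (hx : x ∈ B.M hq hK) : B.E x ∈ G1 := by
  refine mem_of_fixed hq hK (B.EL_pos _ x) ?_
  rw [E, ord, EL_append, map_mul]
  congr 1
  · rw [EL, map_list_prod, List.map_map]
    refine congrArg List.prod (List.map_congr_left fun i hi => ?_)
    show sigma hq hK (B.xr i (x i)) = B.xr i (x i)
    rw [sigma_xr, ← hx i, B.fixs_ok i hi]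
  · have : ∀ l : List (Fin n × Fin n), (∀ e ∈ l, e ∈ B.pairs) →
        sigma hq hK (B.EL (l.flatMap fun e => [e.1, e.2]) x) =
          B.EL (l.flatMap fun e => [e.1, e.2]) x := by
      intro l
      induction l with
      | nil => intro _; simp [EL]
      | cons e l ih =>
        intro hl
        obtain ⟨h1, -, h3⟩ := B.pairs_ok e (hl e (List.mem_cons_self ..))
        rw [List.flatMap_cons, EL_append, map_mul, ih fun a ha => hl a (List.mem_cons_of_mem _ ha)]
        congr 1
        simp only [EL, List.map_cons, List.map_nil, List.prod_cons, List.prod_nil, mul_one, map_mul]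
        rw [sigma_xr, sigma_xr, ← hx e.1, ← hx e.2, h1,
          show B.pr e.2 = e.1 by rw [← h1, B.pr_pr], B.swap_one, h3, Int.cast_zero, zero_mul,
          zero_mul, zE_zero, mul_one]
    exact this _ fun e he => he

/-- The symmetry on coordinates. -/
noncomputable def sV (x : Fin n → K) : Fin n → K :=
  fun i => (B.sg (B.pr i) : K) * phi hq hK (x (B.pr i))

theorem mem_M_iff_sV {x : Fin n → K} : x ∈ B.M hq hK ↔ B.sV hq hK x = x := by
  refine ⟨fun h => funext fun i => ?_, fun h i => ?_⟩
  · rw [sV, ← h (B.pr i), B.pr_pr]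
  · conv_lhs => rw [← h]
    simp [sV, B.pr_pr]

theorem sigma_rel {g : GL chevE6.Idx K} {x : Fin n → K} (h : B.Rel g x) :
    B.Rel (sigma hq hK g) (B.sV hq hK x) := by
  obtain ⟨w, rfl⟩ := h
  rw [map_mul, sigma_z, E, EL, map_list_prod, List.map_map]
  rw [show B.sV hq hK x = B.sV hq hK x + 0 by rw [add_zero]]
  refine Rel.mul B ?_ (B.rel_z _)
  have hsum : ((B.ord.map fun i => (Pi.single (B.pr i) ((B.sg i : K) * phi hq hK (x i)) : Fin n → K))).sum
      = B.sV hq hK x := by
    rw [((show B.ord.Perm (List.finRange n) from B.ord_perm).map _).sum_eq, ← Fin.sum_univ_def]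
    funext j
    rw [Finset.sum_apply, Finset.sum_eq_single (B.pr j)]
    · rw [B.pr_pr, Pi.single_eq_same]; rfl
    · intro i _ hi
      exact Pi.single_eq_of_ne (fun h => hi (by rw [h, B.pr_pr])) _
    · simp
  rw [← hsum]
  refine B.rel_list _ _ _ fun i _ => ?_
  show B.Rel (sigma hq hK (B.xr i (x i))) _
  rw [sigma_xr]
  exact B.rel_xr _ _

/-- Elements of the group have coordinates fixed by the twisting. -/
theorem mem_M_of_rel {g : GL chevE6.Idx K} {x : Fin n → K} (hg : g ∈ G1) (h : B.Rel g x) :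
    x ∈ B.M hq hK := by
  rw [mem_M_iff_sV]
  have h' := B.sigma_rel hq hK h
  have hs := (tw hq hK).σ_mem hg
  change sigma hq hK g = g at hs
  rw [hs] at h'
  exact B.rel_unique h' h

theorem smul_mem_M {c : K} (hc : phi hq hK c = c) {x : Fin n → K} (hx : x ∈ B.M hq hK) :
    c • x ∈ B.M hq hK := fun i => by
  rw [Pi.smul_apply, Pi.smul_apply, smul_eq_mul, smul_eq_mul, map_mul, hx i, hc]; ring

theorem dot_fixed {A x : Fin n → K} (hA : A ∈ B.M hq hK) (hx : x ∈ B.M hq hK) :
    phi hq hK (dot A x) = dot A x := by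
  rw [dot, map_sum]
  refine Fintype.sum_equiv (Function.Involutive.toPerm B.pr B.pr_pr) _ _ fun i => ?_
  show phi hq hK (A i * x i) = A (B.pr i) * x (B.pr i)
  have hs : (B.sg i : K) * (B.sg i : K) = 1 := by
    have h := B.sg_sg i
    rcases Int.eq_one_or_neg_one_of_mul_eq_one h with e | e <;> simp [e]
  rw [map_mul, hA i, hx i]
  linear_combination (-(phi hq hK (A i) * phi hq hK (x i))) * hs

/-- The element of the space supported on one orbit. -/
noncomputable def one1 (i : Fin n) (t : K) : Fin n → K :=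
  if B.pr i = i then Pi.single i t
  else Pi.single i t + Pi.single (B.pr i) ((B.sg i : K) * phi hq hK t)

theorem one1_mem {i : Fin n} {t : K} (ht : B.pr i = i → phi hq hK t = t) :
    B.one1 hq hK i t ∈ B.M hq hK := by
  intro j
  unfold one1
  have hpp := B.pr_pr
  split_ifs with hi
  · by_cases hj : j = i
    · subst hj
      rw [hi, Pi.single_eq_same, ht hi, B.sg_fix _ hi, Int.cast_one, one_mul]
    · rw [Pi.single_eq_of_ne hj, Pi.single_eq_of_ne, map_zero, mul_zero]
      exact fun e => hj (by rw [← hpp j, e, hi])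
  · have hne : B.pr i ≠ i := hi
    by_cases hj : j = i
    · subst hj
      simp [hne, hne.symm]
    · by_cases hj2 : j = B.pr i
      · subst hj2
        have hs := B.sg_cast (K := K) i
        simp only [Pi.add_apply, hpp, Pi.single_eq_same, Pi.single_eq_of_ne hne.symm,
          Pi.single_eq_of_ne hne, zero_add, add_zero, map_mul, map_intCast, phi_phi]
        rw [← mul_assoc, mul_comm (B.sg (B.pr i) : K), hs, one_mul]
      · have h1 : B.pr j ≠ i := fun e => hj2 (by rw [← e, hpp])
        have h2 : B.pr j ≠ B.pr i := fun e => hj (by rw [← hpp j, e, hpp])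
        simp [Pi.single_eq_of_ne hj, Pi.single_eq_of_ne hj2, Pi.single_eq_of_ne h1,
          Pi.single_eq_of_ne h2]

theorem eq_zero_of_dot {d : Fin n → K} (h : ∀ x ∈ B.M hq hK, dot d x = 0) : d = 0 := by
  funext i
  by_cases hi : B.pr i = i
  · have := h _ (B.one1_mem hq hK (i := i) (t := 1) fun _ => map_one _)
    simpa [one1, hi, dot_single] using this
  · obtain ⟨t, ht⟩ := exists_phi_ne hq hK
    have h1 := h _ (B.one1_mem hq hK (i := i) (t := 1) fun e => absurd e hi)
    have h2 := h _ (B.one1_mem hq hK (i := i) (t := t) fun e => absurd e hi)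
    simp only [one1, if_neg hi, dot_add_right, dot_single, map_one] at h1 h2
    have h3 : d i * (t - phi hq hK t) = 0 := by linear_combination h2 - phi hq hK t * h1
    exact (mul_eq_zero.1 h3).resolve_right (sub_ne_zero.2 ht.symm)

theorem mem_M_of_dot {A : Fin n → K} (h : ∀ x ∈ B.M hq hK, phi hq hK (dot A x) = dot A x) :
    A ∈ B.M hq hK := by
  rw [mem_M_iff_sV, ← sub_eq_zero]
  refine B.eq_zero_of_dot hq hK fun x hx => ?_
  have e : dot (B.sV hq hK A) x = phi hq hK (dot A x) := by
    rw [dot, dot, map_sum]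
    refine Fintype.sum_equiv (Function.Involutive.toPerm B.pr B.pr_pr) _ _ fun i => ?_
    show (B.sg (B.pr i) : K) * phi hq hK (A (B.pr i)) * x i = phi hq hK (A (B.pr i) * x (B.pr i))
    have hxi := hx (B.pr i)
    rw [B.pr_pr] at hxi
    have hs : (B.sg (B.pr i) : K) * (B.sg (B.pr i) : K) = 1 := by
      rcases Int.eq_one_or_neg_one_of_mul_eq_one (by rw [mul_comm]; exact B.sg_sg i : B.sg (B.pr i) * B.sg i = 1)
        with e | e <;> simp [e]
    have e2 : phi hq hK (x i) = (B.sg (B.pr i) : K) * x (B.pr i) := by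
      rw [hxi, map_mul, map_intCast, phi_phi]
    rw [map_mul, hxi]
    linear_combination (phi hq hK (A (B.pr i)) * phi hq hK (x (B.pr i))) * hs
  have : dot (B.sV hq hK A - A) x = dot (B.sV hq hK A) x - dot A x := by
    simp [dot, sub_mul, Finset.sum_sub_distrib]
  rw [this, e, h x hx, sub_self]

open scoped Classical in
/-- The number of fixed coordinate vectors supported on a stable set. -/
theorem card_supp (P : Fin n → Prop) [DecidablePred P] (hP : ∀ i, P i → P (B.pr i)) {k : ℕ}
    (hk : ∑ i ∈ Finset.univ.filter (fun i : Fin n => P i ∧ (i : ℕ) ≤ B.pr i),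
      (if B.pr i = i then 1 else 2) = k) :
    Nat.card {x : Fin n → K // x ∈ B.M hq hK ∧ ∀ i, ¬ P i → x i = 0} = q ^ k := by
  have hpp := B.pr_pr
  let R := {i : Fin n // P i ∧ (i : ℕ) ≤ B.pr i}
  let V : R → Type _ := fun i => {t : K // B.pr i.1 = i.1 → phi hq hK t = t}
  have hlow : ∀ i, P i → ¬ (i : ℕ) ≤ B.pr i → P (B.pr i) ∧ (B.pr i : ℕ) ≤ B.pr (B.pr i) :=
    fun i hi h => ⟨hP i hi, by rw [hpp]; omega⟩
  let inv : (∀ i, V i) → Fin n → K := fun v i =>
    if h : P i ∧ (i : ℕ) ≤ B.pr i then (v ⟨i, h⟩).1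
    else if h' : P (B.pr i) ∧ (B.pr i : ℕ) ≤ B.pr (B.pr i) then
      (B.sg (B.pr i) : K) * phi hq hK (v ⟨B.pr i, h'⟩).1
    else 0
  have hcg : ∀ (v : ∀ i, V i) a b ha hb, a = b → (v ⟨a, ha⟩).1 = (v ⟨b, hb⟩).1 := by
    rintro v a b ha hb rfl; rfl
  have e : {x : Fin n → K // x ∈ B.M hq hK ∧ ∀ i, ¬ P i → x i = 0} ≃ ∀ i, V i :=
    { toFun := fun x i => ⟨x.1 i.1, fun hi => by
        have := x.2.1 i.1
        rw [hi, B.sg_fix _ hi, Int.cast_one, one_mul] at this
        exact this.symm⟩
      invFun := fun v => ⟨inv v, by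
        refine ⟨fun i => ?_, fun i hi => ?_⟩
        · simp only [inv]
          by_cases h : P i ∧ (i : ℕ) ≤ B.pr i
          · rw [dif_pos h]
            by_cases hf : B.pr i = i
            · rw [dif_pos (by rw [hf, hf]; exact ⟨h.1, le_rfl⟩), hcg v (B.pr i) i _ h hf, B.sg_fix i hf,
                Int.cast_one, one_mul, (v ⟨i, h⟩).2 hf]
            · have hlt : (i : ℕ) < B.pr i := lt_of_le_of_ne h.2 fun e => hf (Fin.ext e.symm)
              rw [dif_neg (by rw [hpp]; rintro ⟨-, h2⟩; omega), dif_pos (by simpa only [hpp] using h),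
                hcg v (B.pr (B.pr i)) i _ h (hpp i), hpp]
          · rw [dif_neg h]
            by_cases h' : P (B.pr i) ∧ (B.pr i : ℕ) ≤ B.pr (B.pr i)
            · rw [dif_pos h', dif_pos h', map_mul, map_intCast, phi_phi, ← mul_assoc, B.sg_cast,
                one_mul]
            · rw [dif_neg h', dif_neg h', dif_neg (by rw [hpp]; exact h), map_zero, mul_zero]
        · simp only [inv]
          rw [dif_neg fun h => hi h.1, dif_neg fun h => hi (hpp i ▸ hP _ h.1)]⟩
      left_inv := fun x => Subtype.ext (funext fun i => by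
        simp only [inv]
        split_ifs with h h'
        · rfl
        · rw [← x.2.1 (B.pr i), hpp]
        · refine (x.2.2 i fun hi => h' (hlow i hi fun hle => h ⟨hi, hle⟩)).symm)
      right_inv := fun v => funext fun i => Subtype.ext (by
        show inv v i.1 = _
        simp only [inv, dif_pos i.2]
        rfl) }
  rw [Nat.card_congr e, Nat.card_pi]
  have hV : ∀ i : R, Nat.card (V i) = q ^ (if B.pr i.1 = i.1 then 1 else 2) := by
    intro i
    by_cases hf : B.pr i.1 = i.1
    · rw [if_pos hf, pow_one, ← card_F0 hq hK]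
      exact Nat.card_congr (Equiv.subtypeEquivRight fun t => ⟨fun h => h hf, fun h _ => h⟩)
    · rw [if_neg hf, ← hK, ← Nat.card_eq_fintype_card]
      exact Nat.card_congr (Equiv.subtypeUnivEquiv fun t => fun h => absurd h hf)
  rw [Finset.prod_congr rfl fun i _ => hV i, Finset.prod_pow_eq_pow_sum, ← hk]
  congr 1
  exact (Finset.sum_subtype _ (fun i => by simp) fun i => if B.pr i = i then 1 else 2).symm

end Blk

end Finite

end CfsgLib.TwistedLie.E6.MinDeg65
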