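import Cfsg.Agent.E6MinDeg65.Pure

/-!
The cells of weights of the radical.
-/

set_option autoImplicit false

namespace CfsgLib.TwistedLie.E6.MinDeg65

open Cfsg.Lie CfsgLib.Chevalley CfsgLib.TwistedLie CfsgLib.WeightProj65

local notation "S" => sysE6

theorem cell_perm_bij {c : Cell} (hc : c ∈ cells) : Function.Bijective c.perm :=
  Finite.injective_iff_bijective.1 (cell_perm c hc).2.2.2.1

/-- The short coordinates with a long one above them. -/
def raise : List (Fin 20 × ℕ × Fin 20 × Fin 20) :=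
  [(1, 37, 2, 4), (1, 38, 3, 10), (5, 36, 6, 11), (7, 36, 8, 13), (7, 38, 9, 16), (14, 37, 15, 17)]

theorem raise_ok : ∀ e ∈ raise, QB.pr e.1 = e.1 ∧ QB.pr e.2.2.1 = e.2.2.2 ∧ PairOK e.2.1 ∧
    QB.OkOp e.2.1 ∧ QB.OkOp (pE e.2.1) ∧
    (∀ i, ∀ e' ∈ QB.stp e.2.1 i, htQ i < htQ e'.1) ∧
    (∀ i, ∀ e' ∈ QB.stp (pE e.2.1) i, htQ i < htQ e'.1) ∧
    (∃ C ∈ ([1, -1] : List ℤ), QB.stp e.2.1 e.1 = [(e.2.2.1, C)]) ∧
    (∃ C ∈ ([1, -1] : List ℤ), QB.stp (pE e.2.1) e.1 = [(e.2.2.2, C)]) ∧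
    ∀ e' ∈ QB.stp e.2.1 e.2.2.2, QB.pr e'.1 = e'.1 := by decide +kernel

theorem raise_all : ∀ i : Fin 20, QB.pr i = i ∨ ∃ e ∈ raise, i = e.2.2.1 ∨ i = e.2.2.2 := by
  intro i
  fin_cases i
  · exact Or.inl rfl
  · exact Or.inl rfl
  · exact Or.inr ⟨(1, 37, 2, 4), by simp [raise], Or.inl rfl⟩
  · exact Or.inr ⟨(1, 38, 3, 10), by simp [raise], Or.inl rfl⟩
  · exact Or.inr ⟨(1, 37, 2, 4), by simp [raise], Or.inr rfl⟩
  · exact Or.inl rfl
  · exact Or.inr ⟨(5, 36, 6, 11), by simp [raise], Or.inl rfl⟩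
  · exact Or.inl rfl
  · exact Or.inr ⟨(7, 36, 8, 13), by simp [raise], Or.inl rfl⟩
  · exact Or.inr ⟨(7, 38, 9, 16), by simp [raise], Or.inl rfl⟩
  · exact Or.inr ⟨(1, 38, 3, 10), by simp [raise], Or.inr rfl⟩
  · exact Or.inr ⟨(5, 36, 6, 11), by simp [raise], Or.inr rfl⟩
  · exact Or.inl rfl
  · exact Or.inr ⟨(7, 36, 8, 13), by simp [raise], Or.inr rfl⟩
  · exact Or.inl rfl
  · exact Or.inr ⟨(14, 37, 15, 17), by simp [raise], Or.inl rfl⟩
  · exact Or.inr ⟨(7, 38, 9, 16), by simp [raise], Or.inr rfl⟩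
  · exact Or.inr ⟨(14, 37, 15, 17), by simp [raise], Or.inr rfl⟩
  · exact Or.inl rfl
  · exact Or.inl rfl

section Plain

variable {K : Type*} [Field K]

theorem opL_filter (l : List (ℕ × K)) (P : ℕ × K → Bool) (hP : ∀ e ∈ l, P e = false → e.2 = 0)
    (A : Fin 20 → K) : QB.opL l A = QB.opL (l.filter P) A := by
  induction l generalizing A with
  | nil => rfl
  | cons e l ih =>
    have ih' := ih fun a ha => hP a (List.mem_cons_of_mem _ ha)
    cases hb : P e with
    | true =>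
      rw [List.filter_cons_of_pos hb]
      exact ih' _
    | false =>
      rw [List.filter_cons_of_neg (by simp [hb])]
      show QB.opL l (QB.opR e.1 e.2 A) = _
      rw [hP e (List.mem_cons_self ..) hb, QB.opR_zero, ih']

/-- Downward translations keep everything above a cell. -/
theorem fU_above {c : Cell} (hc : c ∈ cells) (a : Fin 9 → K) (ha : ∀ k, k ∉ c.down → a k = 0) (u : K)
    {i : Fin 20} (hi : htQ c.s ≤ htQ i) :
    fU a (Pi.single 19 u) (c.perm i) = (Pi.single 19 u : Fin 20 → K) (c.perm i) := by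
  classical
  let e := Equiv.ofBijective c.perm (cell_perm_bij hc)
  rw [fU, uList, opL_filter _ (fun p => decide (∃ k ∈ c.down, UB.rt k = p.1)) ?_]
  · refine Blk.opL_low QB (fun j => htQ (e.symm j)) _ ?_ (k := htQ c.s) ?_ (c.perm i) ?_
    · intro p hp j e' he'
      rw [List.mem_filter] at hp
      obtain ⟨k, hk, hkp⟩ := of_decide_eq_true hp.2
      obtain ⟨j0, rfl⟩ : ∃ j0, c.perm j0 = j := (cell_perm_bij hc).2 j
      rw [← hkp, uTab_eq] at he'
      have := cell_low c hc k hk j0 e' he' (e.symm e'.1) (Equiv.ofBijective_apply_symm_apply _ _ _)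
      show htQ (e.symm (c.perm j0)) < htQ (e.symm e'.1)
      rwa [show e.symm (c.perm j0) = j0 from e.symm_apply_apply j0]
    · intro j hj
      refine Pi.single_eq_of_ne (fun hj19 => ?_) _
      subst hj19
      rw [show e.symm 19 = c.s from e.symm_apply_eq.2 (cell_perm c hc).2.2.1.symm] at hj
      exact lt_irrefl _ hj
    · show htQ c.s ≤ htQ (e.symm (c.perm i))
      rwa [show e.symm (c.perm i) = i from e.symm_apply_apply i]
  · intro p hp hn
    obtain ⟨k, -, rfl⟩ := List.mem_map.1 hp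
    refine ha k fun hk => ?_
    rw [decide_eq_false_iff_not] at hn
    exact hn ⟨k, hk, rfl⟩

end Plain

variable {K : Type*} [Field K] [Fintype K] {q : ℕ} (hq : IsPrimePow q) (hK : Fintype.card K = q ^ 2)
  {V : Type*} [AddCommGroup V] [Module ℂ V] [FiniteDimensional ℂ V] [Fintype (F0 hq hK)]
  {ρ : Representation ℂ ↥(chevE6.genSubgroup K (e6Words K q)) V} (h : Small ρ)
  (ψ : AddChar (F0 hq hK) ℂ) (hψ : ψ ≠ 1)

local notation "G1" => chevE6.genSubgroup K (e6Words K q)
local notation "CR" => CRep hq hK ρ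

/-- The pure top coordinate vector. -/
noncomputable def pureTop (u : F0 hq hK) : QB.M hq hK :=
  longEl (show QB.pr 19 = 19 from rfl) u

theorem pureTop_val (u : F0 hq hK) : (pureTop hq hK u).1 = Pi.single 19 (u : K) := longEl_val _ _

include h hψ in
theorem dim_pure {u : F0 hq hK} (hu : u ≠ 0) : (CR).dim ψ (pureTop hq hK u) = 1 := by
  classical
  have := Fintype.ofFinite (QB.M hq hK)
  have hs := top_sum hq hK h ψ hψ hu
  obtain ⟨A, hA, hd⟩ := Finset.exists_ne_zero_of_sum_ne_zero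
    (hs.trans_ne (pow_ne_zero _ (by have := hq.two_le; omega)))
  rw [Finset.mem_filter] at hA
  have h19 : A.1 19 ≠ 0 := fun e => hu (Subtype.ext (hA.2.symm.trans e))
  obtain ⟨h1, a, ha, e⟩ := top_weight hq hK h ψ hψ (Nat.pos_of_ne_zero hd) h19
  have e' : A = trans hq hK ⟨a, ha⟩ (pureTop hq hK u) := Subtype.ext (by
    rw [trans_val, pureTop_val, ← hA.2]; exact e)
  rwa [e', dim_trans] at h1

/-- The word element of a cell. -/
noncomputable def nCell (c : Cell) : ↥(chevE6.genSubgroup K (e6Words K q)) :=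
  ⟨nL S K (wdN c.L), nL_word_mem hq hK c.L⟩

/-- A weight in a cell: non-zero there, zero at the long coordinates above it. -/
def InCell (c : Cell) (A : QB.M hq hK) : Prop :=
  A.1 c.s ≠ 0 ∧ ∀ r, QB.pr r = r → htQ c.s < htQ r → A.1 r = 0

include h hψ in
/-- The weights of a cell. -/
theorem cell_param {c : Cell} (hc : c ∈ cells) :
    ∃ f, ∃ hf : QB.Acts ((nCell hq hK c : ↥G1) : GL chevE6.Idx K) f,
      (∀ (u : F0 hq hK) (a : UB.M hq hK), u ≠ 0 → (∀ k, k ∉ c.down → a.1 k = 0) →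
        InCell hq hK c (Rep.fM hf (trans hq hK a (pureTop hq hK u))) ∧
        (CR).dim ψ (Rep.fM hf (trans hq hK a (pureTop hq hK u))) = 1 ∧
        ∀ i, i ≠ c.s → htQ c.s ≤ htQ i → (Rep.fM hf (trans hq hK a (pureTop hq hK u))).1 i = 0) ∧
      (∀ A : QB.M hq hK, 0 < (CR).dim ψ A → InCell hq hK c A →
        ∃ (u : F0 hq hK) (a : UB.M hq hK), u ≠ 0 ∧ (∀ k, k ∉ c.down → a.1 k = 0) ∧
          A = Rep.fM hf (trans hq hK a (pureTop hq hK u))) ∧
      ∀ u : F0 hq hK, ∃ w : K,
        (Rep.fM hf (pureTop hq hK u)).1 = Pi.single c.s w := by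
  classical
  obtain ⟨h71, hperm, h19, hinj, hs⟩ := cell_perm c hc
  obtain ⟨f, hf0, γ, hγ, hval⟩ := QB.acts_weyl (K := K) (L := c.L) c.perm ⟨h71, hperm⟩
  have hf : QB.Acts ((nCell hq hK c : ↥G1) : GL chevE6.Idx K) f := hf0
  refine ⟨f, hf, ?_, ?_, ?_⟩
  · intro u a hu ha
    set A := Rep.fM (hq := hq) (hK := hK) (g := nCell hq hK c) hf
      (trans hq hK a (pureTop hq hK u)) with hA
    have hAi : ∀ i, A.1 i = γ i * fU a.1 (Pi.single 19 (u : K)) (c.perm i) := by
      intro i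
      show f (trans hq hK a (pureTop hq hK u)).1 i = _
      rw [hval, trans_val, pureTop_val]
    have hzero : ∀ i, i ≠ c.s → htQ c.s ≤ htQ i → A.1 i = 0 := by
      intro i hne hi
      rw [hAi, fU_above hc a.1 ha _ hi, Pi.single_eq_of_ne, mul_zero]
      exact fun e => hne (hinj (e.trans h19.symm))
    refine ⟨⟨?_, fun r hr hlt => hzero r (fun e => by rw [e] at hlt; exact lt_irrefl _ hlt) hlt.le⟩,
      ?_, hzero⟩
    · rw [hAi, fU_above hc a.1 ha _ le_rfl, h19, Pi.single_eq_same]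
      exact mul_ne_zero (hγ _) fun e => hu (Subtype.ext e)
    · exact ((CR).dim_eq ψ (h := inH hq hK (g := nCell hq hK c) hf) hf _).trans
        ((dim_trans hq hK ψ a _).trans (dim_pure hq hK h ψ hψ hu))
  · intro A hA ⟨hAs, hAr⟩
    obtain ⟨A', rfl⟩ := Finite.injective_iff_surjective.1
      ((CR).fM_injective (h := inH hq hK (g := nCell hq hK c) hf) hf) A
    replace hA := hA.trans_eq ((CR).dim_eq ψ (h := inH hq hK (g := nCell hq hK c) hf) hf A')
    have hv : ∀ i, (Rep.fM (hq := hq) (hK := hK) (g := nCell hq hK c) hf A').1 i =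
        γ i * A'.1 (c.perm i) := fun i => hval A'.1 i
    change (Rep.fM (hq := hq) (hK := hK) (g := nCell hq hK c) hf A').1 c.s ≠ 0 at hAs
    rw [hv, h19] at hAs
    have hA19 : A'.1 19 ≠ 0 := fun e => hAs (by rw [e, mul_zero])
    obtain ⟨-, a, ha, e⟩ := top_weight hq hK h ψ hψ hA hA19
    let u : F0 hq hK := ⟨A'.1 19, fix_val hq hK rfl⟩
    have e' : A' = trans hq hK ⟨a, ha⟩ (pureTop hq hK u) := Subtype.ext (by
      rw [trans_val, pureTop_val]; exact e)
    have hzero : ∀ r, QB.pr r = r → htQ c.s < htQ r → A'.1 (c.perm r) = 0 := by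
      intro r hr hlt
      have := hAr r hr hlt
      change (Rep.fM (hq := hq) (hK := hK) (g := nCell hq hK c) hf A').1 r = 0 at this
      rw [hv] at this
      exact (mul_eq_zero.1 this).resolve_left (hγ r)
    have hlong : ∀ k, UB.pr k = k → k ∉ c.down → a k = 0 := by
      intro k hk hkd
      obtain ⟨r, hr, hlt, hp⟩ := cell_up_long c hc k hk hkd
      have e1 := hzero r hr hlt
      rw [hp, e, (fU_coord _ _).2, Pi.single_eq_same,
        Pi.single_eq_of_ne (show lev1 k ≠ 19 from fun e => by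
          have := lev1_mem k; rw [e] at this; exact absurd this (by decide)), zero_add] at e1
      rcases mul_eq_zero.1 e1 with e2 | e2
      · refine (mul_eq_zero.1 e2).resolve_left ?_
        rcases (by decide +kernel : ∀ k, lev1C k = 1 ∨ lev1C k = -1) k with e | e <;> simp [e]
      · exact absurd e2 hA19
    refine ⟨u, ⟨a, ha⟩, fun e0 => hA19 (congrArg Subtype.val e0), fun k hk => ?_, congrArg _ e'⟩
    rcases short_cases k with hkk | ⟨p, hp, hkp⟩
    · exact hlong k hkk hk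
    obtain ⟨p1, p2, p3⟩ := short_pr p hp
    have hnd : p.1 ∉ c.down := by
      rcases hkp with rfl | rfl
      · exact hk
      · exact fun hm => hk (p1 ▸ cell_down c hc _ hm)
    have h1 : a p.1 = 0 := by
      obtain ⟨hor, r, hr, hlt, hp'⟩ := cell_up_short c hc p hp hnd
      obtain ⟨σ, τ, hσ, hn⟩ := fU_norm a (A'.1 19) p hp
      have e1 := hzero r (long_list r hr) hlt
      rw [hp', e, hn] at e1
      have hz : a p.2.2.1 * a p.2.2.2.1 = 0 := by
        rcases hor with hl | hl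
        · rw [hlong _ p2 hl, zero_mul]
        · rw [hlong _ p3 hl, mul_zero]
      rw [hz, mul_zero, add_zero] at e1
      rcases mul_eq_zero.1 ((mul_eq_zero.1 ((mul_eq_zero.1 e1).resolve_left hA19)).resolve_left hσ)
        with e2 | e2
      · exact e2
      · rw [← p1, (UB.mem_M hq hK).1 ha] at e2
        rcases mul_eq_zero.1 e2 with e3 | e3
        · have := UB.sg_cast (K := K) p.1
          rw [e3, zero_mul] at this
          exact absurd this zero_ne_one
        · exact (map_eq_zero _).1 e3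
    rcases hkp with rfl | rfl
    · exact h1
    · show a p.2.1 = 0
      rw [← p1, (UB.mem_M hq hK).1 ha, h1, map_zero, mul_zero]
  · intro u
    refine ⟨γ c.s * u, funext fun i => ?_⟩
    show f (pureTop hq hK u).1 i = _
    rw [hval, pureTop_val]
    by_cases hi : i = c.s
    · subst hi; rw [h19, Pi.single_eq_same, Pi.single_eq_same]
    · rw [Pi.single_eq_of_ne hi, Pi.single_eq_of_ne, mul_zero]
      exact fun e => hi (hinj (e.trans h19.symm))

omit [FiniteDimensional ℂ V] [Fintype (F0 hq hK)] in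
theorem exists_cell {A : QB.M hq hK} (hA : ∃ r, QB.pr r = r ∧ A.1 r ≠ 0) :
    ∃ c ∈ cells, InCell hq hK c A := by
  classical
  obtain ⟨r0, hr0⟩ := hA
  obtain ⟨s, hs, hmax⟩ := Finset.exists_max_image
    (Finset.univ.filter fun r => QB.pr r = r ∧ A.1 r ≠ 0) htQ
    ⟨r0, Finset.mem_filter.2 ⟨Finset.mem_univ _, hr0⟩⟩
  obtain ⟨-, hs1, hs2⟩ := Finset.mem_filter.1 hs
  obtain ⟨c, hc, rfl⟩ := cell_long s hs1
  refine ⟨c, hc, hs2, fun r hr hlt => ?_⟩
  by_contra hne
  exact absurd (hmax r (Finset.mem_filter.2 ⟨Finset.mem_univ _, hr, hne⟩)) (not_le.2 hlt)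

omit [FiniteDimensional ℂ V] [Fintype (F0 hq hK)] in
theorem cell_unique {c d : Cell} (hc : c ∈ cells) (hd : d ∈ cells) {A : QB.M hq hK}
    (h1 : InCell hq hK c A) (h2 : InCell hq hK d A) : c.s = d.s := by
  have hcs := (cell_perm c hc).2.2.2.2
  have hds := (cell_perm d hd).2.2.2.2
  rcases lt_trichotomy (htQ c.s) (htQ d.s) with h | h | h
  · exact absurd (h1.2 d.s hds h) h2.1
  · exact ht_long _ _ hcs hds h
  · exact absurd (h2.2 c.s hcs h) h1.1

include h hψ in
/-- Every non-zero weight has a non-zero long coordinate. -/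
theorem exists_long {A : QB.M hq hK} (hA : 0 < (CR).dim ψ A) (hA0 : A ≠ 0) :
    ∃ r, QB.pr r = r ∧ A.1 r ≠ 0 := by
  classical
  by_contra hcon
  push Not at hcon
  refine hA0 (Subtype.ext (funext fun i => ?_))
  have hshort : ∀ e ∈ raise, A.1 e.2.2.1 = 0 := by
    intro e he
    obtain ⟨hr, hp, hok, ho1, ho2, hl1, hl2, ⟨C, hC, hst⟩, ⟨C', hC', hst'⟩, hsrc⟩ := raise_ok e he
    have hval : ∀ a : K, (C : K) * a * A.1 e.2.2.1 +
        (C' : K) * ((sgE e.2.1 : K) * phi hq hK a) * A.1 e.2.2.2 = 0 := by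
      intro a
      let g : ↥G1 := ⟨_, pair_root_mem hq hK hok a⟩
      have hl : ∀ p ∈ pairL hq hK e.2.1 a, QB.OkOp p.1 ∧
          ∀ i, ∀ e' ∈ QB.stp p.1 i, htQ i < htQ e'.1 := by
        intro p hp'
        simp only [pairL, List.mem_cons, List.not_mem_nil, or_false] at hp'
        rcases hp' with rfl | rfl
        exacts [⟨ho1, hl1⟩, ⟨ho2, hl2⟩]
      have hf : QB.Acts (g : GL chevE6.Idx K) (QB.opL (pairL hq hK e.2.1 a)) :=
        QB.acts_list _ fun p hp' => (hl p hp').1
      have hev : QB.opL (pairL hq hK e.2.1 a) A.1 e.1 = (C : K) * a * A.1 e.2.2.1 +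
          (C' : K) * ((sgE e.2.1 : K) * phi hq hK a) * A.1 e.2.2.2 := by
        show QB.opR _ _ (QB.opR e.2.1 a A.1) e.1 = _
        rw [QB.opR_of_one hst', QB.opR_of_one hst, hcon e.1 hr, zero_add]
        congr 2
        rw [Blk.opR, List.sum_eq_zero, add_zero]
        intro x hx
        obtain ⟨e', he', rfl⟩ := List.mem_map.1 hx
        rw [hcon _ (hsrc e' he'), mul_zero]
      rw [← hev]
      by_contra hne
      set A' := Rep.fM (hq := hq) (hK := hK) (g := g) hf A with hA'def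
      have hA' : 0 < (CR).dim ψ A' := hA.trans_eq ((CR).dim_eq ψ (h := inH hq hK hf) hf A).symm
      obtain ⟨c, hc, hin⟩ := exists_cell hq hK (A := A') ⟨e.1, hr, hne⟩
      obtain ⟨fn, hfn, hP, hS, -⟩ := cell_param hq hK h ψ hψ hc
      obtain ⟨u, b, hu, hb, eA⟩ := hS A' hA' hin
      have hz := (hP u b hu hb).2.2
      rw [← eA] at hz
      -- undo the raising operation
      let gi : ↥G1 := ⟨_, pair_root_mem hq hK hok (-a)⟩
      have hl' : ∀ p ∈ pairL hq hK e.2.1 (-a), QB.OkOp p.1 ∧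
          ∀ i, ∀ e' ∈ QB.stp p.1 i, htQ i < htQ e'.1 := by
        intro p hp'
        simp only [pairL, List.mem_cons, List.not_mem_nil, or_false] at hp'
        rcases hp' with rfl | rfl
        exacts [⟨ho1, hl1⟩, ⟨ho2, hl2⟩]
      have hfi : QB.Acts (gi : GL chevE6.Idx K) (QB.opL (pairL hq hK e.2.1 (-a))) :=
        QB.acts_list _ fun p hp' => (hl' p hp').1
      have hone : (g : GL chevE6.Idx K) * (gi : GL chevE6.Idx K) = 1 := by
        obtain ⟨k1, k2, k3, k4, k5, k6, k7, k8, k9⟩ := hok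
        show ((pairL hq hK e.2.1 a).map fun e => Sys.xG S K e.1 e.2).prod *
          ((pairL hq hK e.2.1 (-a)).map fun e => Sys.xG S K e.1 e.2).prod = 1
        simp only [pairL, List.map_cons, List.map_nil, List.prod_cons, List.prod_nil, mul_one,
          map_neg, mul_neg]
        rw [← (xG_commute S K k4 k2 (Ne.symm k6) k8 k9 _ _).eq, ← mul_assoc,
          mul_assoc (Sys.xG S K (pE e.2.1) _) (Sys.xG S K e.2.1 a), Sys.xG_add, add_neg_cancel,
          Sys.xG_zero, mul_one, Sys.xG_add, add_neg_cancel, Sys.xG_zero]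
      have hback : QB.opL (pairL hq hK e.2.1 (-a)) A'.1 = A.1 := by
        have hcomp := hf.mul hfi
        rw [hone] at hcomp
        exact congrFun (hcomp.unique QB.acts_one) A.1
      have hs := (cell_perm c hc).2.2.2.2
      have e1 : QB.opL (pairL hq hK e.2.1 (-a)) A'.1 c.s = A'.1 c.s :=
        Blk.opL_low QB htQ _ (fun p hp' => (hl' p hp').2) (k := htQ c.s)
          (fun j hj => hz j (fun e => by rw [e] at hj; exact lt_irrefl _ hj) hj.le) c.s le_rfl
      rw [hback, hcon c.s hs] at e1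
      exact hin.1 e1.symm
    obtain ⟨t, ht⟩ := exists_phi_ne hq hK
    have e1 := hval 1
    have e2 := hval t
    rw [map_one] at e1
    have e3 : (C : K) * A.1 e.2.2.1 * (t - phi hq hK t) = 0 := by
      linear_combination e2 - phi hq hK t * e1
    refine (mul_eq_zero.1 ((mul_eq_zero.1 e3).resolve_right (sub_ne_zero.2 ht.symm))).resolve_left ?_
    simp only [List.mem_cons, List.not_mem_nil, or_false] at hC
    rcases hC with e | e <;> simp [e]
  rcases raise_all i with hi | ⟨e, he, rfl | rfl⟩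
  · exact hcon i hi
  · exact hshort e he
  · rw [← (raise_ok e he).2.1, A.2, hshort e he, map_zero, mul_zero]
    rfl

end CfsgLib.TwistedLie.E6.MinDeg65
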