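import Cfsg.Agent.E6MinDeg65.Tables
import Mathlib.GroupTheory.Index
import Mathlib.RepresentationTheory.Basic

/-!
The part of a representation on which the highest root group has no fixed vectors.
-/

set_option autoImplicit false

namespace CfsgLib.TwistedLie.E6.MinDeg65

open Cfsg.Lie CfsgLib.Chevalley CfsgLib.TwistedLie CfsgLib.WeightProj65

local notation "S" => sysE6

/-- The proposed degree. -/
def minT (q : ℕ) : ℕ := q * (q ^ 6 - q ^ 3 + 1) * (q ^ 4 + 1)

theorem minT_lt {q : ℕ} (hq : 2 ≤ q) : minT q < 2 * ((q - 1) * q ^ 10) := by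
  obtain ⟨j, rfl⟩ := Nat.exists_eq_add_of_le hq
  unfold minT
  have h : (2 + j) ^ 3 ≤ (2 + j) ^ 6 := Nat.pow_le_pow_right (by omega) (by norm_num)
  zify [h, show 1 ≤ 2 + j by omega]
  ring_nf
  have hj : (0 : ℤ) ≤ j := Int.natCast_nonneg j
  nlinarith [pow_nonneg hj 2, pow_nonneg hj 3, pow_nonneg hj 4, pow_nonneg hj 5, pow_nonneg hj 6,
    pow_nonneg hj 7, pow_nonneg hj 8, pow_nonneg hj 9, pow_nonneg hj 10, pow_nonneg hj 11]

variable {K : Type*} [Field K] [Fintype K] {q : ℕ} (hq : IsPrimePow q) (hK : Fintype.card K = q ^ 2)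

local notation "G1" => chevE6.genSubgroup K (e6Words K q)

/-- The root element of the highest root. -/
noncomputable def gzE (t : F0 hq hK) : ↥G1 := ⟨zE (t : K), zE_mem hq hK t.2⟩

theorem gzE_add (t u : F0 hq hK) : gzE hq hK t * gzE hq hK u = gzE hq hK (t + u) :=
  Subtype.ext (zE_add _ _)

theorem gzE_zero : gzE hq hK 0 = 1 := Subtype.ext zE_zero

/-- The element of the radical with given coordinates. -/
noncomputable def gE (x : QB.M hq hK) : ↥G1 := ⟨QB.E x.1, QB.E_mem hq hK x.2⟩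

/-- The root element of the highest root of the Levi complement. -/
noncomputable def g60 (t : F0 hq hK) : ↥G1 :=
  ⟨Sys.xG S K 60 (t : K), fix_root_mem hq hK (by decide +kernel) t.2⟩

/-- The upper half. -/
def MJ : AddSubgroup (Fin 20 → K) where
  carrier := {x | x ∈ QB.M hq hK ∧ ∀ i, ¬ Up i → x i = 0}
  zero_mem' := ⟨zero_mem _, fun _ _ => rfl⟩
  add_mem' := fun {x y} hx hy => ⟨add_mem hx.1 hy.1, fun i hi => by
    rw [Pi.add_apply, hx.2 i hi, hy.2 i hi, add_zero]⟩
  neg_mem' := fun {x} hx => ⟨neg_mem hx.1, fun i hi => by rw [Pi.neg_apply, hx.2 i hi, neg_zero]⟩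

/-- The lower half. -/
def MI : AddSubgroup (Fin 20 → K) where
  carrier := {x | x ∈ QB.M hq hK ∧ ∀ i, Up i → x i = 0}
  zero_mem' := ⟨zero_mem _, fun _ _ => rfl⟩
  add_mem' := fun {x y} hx hy => ⟨add_mem hx.1 hy.1, fun i hi => by
    rw [Pi.add_apply, hx.2 i hi, hy.2 i hi, add_zero]⟩
  neg_mem' := fun {x} hx => ⟨neg_mem hx.1, fun i hi => by rw [Pi.neg_apply, hx.2 i hi, neg_zero]⟩

theorem card_MJ : Nat.card (MJ hq hK) = q ^ 10 := QB.card_supp hq hK Up up_pr up_card

theorem card_MI : Nat.card (MI hq hK) = q ^ 10 :=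
  (Nat.card_congr (Equiv.subtypeEquivRight fun x => by
    refine and_congr Iff.rfl (forall_congr' fun i => ?_)
    rw [not_not])).trans (QB.card_supp hq hK (fun i => ¬ Up i) low_pr low_card)

theorem MJ_exact (x y : MJ hq hK) : QB.E x.1 * QB.E y.1 = QB.E (x.1 + y.1) :=
  QB.E_add_exact fun i j hi hj => up_comm i j (by_contra fun h => hi (x.2.2 i h))
    (by_contra fun h => hj (y.2.2 j h))

/-- An element of the upper half times a highest root element. -/
noncomputable def g2 (p : F0 hq hK × MJ hq hK) : ↥G1 :=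
  gzE hq hK p.1 * gE hq hK ⟨p.2.1, p.2.2.1⟩

theorem g2_add (p p' : F0 hq hK × MJ hq hK) : g2 hq hK p * g2 hq hK p' = g2 hq hK (p + p') := by
  refine Subtype.ext ?_
  show zE (p.1 : K) * QB.E p.2.1 * (zE (p'.1 : K) * QB.E p'.2.1) =
    zE ((p.1 + p'.1 : F0 hq hK) : K) * QB.E (p.2.1 + p'.2.1)
  rw [show ((p.1 + p'.1 : F0 hq hK) : K) = (p.1 : K) + p'.1 from rfl, ← zE_add, ← MJ_exact]
  simp only [mul_assoc]
  rw [← mul_assoc (QB.E p.2.1) (zE _), show QB.E p.2.1 * zE (p'.1 : K) = zE _ * QB.E p.2.1 from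
    (QB.EL_commute_z QB.ord p.2.1 _).eq, mul_assoc]

theorem mem_F0_pairC (y x : QB.M hq hK) : QB.pairC y.1 x.1 ∈ F0 hq hK := by
  refine (zE_mem_iff hq hK).1 ?_
  have e := QB.E_swap y.1 x.1
  rw [show zE (QB.pairC y.1 x.1) = (QB.E x.1 * QB.E y.1)⁻¹ * (QB.E y.1 * QB.E x.1) by
    rw [e, inv_mul_cancel_left]]
  exact mul_mem (inv_mem (mul_mem (QB.E_mem hq hK x.2) (QB.E_mem hq hK y.2)))
    (mul_mem (QB.E_mem hq hK y.2) (QB.E_mem hq hK x.2))

omit [Fintype K] in
theorem pairC_eq (y x : Fin 20 → K) :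
    QB.pairC y x = ∑ i, (QB.cz i (prtQ i) : K) * y i * x (prtQ i) := by
  have hperm : QB.ord.Perm (List.finRange 20) := QB.ord_perm
  rw [Blk.pairC, (hperm.map _).sum_eq, ← Fin.sum_univ_def]
  refine Finset.sum_congr rfl fun i _ => ?_
  rw [(hperm.map _).sum_eq, ← Fin.sum_univ_def]
  refine Finset.sum_eq_single (prtQ i) (fun j _ hj => ?_) fun h => absurd (Finset.mem_univ _) h
  have : QB.cz i j = 0 := by_contra fun h => hj (cz_prt i j h)
  rw [this, Int.cast_zero, zero_mul, zero_mul]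

omit [Fintype K] in
theorem pairC_add_left (y y' x : Fin 20 → K) :
    QB.pairC (y + y') x = QB.pairC y x + QB.pairC y' x := by
  simp [pairC_eq, mul_add, add_mul, Finset.sum_add_distrib]

omit [Fintype K] in
theorem pairC_add_right (y x x' : Fin 20 → K) :
    QB.pairC y (x + x') = QB.pairC y x + QB.pairC y x' := by
  simp [pairC_eq, mul_add, Finset.sum_add_distrib]

/-- The commutator form of the halves. -/
noncomputable def bil (j : MJ hq hK) (i : MI hq hK) : F0 hq hK :=
  ⟨QB.pairC j.1 i.1, mem_F0_pairC hq hK ⟨j.1, j.2.1⟩ ⟨i.1, i.2.1⟩⟩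

variable (ψ : AddChar (F0 hq hK) ℂ)

/-- The character of the upper half attached to an element of the lower half. -/
noncomputable def piC (i : MI hq hK) : AddChar (MJ hq hK) ℂ where
  toFun j := ψ (bil hq hK j i)
  map_zero_eq_one' := by
    rw [show bil hq hK 0 i = 0 from Subtype.ext (by simp [bil, pairC_eq]), AddChar.map_zero_eq_one]
  map_add_eq_mul' j j' := by
    rw [← AddChar.map_add_eq_mul]
    exact congrArg ψ (Subtype.ext (pairC_add_left j.1 j'.1 i.1))

theorem piC_add (i i' : MI hq hK) : piC hq hK ψ (i + i') = piC hq hK ψ i * piC hq hK ψ i' := by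
  refine DFunLike.ext _ _ fun j => ?_
  rw [AddChar.mul_apply]
  show ψ _ = ψ _ * ψ _
  rw [← AddChar.map_add_eq_mul]
  exact congrArg ψ (Subtype.ext (pairC_add_right j.1 i.1 i'.1))

theorem piC_bijective (hψ : ψ ≠ 1) : Function.Bijective (piC hq hK ψ) := by
  classical
  have := Fintype.ofFinite (MI hq hK)
  have := Fintype.ofFinite (MJ hq hK)
  refine (Fintype.bijective_iff_injective_and_card _).2 ⟨fun i i' h => ?_, ?_⟩
  · have hd : ∀ j, piC hq hK ψ (i - i') j = 1 := by
      intro j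
      have e := piC_add hq hK ψ (i - i') i'
      rw [sub_add_cancel, h] at e
      have e1 := DFunLike.congr_fun e j
      rw [AddChar.mul_apply] at e1
      refine (mul_left_eq_self₀.1 e1.symm).resolve_right fun h0 => ?_
      have := AddChar.map_add_eq_mul (piC hq hK ψ i') j (-j)
      rw [add_neg_cancel, AddChar.map_zero_eq_one, h0, zero_mul] at this
      exact one_ne_zero this
    refine sub_eq_zero.1 (Subtype.ext (funext fun k => ?_))
    set d := i - i'
    have h0 : ∀ j : MJ hq hK, QB.pairC j.1 d.1 = 0 := by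
      intro j
      by_contra hne
      obtain ⟨w, hw⟩ := AddChar.ne_one_iff.1 hψ
      let c : F0 hq hK := w * (bil hq hK j d)⁻¹
      let j' : MJ hq hK := ⟨(c : K) • j.1, QB.smul_mem_M hq hK c.2 j.2.1, fun a ha => by
        rw [Pi.smul_apply, j.2.2 a ha, smul_zero]⟩
      have e := hd j'
      have e2 : bil hq hK j' d = w := by
        refine Eq.trans (Subtype.ext ?_) (show c * bil hq hK j d = w by
          simp only [c]; rw [mul_assoc, inv_mul_cancel₀ fun h => hne (congrArg Subtype.val h), mul_one])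
        show QB.pairC ((c : K) • j.1) d.1 = (c : K) * QB.pairC j.1 d.1
        rw [pairC_eq, pairC_eq, Finset.mul_sum]
        refine Finset.sum_congr rfl fun a _ => ?_
        rw [Pi.smul_apply, smul_eq_mul]
        ring
      change ψ (bil hq hK j' d) = 1 at e
      rw [e2] at e
      exact hw e
    let v : Fin 20 → K := fun a => if Up a then (QB.cz a (prtQ a) : K) * d.1 (prtQ a) else 0
    have hv : v = 0 := by
      refine QB.eq_zero_of_dot hq hK fun x hx => ?_
      let j : MJ hq hK := ⟨fun a => if Up a then x a else 0, ⟨fun a => by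
          show (if Up (QB.pr a) then x (QB.pr a) else 0) = _ * phi hq hK (if Up a then x a else 0)
          by_cases ha : Up a
          · rw [if_pos (up_pr a ha), if_pos ha, hx a]
          · rw [if_neg (low_pr a ha), if_neg ha, map_zero, mul_zero],
        fun a ha => if_neg ha⟩⟩
      rw [← h0 j, pairC_eq]
      refine Finset.sum_congr rfl fun a _ => ?_
      show v a * x a = (QB.cz a (prtQ a) : K) * (if Up a then x a else 0) * d.1 (prtQ a)
      simp only [v]
      split_ifs
      · ring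
      · ring
    by_cases hk : Up k
    · exact d.2.2 k hk
    · have hu : Up (prtQ k) := (prt_up k).2 hk
      have := congrFun hv (prtQ k)
      simp only [v, if_pos hu, prt_prt, Pi.zero_apply] at this
      refine (mul_eq_zero.1 this).resolve_left ?_
      have e := cz_prt_ne (prtQ k)
      rw [prt_prt] at e
      rcases e with e | e <;> simp [e]
  · rw [AddChar.card_eq, ← Nat.card_eq_fintype_card, ← Nat.card_eq_fintype_card, card_MI, card_MJ]

section Rep

variable {V : Type*} [AddCommGroup V] [Module ℂ V] [FiniteDimensional ℂ V]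
  (ρ : Representation ℂ ↥(chevE6.genSubgroup K (e6Words K q)) V)

/-- The action of the highest root group. -/
noncomputable def actZ : AddChar (F0 hq hK) (Module.End ℂ V) where
  toFun t := ρ (gzE hq hK t)
  map_zero_eq_one' := by rw [gzE_zero, map_one]
  map_add_eq_mul' t u := by rw [← map_mul, gzE_add]

/-- The action of the highest root group together with the upper half. -/
noncomputable def act2 : AddChar (F0 hq hK × MJ hq hK) (Module.End ℂ V) where
  toFun p := ρ (g2 hq hK p)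
  map_zero_eq_one' := by
    refine (congrArg ρ (Subtype.ext ?_)).trans (map_one ρ)
    show zE ((0 : F0 hq hK) : K) * QB.E (0 : Fin 20 → K) = 1
    rw [show ((0 : F0 hq hK) : K) = 0 from rfl, zE_zero, Blk.E_zero, one_mul]
  map_add_eq_mul' p p' := by rw [← map_mul, g2_add]

/-- A character of the product. -/
noncomputable def pairChar (φ : AddChar (MJ hq hK) ℂ) : AddChar (F0 hq hK × MJ hq hK) ℂ where
  toFun p := ψ p.1 * φ p.2
  map_zero_eq_one' := by simp
  map_add_eq_mul' p p' := by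
    rw [Prod.fst_add, Prod.snd_add, AddChar.map_add_eq_mul, AddChar.map_add_eq_mul, mul_mul_mul_comm]

omit [Fintype K] [FiniteDimensional ℂ V] in
theorem ρ_inj (g : ↥G1) : Function.Injective (ρ g) := fun v w e => by
  have := congrArg (ρ g⁻¹) e
  rwa [Representation.inv_self_apply, Representation.inv_self_apply] at this

theorem comm_gE_z (x : QB.M hq hK) (t : F0 hq hK) :
    gE hq hK x * gzE hq hK t = gzE hq hK t * gE hq hK x :=
  Subtype.ext (QB.EL_commute_z QB.ord x.1 _).eq

omit [FiniteDimensional ℂ V] in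
/-- Shifting by the lower half permutes the weight spaces. -/
theorem shift_mem [Fintype (MJ hq hK)] (i : MI hq hK) (φ : AddChar (MJ hq hK) ℂ) {v : V}
    (hv : v ∈ wt (act2 hq hK ρ) (pairChar hq hK ψ φ)) :
    ρ (gE hq hK ⟨i.1, i.2.1⟩) v ∈
      wt (act2 hq hK ρ) (pairChar hq hK ψ (φ * piC hq hK ψ i)) := by
  intro p
  show ρ (g2 hq hK p) (ρ (gE hq hK ⟨i.1, i.2.1⟩) v) = _
  have e : g2 hq hK p * gE hq hK ⟨i.1, i.2.1⟩ =
      gE hq hK ⟨i.1, i.2.1⟩ * g2 hq hK (p + (bil hq hK p.2 i, 0)) := by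
    refine Subtype.ext ?_
    show zE (p.1 : K) * QB.E p.2.1 * QB.E i.1 =
      QB.E i.1 * (zE ((p.1 + bil hq hK p.2 i : F0 hq hK) : K) * QB.E (p.2.1 + 0))
    rw [add_zero, mul_assoc, QB.E_swap, show ((p.1 + bil hq hK p.2 i : F0 hq hK) : K) =
      (p.1 : K) + QB.pairC p.2.1 i.1 from rfl, ← zE_add]
    have c1 : ∀ w, Commute (QB.E i.1) (zE w) := fun w => QB.EL_commute_z QB.ord i.1 w
    have c2 : ∀ w, Commute (QB.E p.2.1) (zE w) := fun w => QB.EL_commute_z QB.ord p.2.1 w
    rw [← mul_assoc (QB.E i.1), ← mul_assoc (QB.E i.1), (c1 _).eq,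
      mul_assoc (zE (p.1 : K) * QB.E i.1), ← (c2 _).eq]
    simp only [mul_assoc]
  rw [← Module.End.mul_apply, ← map_mul, e, map_mul, Module.End.mul_apply,
    show ρ (g2 hq hK (p + (bil hq hK p.2 i, 0))) v = _ from hv _, map_smul]
  congr 1
  show ψ (p.1 + bil hq hK p.2 i) * φ (p.2 + 0) = ψ p.1 * (φ * piC hq hK ψ i) p.2
  rw [add_zero, AddChar.map_add_eq_mul, AddChar.mul_apply, mul_assoc, mul_comm (φ p.2)]
  rfl

theorem dim_shift [Fintype (MJ hq hK)] (hψ : ψ ≠ 1) (φ : AddChar (MJ hq hK) ℂ) :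
    Module.finrank ℂ (wt (act2 hq hK ρ) (pairChar hq hK ψ φ)) =
      Module.finrank ℂ (wt (act2 hq hK ρ) (pairChar hq hK ψ 1)) := by
  have hle : ∀ (i : MI hq hK) (φ : AddChar (MJ hq hK) ℂ),
      Module.finrank ℂ (wt (act2 hq hK ρ) (pairChar hq hK ψ φ)) ≤
        Module.finrank ℂ (wt (act2 hq hK ρ) (pairChar hq hK ψ (φ * piC hq hK ψ i))) :=
    fun i φ => LinearMap.finrank_le_finrank_of_injective
      (f := (ρ (gE hq hK ⟨i.1, i.2.1⟩)).restrict fun v hv => shift_mem hq hK ψ ρ i φ hv)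
      fun v w e => Subtype.ext (ρ_inj ρ _ (congrArg Subtype.val e))
  obtain ⟨i, rfl⟩ := (piC_bijective hq hK ψ hψ).2 φ
  refine le_antisymm ?_ ((hle i 1).trans_eq (by rw [one_mul]))
  have h := hle (-i) (piC hq hK ψ i)
  rwa [← piC_add, add_neg_cancel, show piC hq hK ψ (0 : MI hq hK) = 1 from DFunLike.ext _ _ fun j => by
    show ψ (bil hq hK j 0) = 1
    rw [show bil hq hK j 0 = 0 from Subtype.ext (by simp [bil, pairC_eq]), AddChar.map_zero_eq_one]]
    at h

omit [FiniteDimensional ℂ V] in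
open scoped Classical in
theorem proj_split [Fintype (F0 hq hK)] [Fintype (MJ hq hK)] :
    proj (actZ hq hK ρ) ψ =
      ∑ φ : AddChar (MJ hq hK) ℂ, proj (act2 hq hK ρ) (pairChar hq hK ψ φ) := by
  have hg : ∀ b : F0 hq hK × MJ hq hK, b.2 = 0 → act2 hq hK ρ b = actZ hq hK ρ b.1 := by
    rintro ⟨t, j⟩ rfl
    show ρ (g2 hq hK (t, 0)) = ρ (gzE hq hK t)
    refine congrArg ρ (Subtype.ext ?_)
    show zE (t : K) * QB.E (0 : Fin 20 → K) = zE (t : K)
    rw [Blk.E_zero, mul_one]
  simp only [proj, ← Finset.smul_sum]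
  rw [Finset.sum_comm]
  simp only [← Finset.sum_smul]
  have h1 : ∀ b : F0 hq hK × MJ hq hK, ∑ φ : AddChar (MJ hq hK) ℂ, pairChar hq hK ψ φ (-b) =
      if b.2 = 0 then (Fintype.card (MJ hq hK) : ℂ) * ψ (-b.1) else 0 := by
    intro b
    show ∑ φ : AddChar (MJ hq hK) ℂ, ψ (-b.1) * φ (-b.2) = _
    rw [← Finset.mul_sum, AddChar.sum_apply_eq_ite]
    by_cases hb : b.2 = 0
    · simp [hb, mul_comm]
    · simp [hb]
  simp only [h1, ite_smul, zero_smul]
  rw [Fintype.sum_prod_type, Fintype.card_prod, Nat.cast_mul, mul_inv, Finset.smul_sum,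
    Finset.smul_sum]
  refine Finset.sum_congr rfl fun t _ => ?_
  rw [Finset.sum_ite_eq' Finset.univ (0 : MJ hq hK), if_pos (Finset.mem_univ _), hg _ rfl, smul_smul,
    smul_smul]
  congr 1
  have : (Fintype.card (MJ hq hK) : ℂ) ≠ 0 := Nat.cast_ne_zero.2 Fintype.card_ne_zero
  field_simp

theorem finrank_eq_mul [Fintype (F0 hq hK)] [Fintype (MJ hq hK)] (hψ : ψ ≠ 1) :
    Module.finrank ℂ (wt (actZ hq hK ρ) ψ) =
      q ^ 10 * Module.finrank ℂ (wt (act2 hq hK ρ) (pairChar hq hK ψ 1)) := by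
  classical
  have e := congrArg (LinearMap.trace ℂ V) (proj_split hq hK ψ ρ)
  rw [map_sum] at e
  simp only [trace_proj, dim_shift hq hK ψ ρ hψ] at e
  rw [Finset.sum_const, Finset.card_univ, AddChar.card_eq, ← Nat.card_eq_fintype_card, card_MJ,
    nsmul_eq_mul] at e
  exact_mod_cast e

theorem card_F0' [Fintype (F0 hq hK)] : Fintype.card (F0 hq hK) = q := by
  rw [← Nat.card_eq_fintype_card, card_F0]

theorem finrank_shift [Fintype (F0 hq hK)] (hψ : ψ ≠ 1) (φ : AddChar (F0 hq hK) ℂ) (hφ : φ ≠ 1) :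
    Module.finrank ℂ (wt (actZ hq hK ρ) φ) = Module.finrank ℂ (wt (actZ hq hK ρ) ψ) := by
  classical
  have hshift : ∀ (χ : AddChar (F0 hq hK) ℂ) (r : F0 hq hK), r ≠ 0 →
      Module.finrank ℂ (wt (actZ hq hK ρ) χ) ≤
        Module.finrank ℂ (wt (actZ hq hK ρ) (AddChar.mulShift χ r)) := by
    intro χ r hr
    have hu : (r : K) ≠ 0 := fun h => hr (Subtype.ext h)
    let T : ↥G1 := ⟨tor chevE6 K (torC [0, 1, 0, 0, 0, 0] (Units.mk0 (r : K) hu)⁻¹),
      torC_mem hq hK (by decide +kernel) (by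
        show phi hq hK (r : K)⁻¹ = _
        rw [map_inv₀, F0_phi]; simp)⟩
    have hT : ∀ b : F0 hq hK, T * gzE hq hK b = gzE hq hK (r⁻¹ * b) * T := by
      intro b
      refine Subtype.ext (mul_inv_eq_iff_eq_mul.1 ?_)
      show tor chevE6 K _ * Sys.xG S K 71 (b : K) * (tor chevE6 K _)⁻¹ = _
      rw [Sys.tor_conj S K _ (show 71 < chevE6.nroots by decide), torusVal_torC,
        show ((List.range 6).map fun j =>
          (([0, 1, 0, 0, 0, 0] : List ℕ).getD j 0 : ℤ) * chevE6.cartan j 71).sum = 1 by decide +kernel,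
        zpow_one, Units.val_inv_eq_inv_val]
      rfl
    have hmap : ∀ v ∈ wt (actZ hq hK ρ) χ, ρ T v ∈ wt (actZ hq hK ρ) (AddChar.mulShift χ r) := by
      intro v hv b
      show ρ (gzE hq hK b) (ρ T v) = _
      have e := hT (r * b)
      rw [inv_mul_cancel_left₀ hr] at e
      rw [← Module.End.mul_apply, ← map_mul, ← e, map_mul, Module.End.mul_apply,
        show ρ (gzE hq hK (r * b)) v = _ from hv _, map_smul]
      rfl
    exact LinearMap.finrank_le_finrank_of_injective (f := (ρ T).restrict hmap)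
      fun v w e => Subtype.ext (ρ_inj ρ _ (congrArg Subtype.val e))
  have hsur : Function.Surjective fun r : F0 hq hK => AddChar.mulShift ψ r :=
    ((Fintype.bijective_iff_injective_and_card _).2
      ⟨AddChar.to_mulShift_inj_of_isPrimitive (AddChar.IsPrimitive.of_ne_one hψ),
        (AddChar.card_eq).symm⟩).2
  obtain ⟨a, rfl⟩ := hsur φ
  have ha : a ≠ 0 := by
    rintro rfl
    exact hφ (AddChar.mulShift_zero ψ)
  refine le_antisymm ?_ (hshift ψ a ha)
  have h := hshift (AddChar.mulShift ψ a) a⁻¹ (inv_ne_zero ha)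
  rwa [AddChar.mulShift_mulShift, mul_inv_cancel₀ ha, AddChar.mulShift_one] at h

end Rep

end CfsgLib.TwistedLie.E6.MinDeg65
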