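import Cfsg.Agent.E6MinDeg65.Base

/-!
The two blocks: the radical of the parabolic subgroup of the highest root and the radical of a
parabolic subgroup of its Levi complement.
-/

set_option autoImplicit false

namespace CfsgLib.TwistedLie.E6.MinDeg65

open Cfsg.Lie CfsgLib.Chevalley CfsgLib.TwistedLie

/-- The single coefficient of a commutator with the highest root. -/
def czOf (r s : ℕ) : ℤ :=
  match chevE6.commTerms r s with
  | [] => 0
  | (_, C, _, _) :: _ => C

/-- The roots of the radical. -/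
def rtQ : Fin 20 → ℕ :=
  ![46, 47, 48, 49, 50, 51, 52, 53, 54, 55, 61, 62, 63, 64, 65, 66, 67, 68, 69, 70]

/-- The symmetry on the radical. -/
def prQ : Fin 20 → Fin 20 :=
  ![0, 1, 4, 10, 2, 5, 11, 7, 13, 16, 3, 6, 12, 8, 14, 17, 9, 15, 18, 19]

theorem rtQ_sorted : (List.range' 36 36).filter (fun r => decide (r = 71 ∨ ∃ i, rtQ i = r)) =
    List.ofFn rtQ ++ [71] := by decide +kernel

theorem rtQ_comm : ∀ i j, i ≠ j → rtQ j ≠ rtQ i ∧ rtQ j ≠ chevE6.neg (rtQ i) ∧
    chevE6.commTerms (rtQ i) (rtQ j) =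
      if czOf (rtQ i) (rtQ j) = 0 then [] else [(71, czOf (rtQ i) (rtQ j), 1, 1)] := by decide +kernel

/-- The radical as a block. -/
def QB : Blk 20 where
  rt := rtQ
  pr := prQ
  sg := fun i => sgE (rtQ i)
  cz := fun i j => czOf (rtQ i) (rtQ j)
  fixs := [0, 1, 5, 7, 12, 14, 18, 19]
  pairs := [(2, 4), (3, 10), (6, 11), (8, 13), (9, 16), (15, 17)]
  rt_pos := by decide +kernel
  rt_sorted := rtQ_sorted
  rt_comm := rtQ_comm
  cz_self := by decide +kernel
  pr_rt := by decide +kernel
  pr_pr := by decide +kernel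
  sg_fix := by decide +kernel
  sg_sg := by decide +kernel
  ord_perm := by decide +kernel
  fixs_ok := by decide +kernel
  pairs_ok := by decide +kernel

/-- The roots of the radical of the Levi complement. -/
def rtU : Fin 9 → ℕ := ![39, 40, 41, 43, 44, 45, 58, 59, 60]

/-- The symmetry on them. -/
def prU : Fin 9 → Fin 9 := ![0, 3, 6, 1, 4, 7, 2, 5, 8]

theorem rtU_sorted : (List.range' 36 36).filter (fun r => decide (r = 71 ∨ ∃ i, rtU i = r)) =
    List.ofFn rtU ++ [71] := by decide +kernel

theorem rtU_comm : ∀ i j, i ≠ j → rtU j ≠ rtU i ∧ rtU j ≠ chevE6.neg (rtU i) ∧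
    chevE6.commTerms (rtU i) (rtU j) =
      if (0 : ℤ) = 0 then [] else [(71, 0, 1, 1)] := by decide +kernel

/-- The radical of the Levi complement as a block. -/
def UB : Blk 9 where
  rt := rtU
  pr := prU
  sg := fun i => sgE (rtU i)
  cz := fun _ _ => 0
  fixs := [0, 4, 8]
  pairs := [(1, 3), (2, 6), (5, 7)]
  rt_pos := by decide +kernel
  rt_sorted := rtU_sorted
  rt_comm := rtU_comm
  cz_self := by decide +kernel
  pr_rt := by decide +kernel
  pr_pr := by decide +kernel
  sg_fix := by decide +kernel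
  sg_sg := by decide +kernel
  ord_perm := by decide +kernel
  fixs_ok := by decide +kernel
  pairs_ok := by decide +kernel

end CfsgLib.TwistedLie.E6.MinDeg65
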