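import Cfsg.Agent.E6MinDeg65.Ops
import Cfsg.Agent.WeightProj65

/-!
Weights of a block acting on a space.
-/

set_option autoImplicit false

namespace CfsgLib.TwistedLie.E6.MinDeg65

open Cfsg.Lie CfsgLib.Chevalley CfsgLib.TwistedLie CfsgLib.WeightProj65

variable {K : Type*} [Field K] [Fintype K] {q : ℕ} (hq : IsPrimePow q) (hK : Fintype.card K = q ^ 2)

local notation "G1" => chevE6.genSubgroup K (e6Words K q)

/-- An action of a subgroup on a space in which the highest root group is trivial and the block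
normal. -/
structure Rep {n : ℕ} (B : Blk n) (W : Type*) [AddCommGroup W] [Module ℂ W] where
  /-- the subgroup -/
  H : Subgroup ↥G1
  /-- the action -/
  π : ↥H →* Module.End ℂ W
  hE : ∀ (x : B.M hq hK), (⟨B.E x.1, B.E_mem hq hK x.2⟩ : ↥G1) ∈ H
  triv : ∀ h : ↥H, (∃ w, ((h : ↥G1) : GL chevE6.Idx K) = zE w) → π h = 1

variable {hq} {hK}

namespace Rep

variable {n : ℕ} {B : Blk n} {W : Type*} [AddCommGroup W] [Module ℂ W] (R : Rep hq hK B W)

/-- The element of the block with given coordinates. -/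
noncomputable def el (x : B.M hq hK) : ↥R.H := ⟨⟨B.E x.1, B.E_mem hq hK x.2⟩, R.hE x⟩

theorem el_val (x : B.M hq hK) : (((R.el x : ↥R.H) : ↥G1) : GL chevE6.Idx K) = B.E x.1 := rfl

theorem π_eq_of_rel {h : ↥R.H} {x : B.M hq hK}
    (e : B.Rel ((h : ↥G1) : GL chevE6.Idx K) x.1) : R.π h = R.π (R.el x) := by
  obtain ⟨w, hw⟩ := e
  have h1 : R.π ((R.el x)⁻¹ * h) = 1 := R.triv _ ⟨w, by
    show (B.E x.1)⁻¹ * ((h : ↥G1) : GL chevE6.Idx K) = zE w
    rw [hw, inv_mul_cancel_left]⟩
  rw [← mul_inv_cancel_left (R.el x) h, map_mul, h1, mul_one]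

/-- The action of the coordinates. -/
noncomputable def act : AddChar (B.M hq hK) (Module.End ℂ W) where
  toFun x := R.π (R.el x)
  map_zero_eq_one' := by
    refine R.triv _ ⟨0, ?_⟩
    rw [R.el_val, zE_zero]
    exact B.E_zero
  map_add_eq_mul' x y := by
    rw [← map_mul]
    refine (R.π_eq_of_rel ?_).symm
    obtain ⟨w, hw⟩ := B.E_add x.1 y.1
    exact ⟨w, hw⟩

theorem act_eq (x : B.M hq hK) : R.act x = R.π (R.el x) := rfl

/-- The fixed field value of the pairing. -/
noncomputable def dotF (A x : B.M hq hK) : F0 hq hK :=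
  ⟨Blk.dot A.1 x.1, B.dot_fixed hq hK A.2 x.2⟩

variable (ψ : AddChar (F0 hq hK) ℂ)

omit R in
/-- The character of a dual coordinate vector. -/
noncomputable def lam (A : B.M hq hK) : AddChar (B.M hq hK) ℂ where
  toFun x := ψ (dotF A x)
  map_zero_eq_one' := by
    rw [show dotF A (0 : B.M hq hK) = 0 from Subtype.ext (by simp [dotF, Blk.dot]),
      AddChar.map_zero_eq_one]
  map_add_eq_mul' x y := by
    rw [← AddChar.map_add_eq_mul]
    exact congrArg ψ (Subtype.ext (Blk.dot_add_right A.1 x.1 y.1))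

omit R in
theorem lam_apply (A x : B.M hq hK) : lam ψ A x = ψ (dotF A x) := rfl

omit R in
theorem lam_zero : lam ψ (0 : B.M hq hK) = 1 := DFunLike.ext _ _ fun x => by
  rw [lam_apply, show dotF (0 : B.M hq hK) x = 0 from Subtype.ext (by simp [dotF, Blk.dot]),
    AddChar.map_zero_eq_one, AddChar.one_apply]

omit R in
theorem lam_injective (hψ : ψ ≠ 1) : Function.Injective (lam (B := B) ψ) := by
  intro A A' h
  obtain ⟨w, hw⟩ := AddChar.ne_one_iff.1 hψ
  refine Subtype.ext (sub_eq_zero.1 (B.eq_zero_of_dot hq hK fun x hx => ?_))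
  by_contra hne
  set u := dotF (A - A') (⟨x, hx⟩ : B.M hq hK) with hu
  have hu0 : u ≠ 0 := fun e => hne (congrArg Subtype.val e)
  let c : F0 hq hK := w * u⁻¹
  let y : B.M hq hK := ⟨(c : K) • x, B.smul_mem_M hq hK c.2 hx⟩
  have e1 := DFunLike.congr_fun h y
  rw [lam_apply, lam_apply] at e1
  have e2 : dotF A y = w + dotF A' y := by
    refine Subtype.ext ?_
    have e3 : (c : K) * Blk.dot (A.1 - A'.1) x = w := by
      have : c * u = w := by simp only [c]; rw [mul_assoc, inv_mul_cancel₀ hu0, mul_one]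
      exact congrArg Subtype.val this
    show Blk.dot A.1 ((c : K) • x) = (w : K) + Blk.dot A'.1 ((c : K) • x)
    rw [Blk.dot_smul_right, Blk.dot_smul_right, ← e3,
      show Blk.dot A.1 x = Blk.dot (A.1 - A'.1) x + Blk.dot A'.1 x by
        rw [← Blk.dot_add_left, sub_add_cancel]]
    ring
  rw [e2, AddChar.map_add_eq_mul] at e1
  refine hw (mul_right_cancel₀ (b := ψ (dotF A' y)) ?_ (by rw [e1, one_mul]))
  intro h0
  have := AddChar.map_add_eq_mul ψ (dotF A' y) (-dotF A' y)
  rw [add_neg_cancel, AddChar.map_zero_eq_one, h0, zero_mul] at this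
  exact one_ne_zero this

omit R in
theorem lam_bijective (hψ : ψ ≠ 1) : Function.Bijective (lam (B := B) ψ) := by
  have := Fintype.ofFinite (B.M hq hK)
  exact (Fintype.bijective_iff_injective_and_card _).2
    ⟨lam_injective ψ hψ, (AddChar.card_eq).symm⟩

/-- The weight space of a dual coordinate vector. -/
noncomputable def Wt (A : B.M hq hK) : Submodule ℂ W :=
  letI := Fintype.ofFinite (B.M hq hK)
  wt R.act (lam ψ A)

/-- The multiplicity of a weight. -/
noncomputable def dim (A : B.M hq hK) : ℕ := Module.finrank ℂ (R.Wt ψ A)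

/-- The projection on a weight space. -/
noncomputable def pr (A : B.M hq hK) : Module.End ℂ W :=
  letI := Fintype.ofFinite (B.M hq hK)
  proj R.act (lam ψ A)

theorem mem_Wt {A : B.M hq hK} {v : W} :
    v ∈ R.Wt ψ A ↔ ∀ x, R.act x v = ψ (dotF A x) • v := Iff.rfl

/-- The image of a dual coordinate vector under the dual action of a group element. -/
theorem acts_mem {g : ↥G1} {f} (hf : B.Acts (g : GL chevE6.Idx K) f) {A : Fin n → K}
    (hA : A ∈ B.M hq hK) : f A ∈ B.M hq hK := by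
  refine B.mem_M_of_dot hq hK fun x hx => ?_
  obtain ⟨y, r, d⟩ := hf.2 x
  have hy : y ∈ B.M hq hK :=
    B.mem_M_of_rel hq hK (mul_mem (mul_mem g.2 (B.E_mem hq hK hx)) (inv_mem g.2)) r
  rw [← d]
  exact B.dot_fixed hq hK hA hy

omit R in
/-- The dual action on the fixed coordinates. -/
noncomputable def fM {g : ↥G1} {f} (hf : B.Acts (g : GL chevE6.Idx K) f) (A : B.M hq hK) :
    B.M hq hK := ⟨f A.1, acts_mem hf A.2⟩

theorem maps_to {h : ↥R.H} {f} (hf : B.Acts (((h : ↥R.H) : ↥G1) : GL chevE6.Idx K) f)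
    (A : B.M hq hK) {v : W} (hv : v ∈ R.Wt ψ (fM hf A)) : R.π h v ∈ R.Wt ψ A := by
  -- the induced map on the coordinates is a bijection
  have hex : ∀ x : B.M hq hK, ∃ y : B.M hq hK,
      B.Rel ((((h : ↥R.H) : ↥G1) : GL chevE6.Idx K) * B.E x.1 *
        (((h : ↥R.H) : ↥G1) : GL chevE6.Idx K)⁻¹) y.1 ∧ ∀ A, Blk.dot A y.1 = Blk.dot (f A) x.1 := by
    intro x
    obtain ⟨y, r, d⟩ := hf.2 x.1
    exact ⟨⟨y, B.mem_M_of_rel hq hK
      (mul_mem (mul_mem (h : ↥G1).2 (B.E_mem hq hK x.2)) (inv_mem (h : ↥G1).2)) r⟩, r, d⟩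
  choose T hTr hTd using hex
  have hinj : Function.Injective T := by
    intro x x' e
    refine Subtype.ext ?_
    set g := (((h : ↥R.H) : ↥G1) : GL chevE6.Idx K)
    obtain ⟨w, hw⟩ := hTr x
    obtain ⟨w', hw'⟩ := hTr x'
    have hzs : ∃ s, g⁻¹ * zE (w - w') * g = zE s := by
      have : Function.Surjective fun t => (hf.1 t).choose := by
        refine Finite.injective_iff_surjective.1 fun a b hab => zE_inj ?_
        have ha := (hf.1 a).choose_spec
        have hb := (hf.1 b).choose_spec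
        rw [show (hf.1 a).choose = (hf.1 b).choose from hab] at ha
        exact mul_left_cancel (mul_right_cancel (ha.trans hb.symm))
      obtain ⟨s, hs⟩ := this (w - w')
      refine ⟨s, ?_⟩
      have := (hf.1 s).choose_spec
      simp only at hs
      rw [hs] at this
      rw [← this]; group
    obtain ⟨s, hs⟩ := hzs
    have e1 : B.E x.1 = B.E x'.1 * zE s := by
      rw [← hs]
      have e2 : g * B.E x.1 * g⁻¹ = g * B.E x'.1 * g⁻¹ * zE (w - w') := by
        rw [hw, hw', e, mul_assoc, zE_add, add_sub_cancel]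
      calc B.E x.1 = g⁻¹ * (g * B.E x.1 * g⁻¹) * g := by group
        _ = _ := by rw [e2]; group
    exact B.rel_unique (B.rel_E x.1) ⟨s, e1⟩
  have hsur : Function.Surjective T := Finite.injective_iff_surjective.1 hinj
  rw [mem_Wt]
  intro y
  obtain ⟨x, rfl⟩ := hsur y
  rw [mem_Wt] at hv
  have hconj : R.π (h * R.el x) = R.π (R.el (T x) * h) := by
    rw [show h * R.el x = h * R.el x * h⁻¹ * h by group, map_mul, map_mul (R.π) (R.el (T x))]
    congr 1
    exact R.π_eq_of_rel (hTr x)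
  rw [map_mul, map_mul] at hconj
  rw [act_eq, ← Module.End.mul_apply, ← hconj, Module.End.mul_apply, ← act_eq, hv x, map_smul]
  congr 2
  exact Subtype.ext (hTd x A.1).symm

theorem π_inj (h : ↥R.H) : Function.Injective (R.π h) := fun v w e => by
  have := congrArg (R.π h⁻¹) e
  rwa [← Module.End.mul_apply, ← map_mul, inv_mul_cancel, map_one, ← Module.End.mul_apply, ← map_mul,
    inv_mul_cancel, map_one] at this

variable [FiniteDimensional ℂ W]

theorem dim_le {h : ↥R.H} {f} (hf : B.Acts (((h : ↥R.H) : ↥G1) : GL chevE6.Idx K) f)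
    (A : B.M hq hK) : R.dim ψ (fM hf A) ≤ R.dim ψ A := by
  refine LinearMap.finrank_le_finrank_of_injective
    (f := (R.π h).restrict fun v hv => R.maps_to ψ hf A hv) fun v w e => ?_
  exact Subtype.ext (R.π_inj h (congrArg Subtype.val e))

omit [FiniteDimensional ℂ W] in
theorem iter_id {h : ↥R.H} {f} (hf : B.Acts (((h : ↥R.H) : ↥G1) : GL chevE6.Idx K) f) :
    ∃ m : ℕ, f^[m + 1] = id := by
  have hpow : ∀ k : ℕ, B.Acts (((h ^ k : ↥R.H) : ↥G1) : GL chevE6.Idx K) f^[k] := by
    intro k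
    induction k with
    | zero => rw [pow_zero]; exact B.acts_one
    | succ k ih => rw [pow_succ', Function.iterate_succ]; exact hf.mul ih
  obtain ⟨k, hk0, hk⟩ : ∃ k, 0 < k ∧ h ^ k = 1 :=
    ⟨orderOf h, orderOf_pos h, pow_orderOf_eq_one h⟩
  obtain ⟨m, rfl⟩ := Nat.exists_eq_add_of_le' (show 1 ≤ k by omega)
  refine ⟨m, ?_⟩
  have := hpow (m + 1)
  rw [hk] at this
  exact this.unique B.acts_one

theorem dim_eq {h : ↥R.H} {f} (hf : B.Acts (((h : ↥R.H) : ↥G1) : GL chevE6.Idx K) f)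
    (A : B.M hq hK) : R.dim ψ (fM hf A) = R.dim ψ A := by
  refine le_antisymm (R.dim_le ψ hf A) ?_
  obtain ⟨m, hid⟩ := R.iter_id hf
  have hit : ∀ (k : ℕ) (A : B.M hq hK), R.dim ψ ((fM hf)^[k] A) ≤ R.dim ψ A := by
    intro k
    induction k with
    | zero => exact fun A => le_rfl
    | succ k ih =>
      intro A
      rw [Function.iterate_succ_apply]
      exact (ih _).trans (R.dim_le ψ hf A)
  have hM : ∀ (j : ℕ) (A : B.M hq hK), ((fM hf)^[j] A).1 = f^[j] A.1 := by
    intro j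
    induction j with
    | zero => intro A; rfl
    | succ j ih => intro A; rw [Function.iterate_succ_apply, Function.iterate_succ_apply, ih]; rfl
  have he : (fM hf)^[m] (fM hf A) = A := by
    rw [← Function.iterate_succ_apply (f := fM hf)]
    exact Subtype.ext (by rw [hM, hid]; rfl)
  have := hit m (fM hf A)
  rwa [he] at this

theorem fM_injective {h : ↥R.H} {f} (hf : B.Acts (((h : ↥R.H) : ↥G1) : GL chevE6.Idx K) f) :
    Function.Injective (fM (hq := hq) (hK := hK) (B := B) hf) := by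
  obtain ⟨m, hm⟩ := R.iter_id hf
  intro A A' e
  refine Subtype.ext ?_
  have e' : f^[m] (f A.1) = f^[m] (f A'.1) := congrArg f^[m] (congrArg Subtype.val e)
  rwa [← Function.iterate_succ_apply, ← Function.iterate_succ_apply, hm] at e'

open scoped Classical in
theorem sum_dim (hψ : ψ ≠ 1) [Fintype (B.M hq hK)] :
    ∑ A : B.M hq hK, R.dim ψ A = Module.finrank ℂ W := by
  rw [← sum_finrank R.act]
  refine Fintype.sum_bijective _ (lam_bijective ψ hψ) _ _ fun A => ?_
  rw [dim, Wt]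

omit [FiniteDimensional ℂ W] in
open scoped Classical in
theorem sum_pr (hψ : ψ ≠ 1) [Fintype (B.M hq hK)] : ∑ A : B.M hq hK, R.pr ψ A = 1 := by
  rw [← sum_proj R.act]
  refine Fintype.sum_bijective _ (lam_bijective ψ hψ) _ _ fun A => ?_
  rw [pr]
  congr!

open scoped Classical in
/-- The trace of a coordinate element. -/
theorem trace_act (hψ : ψ ≠ 1) [Fintype (B.M hq hK)] (x : B.M hq hK) :
    LinearMap.trace ℂ W (R.act x) = ∑ A, ψ (dotF A x) * (R.dim ψ A : ℂ) := by
  rw [WeightProj65.trace_act R.act x]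
  refine (Fintype.sum_bijective _ (lam_bijective ψ hψ) _ _ fun A => ?_).symm
  rw [dim, Wt, lam_apply]

/-- An element moving a weight contributes nothing to the trace there. -/
theorem trace_moved (hψ : ψ ≠ 1) {h : ↥R.H} {f}
    (hf : B.Acts (((h : ↥R.H) : ↥G1) : GL chevE6.Idx K) f) {A : B.M hq hK} (hA : f A.1 ≠ A.1) :
    LinearMap.trace ℂ W (R.π h * R.pr ψ A) = 0 := by
  let := Fintype.ofFinite (B.M hq hK)
  obtain ⟨C, hC⟩ := Finite.injective_iff_surjective.1 (R.fM_injective hf) A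
  have hne : lam ψ A ≠ lam ψ C := fun e => hA (by
    have := lam_injective ψ hψ e
    rw [← this] at hC
    exact congrArg Subtype.val hC)
  have hzero : R.pr ψ A * (R.π h * R.pr ψ A) = 0 := by
    refine LinearMap.ext fun v => ?_
    have h1 : R.pr ψ A v ∈ R.Wt ψ (fM hf C) := by
      rw [hC]; exact proj_mem R.act _ v
    have h2 := R.maps_to ψ hf C h1
    rw [Module.End.mul_apply, Module.End.mul_apply, LinearMap.zero_apply,
      ← proj_apply_mem R.act h2]
    exact LinearMap.congr_fun (proj_mul_proj R.act hne) _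
  have hidem : R.pr ψ A * R.pr ψ A = R.pr ψ A :=
    LinearMap.ext fun v => proj_apply_mem R.act (proj_mem R.act _ v)
  conv_lhs => rw [← hidem, ← mul_assoc]
  rw [LinearMap.trace_mul_comm, hzero, map_zero]

/-- An element acting by a scalar on a weight space. -/
theorem trace_scalar {P : Module.End ℂ W} {A : B.M hq hK} {c : ℂ}
    (hP : ∀ v ∈ R.Wt ψ A, P v = c • v) :
    LinearMap.trace ℂ W (P * R.pr ψ A) = c * (R.dim ψ A : ℂ) := by
  let := Fintype.ofFinite (B.M hq hK)
  have e : P * R.pr ψ A = c • R.pr ψ A := LinearMap.ext fun v => hP _ (proj_mem R.act _ v)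
  rw [e, map_smul, smul_eq_mul]
  exact congrArg (c * ·) (trace_proj R.act _)

theorem trace_split (hψ : ψ ≠ 1) [Fintype (B.M hq hK)] (P : Module.End ℂ W) :
    LinearMap.trace ℂ W P = ∑ A : B.M hq hK, LinearMap.trace ℂ W (P * R.pr ψ A) := by
  conv_lhs => rw [← mul_one P, ← R.sum_pr ψ hψ, Finset.mul_sum, map_sum]

/-- On a line weight space the image of two stabilising elements commute. -/
theorem commutator_one {h k : ↥R.H} {f f'} (hf : B.Acts (((h : ↥R.H) : ↥G1) : GL chevE6.Idx K) f)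
    (hf' : B.Acts (((k : ↥R.H) : ↥G1) : GL chevE6.Idx K) f') {A : B.M hq hK}
    (hA : f A.1 = A.1) (hA' : f' A.1 = A.1) (h1 : R.dim ψ A ≤ 1) {v : W} (hv : v ∈ R.Wt ψ A) :
    R.π (h * k * h⁻¹ * k⁻¹) v = v := by
  rcases eq_or_ne v 0 with rfl | hv0
  · rw [map_zero]
  have line : ∀ w ∈ R.Wt ψ A, ∃ c : ℂ, w = c • v := by
    intro w hw
    have hd : Module.finrank ℂ (R.Wt ψ A) = 1 := le_antisymm h1 (Nat.one_le_iff_ne_zero.2 fun h0 => by
      rw [dim] at *
      rw [Submodule.finrank_eq_zero] at h0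
      exact hv0 ((Submodule.mem_bot ℂ).1 (h0 ▸ hv)))
    obtain ⟨c, hc⟩ := exists_smul_eq_of_finrank_eq_one hd (x := (⟨v, hv⟩ : R.Wt ψ A))
      (fun e => hv0 (congrArg Subtype.val e)) ⟨w, hw⟩
    exact ⟨c, (congrArg Subtype.val hc).symm⟩
  have stab : ∀ {g : ↥R.H} {φ}, B.Acts (((g : ↥R.H) : ↥G1) : GL chevE6.Idx K) φ → φ A.1 = A.1 →
      ∃ c : ℂ, c ≠ 0 ∧ R.π g v = c • v := by
    intro g φ hg hgA
    have hm := R.maps_to ψ hg A (v := v) (by rwa [show fM hg A = A from Subtype.ext hgA])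
    obtain ⟨c, hc⟩ := line _ hm
    refine ⟨c, fun h0 => hv0 (R.π_inj g ?_), hc⟩
    rw [hc, h0, zero_smul, map_zero]
  obtain ⟨a, ha, hha⟩ := stab hf hA
  obtain ⟨b, hb, hkb⟩ := stab hf' hA'
  have hinv : ∀ {g : ↥R.H} {c : ℂ}, c ≠ 0 → R.π g v = c • v → R.π g⁻¹ v = c⁻¹ • v := by
    intro g c hc hg
    apply R.π_inj g
    rw [← Module.End.mul_apply, ← map_mul, mul_inv_cancel, map_one, Module.End.one_apply, map_smul,
      hg, smul_smul, inv_mul_cancel₀ hc, one_smul]
  rw [map_mul, map_mul, map_mul, Module.End.mul_apply, hinv hb hkb, map_smul, Module.End.mul_apply,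
    hinv ha hha, map_smul, Module.End.mul_apply, hkb, map_smul, hha, smul_smul, smul_smul, smul_smul,
    show b⁻¹ * a⁻¹ * b * a = 1 by field_simp, one_smul]

end Rep

end CfsgLib.TwistedLie.E6.MinDeg65
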