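import Cfsg.Agent.E6MinDeg65.Data
import Cfsg.Agent.E6MinDeg65.Weights

/-!
Elements of the Levi complement and their dual actions.
-/

set_option autoImplicit false

namespace CfsgLib.TwistedLie.E6.MinDeg65

open Cfsg.Lie CfsgLib.Chevalley CfsgLib.TwistedLie

local notation "S" => sysE6

section Plain

variable {K : Type*} [Field K]

/-- The torus element with the given integral exponents. -/
def torC (e : List ℕ) (u : Kˣ) : ℕ → Kˣ := fun j => u ^ e.getD j 0

theorem torusVal_torC (e : List ℕ) (u : Kˣ) (r : ℕ) :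
    torusVal chevE6 (torC e u) r =
      u ^ (((List.range 6).map fun j => (e.getD j 0 : ℤ) * chevE6.cartan j r).sum) := by
  have : ∀ f : ℕ → ℤ, (∏ j ∈ Finset.range 6, u ^ f j) = u ^ ((List.range 6).map f).sum := by
    intro f
    simp [Finset.prod_range_succ, List.range_succ, zpow_add, mul_assoc]
  rw [← this, torusVal, show chevE6.rank = 6 from rfl]
  refine Finset.prod_congr rfl fun j _ => ?_
  rw [torC, ← zpow_natCast, ← zpow_mul]

/-- A positive root exchanged with another one by the symmetry. -/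
def PairOK (r : ℕ) : Prop :=
  36 ≤ r ∧ r < 72 ∧ 36 ≤ pE r ∧ pE r < 72 ∧ pE (pE r) = r ∧ pE r ≠ r ∧ sgE r * sgE (pE r) = 1 ∧
    r ≠ chevE6.neg (pE r) ∧ chevE6.commTerms (pE r) r = []

instance (r : ℕ) : Decidable (PairOK r) := by unfold PairOK; infer_instance

end Plain

variable {K : Type*} [Field K] [Fintype K] {q : ℕ} (hq : IsPrimePow q) (hK : Fintype.card K = q ^ 2)

local notation "G1" => chevE6.genSubgroup K (e6Words K q)

theorem fix_root_mem {r : ℕ} (h : 36 ≤ r ∧ r < 72 ∧ pE r = r ∧ sgE r = 1) {t : K}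
    (ht : phi hq hK t = t) : Sys.xG S K r t ∈ G1 := by
  refine mem_of_fixed hq hK (xG_pos h.1 h.2.1 t) ?_
  rw [sigma_x hq hK h.2.1, h.2.2.1, h.2.2.2, Int.cast_one, one_mul, ht]

/-- The list of factors of a pair element. -/
noncomputable def pairL (r : ℕ) (a : K) : List (ℕ × K) :=
  [(r, a), (pE r, (sgE r : K) * phi hq hK a)]

theorem pair_root_mem {r : ℕ} (h : PairOK r) (a : K) :
    ((pairL hq hK r a).map fun e => Sys.xG S K e.1 e.2).prod ∈ G1 := by
  obtain ⟨h1, h2, h3, h4, h5, h6, h7, h8, h9⟩ := h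
  simp only [pairL, List.map_cons, List.map_nil, List.prod_cons, List.prod_nil, mul_one]
  refine mem_of_fixed hq hK (mul_mem (xG_pos h1 h2 _) (xG_pos h3 h4 _)) ?_
  rw [map_mul, sigma_x hq hK h2, sigma_x hq hK h4, h5, map_mul, map_intCast, phi_phi, ← mul_assoc]
  rw [show ((sgE (pE r) : K) * (sgE r : K)) = 1 by rw [mul_comm, ← Int.cast_mul, h7, Int.cast_one],
    one_mul]
  exact (xG_commute S K h4 h2 (Ne.symm h6) h8 h9 _ _).eq

theorem torC_mem {e : List ℕ} (he : ∀ j < 6, e.getD (qE j) 0 = e.getD j 0) {u : Kˣ}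
    (hu : phi hq hK (u : K) = u) : tor chevE6 K (torC e u) ∈ G1 := by
  refine TT_mem hq hK (mem_TT hq hK fun j hj => ?_)
  show torC e u (qE j) = Folded.uMap (phi hq hK) (torC e u j)
  rw [torC, torC, he j hj, map_pow]
  congr 1
  exact (Units.ext hu).symm

namespace Blk

variable {n : ℕ} (B : Blk n)

omit [Fintype K] in
theorem acts_weyl {L : List (Fin 4)} (p : Fin n → Fin n)
    (h : wL chevE6 (wdN L) 71 = 71 ∧ ∀ i, wL chevE6 (wdN L) (B.rt i) = B.rt (p i)) :
    ∃ f, B.Acts (nL S K (wdN L)) f ∧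
      ∃ c : Fin n → K, (∀ i, c i ≠ 0) ∧ ∀ A i, f A i = c i * A (p i) := by
  have hL : ∀ i ∈ wdN L, i < chevE6.rank := by
    intro i hi
    obtain ⟨a, -, ha⟩ := List.mem_flatMap.1 hi
    exact blkN_lt a i ha
  have hex : ∀ i, ∃ c : K, c ≠ 0 ∧ ∀ t : K, nL S K (wdN L) * B.xr i t * (nL S K (wdN L))⁻¹ =
      B.xr (p i) (c * t) := by
    intro i
    obtain ⟨c, hc, e⟩ := nL_conj_const (K := K) hL (B.rt_lt i)
    rw [h.2 i] at e
    exact ⟨c, hc, e⟩
  choose c hc he using hex
  obtain ⟨c', -, e'⟩ := nL_conj_const (K := K) hL (show 71 < chevE6.nroots by decide)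
  rw [h.1] at e'
  exact ⟨_, B.acts_mono (fun t => ⟨c' * t, e' t⟩) p c he, c, hc, fun A i => rfl⟩

omit [Fintype K] in
theorem acts_torC (e : List ℕ) (u : Kˣ) : B.Acts (tor chevE6 K (torC e u))
    fun A i => (torusVal chevE6 (torC e u) (B.rt i) : K) * A i :=
  B.acts_mono (fun t => ⟨_, Sys.tor_conj S K _ (by decide) t⟩) id _
    fun i t => Sys.tor_conj S K _ (B.rt_lt i) t

end Blk

end CfsgLib.TwistedLie.E6.MinDeg65
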