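import Cfsg.Agent.E6MinDeg65.Sixty

/-!
The fixed space of the highest root group.
-/

set_option autoImplicit false

namespace CfsgLib.TwistedLie.E6.MinDeg65

open Cfsg.Lie CfsgLib.Chevalley CfsgLib.TwistedLie CfsgLib.WeightProj65

local notation "S" => sysE6

variable {K : Type*} [Field K] [Fintype K] {q : ℕ} (hq : IsPrimePow q) (hK : Fintype.card K = q ^ 2)

local notation "G1" => chevE6.genSubgroup K (e6Words K q)

/-- The highest root group as a subgroup. -/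
noncomputable def zGroup : Subgroup ↥(chevE6.genSubgroup K (e6Words K q)) where
  carrier := {g | ∃ t, gzE hq hK t = g}
  one_mem' := ⟨0, gzE_zero hq hK⟩
  mul_mem' := fun {a b} ⟨t, ht⟩ ⟨u, hu⟩ => ⟨t + u, by rw [← gzE_add, ht, hu]⟩
  inv_mem' := fun {a} ⟨t, ht⟩ => ⟨-t, eq_inv_of_mul_eq_one_left (by
    rw [← ht, gzE_add, neg_add_cancel, gzE_zero])⟩

/-- The elements normalising the highest root group. -/
noncomputable def HZ : Subgroup ↥(chevE6.genSubgroup K (e6Words K q)) :=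
  Subgroup.normalizer (zGroup hq hK : Set ↥(chevE6.genSubgroup K (e6Words K q)))

theorem mem_HZ {g : ↥G1} (h : ∀ t : K, ∃ t', (g : GL chevE6.Idx K) * zE t * (g : GL chevE6.Idx K)⁻¹ = zE t') :
    g ∈ HZ hq hK := by
  refine Subgroup.mem_normalizer_fintype fun n hn => ?_
  obtain ⟨t, rfl⟩ := hn
  obtain ⟨t', ht'⟩ := h (t : K)
  have hm : (g : GL chevE6.Idx K) * zE (t : K) * (g : GL chevE6.Idx K)⁻¹ ∈ G1 :=
    mul_mem (mul_mem g.2 (gzE hq hK t).2) (inv_mem g.2)
  rw [ht', zE_mem_iff hq hK] at hm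
  exact ⟨⟨t', hm⟩, Subtype.ext ht'.symm⟩

theorem mem_HZ_acts {n : ℕ} {B : Blk n} {g : ↥G1} {f} (h : B.Acts (g : GL chevE6.Idx K) f) :
    g ∈ HZ hq hK := mem_HZ hq hK h.1

theorem gE_mem_HZ (x : QB.M hq hK) : gE hq hK x ∈ HZ hq hK := mem_HZ hq hK fun t => ⟨t, by
  show QB.E x.1 * zE t * (QB.E x.1)⁻¹ = zE t
  rw [show QB.E x.1 * zE t = zE t * QB.E x.1 from (QB.EL_commute_z QB.ord x.1 t).eq,
    mul_inv_cancel_right]⟩

variable {V : Type*} [AddCommGroup V] [Module ℂ V]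
  (ρ : Representation ℂ ↥(chevE6.genSubgroup K (e6Words K q)) V)

/-- The space of vectors fixed by the highest root group. -/
noncomputable abbrev CS : Submodule ℂ V := wt (actZ hq hK ρ) 1

theorem HZ_stab {g : ↥G1} (hg : g ∈ HZ hq hK) {v : V} (hv : v ∈ CS hq hK ρ) :
    ρ g v ∈ CS hq hK ρ := by
  intro b
  have hm : g⁻¹ * gzE hq hK b * g ∈ zGroup hq hK :=
    (Subgroup.mem_normalizer_iff''.1 hg _).1 ⟨b, rfl⟩
  obtain ⟨t, ht⟩ := hm
  show ρ (gzE hq hK b) (ρ g v) = _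
  rw [← Module.End.mul_apply, ← map_mul,
    show gzE hq hK b * g = g * gzE hq hK t by rw [ht]; group, map_mul, Module.End.mul_apply,
    show ρ (gzE hq hK t) v = _ from hv t, map_smul, AddChar.one_apply, AddChar.one_apply]

/-- The action of the normaliser on the fixed space. -/
noncomputable def piC0 : ↥(HZ hq hK) →* Module.End ℂ (CS hq hK ρ) where
  toFun g := (ρ (g : ↥G1)).restrict fun _ hv => HZ_stab hq hK ρ g.2 hv
  map_one' := LinearMap.ext fun v => Subtype.ext (by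
    show ρ ((1 : ↥(HZ hq hK)) : ↥G1) (v : V) = (v : V)
    rw [OneMemClass.coe_one, map_one, Module.End.one_apply])
  map_mul' g h := LinearMap.ext fun v => Subtype.ext (by
    show ρ ((g : ↥G1) * (h : ↥G1)) (v : V) = ρ (g : ↥G1) (ρ (h : ↥G1) (v : V))
    rw [map_mul, Module.End.mul_apply])

theorem piC0_apply (g : ↥(HZ hq hK)) (v : CS hq hK ρ) :
    ((piC0 hq hK ρ g v : CS hq hK ρ) : V) = ρ (g : ↥G1) (v : V) := rfl

/-- The fixed space as a space of weights of the radical. -/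
noncomputable def CRep : Rep hq hK QB (CS hq hK ρ) where
  H := HZ hq hK
  π := piC0 hq hK ρ
  hE := gE_mem_HZ hq hK
  triv := by
    rintro h ⟨w, hw⟩
    have hm := (h : ↥G1).2
    rw [hw, zE_mem_iff hq hK] at hm
    refine LinearMap.ext fun v => Subtype.ext ?_
    rw [piC0_apply, show ((h : ↥(HZ hq hK)) : ↥G1) = gzE hq hK ⟨w, hm⟩ from Subtype.ext hw,
      show ρ (gzE hq hK ⟨w, hm⟩) (v : V) = _ from v.2 _, AddChar.one_apply, one_smul]
    rfl

variable [FiniteDimensional ℂ V] [Fintype (F0 hq hK)]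

theorem trace_CS (g : ↥(HZ hq hK)) :
    LinearMap.trace ℂ (CS hq hK ρ) (piC0 hq hK ρ g) =
      LinearMap.trace ℂ V (ρ (g : ↥G1) * proj (actZ hq hK ρ) 1) := by
  have hm : ∀ x, (ρ (g : ↥G1) * proj (actZ hq hK ρ) 1) x ∈ CS hq hK ρ := fun x =>
    HZ_stab hq hK ρ g.2 (proj_mem (actZ hq hK ρ) 1 x)
  rw [← LinearMap.trace_restrict_eq_of_forall_mem (CS hq hK ρ) _ hm]
  congr 1
  refine LinearMap.ext fun x => Subtype.ext ?_
  show ρ (g : ↥G1) (x : V) = ρ (g : ↥G1) (proj (actZ hq hK ρ) 1 (x : V))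
  rw [proj_apply_mem (actZ hq hK ρ) x.2]

theorem trace_split_Z (P : Module.End ℂ V) :
    LinearMap.trace ℂ V P = LinearMap.trace ℂ V (P * proj (actZ hq hK ρ) 1) +
      ∑ ψ ∈ (Finset.univ : Finset (AddChar (F0 hq hK) ℂ)).erase 1,
        LinearMap.trace ℂ V (P * proj (actZ hq hK ρ) ψ) := by
  classical
  rw [Finset.add_sum_erase _ (fun ψ => LinearMap.trace ℂ V (P * proj (actZ hq hK ρ) ψ))
    (Finset.mem_univ _), ← map_sum, ← Finset.mul_sum, sum_proj, mul_one]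

/-- The standing hypotheses: a faithful representation below the proposed degree. -/
structure Small : Prop where
  faithful : ∀ g, ρ g = 1 → g = 1
  lt : Module.finrank ℂ V < minT q

variable {hq hK ρ}

theorem Small.line (h : Small ρ) [Fintype (MJ hq hK)]
    {ψ : AddChar (F0 hq hK) ℂ} (hψ : ψ ≠ 1) :
    Module.finrank ℂ (wt (act2 hq hK ρ) (pairChar hq hK ψ 1)) = 1 := by
  classical
  obtain ⟨ψ1, hψ1, hW⟩ := exists_wt (actZ hq hK ρ) (c := 1) fun e => by
    have h2 := congrArg Subtype.val (h.faithful _ e)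
    exact one_ne_zero (zE_inj (h2.trans zE_zero.symm))
  have hall : ∀ φ : AddChar (F0 hq hK) ℂ, φ ≠ 1 →
      Module.finrank ℂ (wt (actZ hq hK ρ) φ) = Module.finrank ℂ (wt (actZ hq hK ρ) ψ) :=
    fun φ hφ => finrank_shift hq hK ψ ρ hψ φ hφ
  set m := Module.finrank ℂ (wt (act2 hq hK ρ) (pairChar hq hK ψ 1)) with hm
  have hD := finrank_eq_mul hq hK ψ ρ hψ
  rw [← hm] at hD
  have hm0 : m ≠ 0 := by
    intro h0
    have e := hall ψ1 hψ1
    rw [hD, h0, mul_zero, Submodule.finrank_eq_zero] at e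
    exact hW e
  by_contra hne
  have hm2 : 2 ≤ m := by omega
  have hsum := sum_finrank (actZ hq hK ρ)
  rw [← Finset.add_sum_erase _ _ (Finset.mem_univ (1 : AddChar (F0 hq hK) ℂ)),
    Finset.sum_congr rfl fun φ hφ => (hall φ (Finset.ne_of_mem_erase hφ)).trans hD,
    Finset.sum_const, Finset.card_erase_of_mem (Finset.mem_univ _), Finset.card_univ, AddChar.card_eq,
    card_F0' hq hK, smul_eq_mul] at hsum
  have := minT_lt hq.two_le
  have := h.lt
  have : 2 * ((q - 1) * q ^ 10) ≤ (q - 1) * (q ^ 10 * m) := by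
    calc 2 * ((q - 1) * q ^ 10) = (q - 1) * (q ^ 10 * 2) := by ring
      _ ≤ _ := Nat.mul_le_mul_left _ (Nat.mul_le_mul_left _ hm2)
  omega

theorem Small.finrank_eq (h : Small ρ) :
    Module.finrank ℂ V = Module.finrank ℂ (CS hq hK ρ) + (q - 1) * q ^ 10 := by
  classical
  have := Fintype.ofFinite (MJ hq hK)
  rw [← sum_finrank (actZ hq hK ρ),
    ← Finset.add_sum_erase _ _ (Finset.mem_univ (1 : AddChar (F0 hq hK) ℂ)),
    Finset.sum_congr rfl fun φ hφ => show Module.finrank ℂ (wt (actZ hq hK ρ) φ) = q ^ 10 by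
      rw [finrank_eq_mul hq hK φ ρ (Finset.ne_of_mem_erase hφ),
        h.line (Finset.ne_of_mem_erase hφ), mul_one],
    Finset.sum_const, Finset.card_erase_of_mem (Finset.mem_univ _), Finset.card_univ, AddChar.card_eq,
    card_F0' hq hK, smul_eq_mul]

omit [FiniteDimensional ℂ V] [Fintype (F0 hq hK)] in
theorem char_conj_word {L : List (Fin 4)} {r : ℕ} (hr : r < chevE6.nroots)
    (hw : wL chevE6 (wdN L) r = 71) {g : ↥G1} {t : K} (hg : (g : GL chevE6.Idx K) = Sys.xG S K r t)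
    (ht : t ≠ 0) : ∃ c : F0 hq hK, c ≠ 0 ∧
      LinearMap.trace ℂ V (ρ g) = LinearMap.trace ℂ V (ρ (gzE hq hK c)) := by
  have hL : ∀ i ∈ wdN L, i < chevE6.rank := by
    intro i hi
    obtain ⟨a, -, ha⟩ := List.mem_flatMap.1 hi
    exact blkN_lt a i ha
  obtain ⟨c, hc, e⟩ := nL_conj_const (K := K) hL hr
  have e1 := e t
  rw [hw] at e1
  let n : ↥G1 := ⟨_, nL_word_mem hq hK L⟩
  have hm : phi hq hK (c * t) = c * t := (zE_mem_iff hq hK).1 (by
    rw [zE, ← e1, ← hg]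
    exact mul_mem (mul_mem (nL_word_mem hq hK L) g.2) (inv_mem (nL_word_mem hq hK L)))
  refine ⟨⟨c * t, hm⟩, fun h0 => mul_ne_zero hc ht (congrArg Subtype.val h0), ?_⟩
  have e2 : n * g * n⁻¹ = gzE hq hK ⟨c * t, hm⟩ := Subtype.ext (by
    show nL S K (wdN L) * (g : GL chevE6.Idx K) * (nL S K (wdN L))⁻¹ = _
    rw [hg, e1]; rfl)
  rw [← e2, MonoidHom.map_mul, MonoidHom.map_mul, LinearMap.trace_mul_comm, ← mul_assoc,
    ← MonoidHom.map_mul, inv_mul_cancel, MonoidHom.map_one, one_mul]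

theorem Small.trace_z (h : Small ρ) {c : F0 hq hK} (hc : c ≠ 0) :
    LinearMap.trace ℂ V (ρ (gzE hq hK c)) =
      (Module.finrank ℂ (CS hq hK ρ) : ℂ) - (q : ℂ) ^ 10 := by
  classical
  have := Fintype.ofFinite (MJ hq hK)
  show LinearMap.trace ℂ V (actZ hq hK ρ c) = _
  have h0 := AddChar.sum_apply_eq_ite c
  rw [if_neg hc, ← Finset.add_sum_erase _ _ (Finset.mem_univ (1 : AddChar (F0 hq hK) ℂ)),
    AddChar.one_apply] at h0
  rw [WeightProj65.trace_act, ← Finset.add_sum_erase _ _ (Finset.mem_univ (1 : AddChar (F0 hq hK) ℂ)),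
    AddChar.one_apply, one_mul, Finset.sum_congr rfl fun φ hφ => by
      rw [finrank_eq_mul hq hK φ ρ (Finset.ne_of_mem_erase hφ),
        h.line (Finset.ne_of_mem_erase hφ), mul_one],
    ← Finset.sum_mul, eq_neg_of_add_eq_zero_right h0]
  push_cast
  ring

/-- The fixed long positions with a word carrying them to the highest root. -/
def fixWord : List (Fin 20 × List (Fin 4)) :=
  [(0, [0, 1, 2, 1, 3, 2, 1]), (1, [0, 1, 2, 1, 3, 2]), (5, [0, 1, 2, 1, 3]), (7, [0, 1, 2, 3]),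
   (12, [0, 1, 2, 1]), (14, [0, 1, 2]), (18, [0, 1]), (19, [0])]

theorem fixWord_ok : ∀ s : Fin 20, QB.pr s = s → ∃ e ∈ fixWord, e.1 = s ∧
    wL chevE6 (wdN e.2) (QB.rt s) = 71 := by decide +kernel

/-- The element of a long coordinate. -/
noncomputable def longEl {s : Fin 20} (hs : QB.pr s = s) (t : F0 hq hK) : QB.M hq hK :=
  ⟨QB.one1 hq hK s (t : K), QB.one1_mem hq hK fun _ => t.2⟩

theorem longEl_val {s : Fin 20} (hs : QB.pr s = s) (t : F0 hq hK) :
    (longEl hs t).1 = Pi.single s (t : K) := by simp [longEl, Blk.one1, hs]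

theorem Small.trace_long (h : Small ρ) {s : Fin 20} (hs : QB.pr s = s)
    {t : F0 hq hK} (ht : t ≠ 0) :
    LinearMap.trace ℂ (CS hq hK ρ) ((CRep hq hK ρ).act (longEl hs t)) =
      (Module.finrank ℂ (CS hq hK ρ) : ℂ) - (q : ℂ) ^ 10 := by
  classical
  show LinearMap.trace ℂ (CS hq hK ρ) (piC0 hq hK ρ ⟨gE hq hK (longEl hs t), gE_mem_HZ hq hK _⟩) = _
  rw [trace_CS]
  have hval : ((gE hq hK (longEl hs t) : ↥G1) : GL chevE6.Idx K) = QB.xr s (t : K) := by
    show QB.E (longEl hs t).1 = _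
    rw [longEl_val, Blk.E_single]
  obtain ⟨⟨s', L⟩, -, rfl, hw⟩ := fixWord_ok s hs
  obtain ⟨c, hc, e⟩ := char_conj_word (ρ := ρ) (hq := hq) (hK := hK) (QB.rt_lt _) hw hval
    (fun h0 => ht (Subtype.ext h0))
  rw [← h.trace_z hc, ← e]
  have e1 := trace_split_Z hq hK ρ (ρ (gE hq hK (longEl hs t)))
  rw [Finset.sum_eq_zero, add_zero] at e1
  · exact e1.symm
  intro φ hφ
  -- an element of the partner root group shows that the root element is traceless here
  obtain ⟨w0, hw0⟩ := AddChar.ne_one_iff.1 (Finset.ne_of_mem_erase hφ)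
  have hps : ∀ s : Fin 20, QB.pr s = s → QB.pr (prtQ s) = prtQ s ∧
      QB.cz (prtQ s) s * QB.cz (prtQ s) s = 1 := by decide +kernel
  obtain ⟨hp, hcz⟩ := hps _ hs
  let u : F0 hq hK := (QB.cz (prtQ s') s' : F0 hq hK) * (w0 * t⁻¹)
  let y : ↥G1 := gE hq hK (longEl hp u)
  refine trace_mul_proj_eq_zero (actZ hq hK ρ) (y := ρ y) (y' := ρ y⁻¹) (c := w0) ?_ hw0 ?_ ?_
  · rw [← map_mul, inv_mul_cancel, map_one]
  · intro b
    show ρ y * ρ (gzE hq hK b) = ρ (gzE hq hK b) * ρ y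
    rw [← map_mul, ← map_mul, comm_gE_z]
  · show ρ y * ρ _ = ρ _ * ρ y * ρ (gzE hq hK w0)
    rw [← map_mul, ← map_mul, ← map_mul]
    congr 1
    refine Subtype.ext ?_
    show QB.E (longEl hp u).1 * ((gE hq hK (longEl hs t) : ↥G1) : GL chevE6.Idx K) =
      ((gE hq hK (longEl hs t) : ↥G1) : GL chevE6.Idx K) * QB.E (longEl hp u).1 * zE (w0 : K)
    rw [hval, longEl_val, Blk.E_single, QB.swap_one]
    congr 2
    have hu : (QB.cz (prtQ s') s' : F0 hq hK) * u * t = w0 := by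
      simp only [u]
      rw [← mul_assoc, ← Int.cast_mul, hcz, Int.cast_one, one_mul, mul_assoc, inv_mul_cancel₀ ht,
        mul_one]
    have := congrArg Subtype.val hu
    push_cast at this
    exact this

theorem Small.trace_sixty (h : Small ρ)
    (hm : g60 hq hK 1 ∈ HZ hq hK) :
    LinearMap.trace ℂ (CS hq hK ρ) (piC0 hq hK ρ ⟨g60 hq hK 1, hm⟩) =
      (Module.finrank ℂ (CS hq hK ρ) : ℂ) - (q : ℂ) ^ 10 + ((q : ℂ) - 1) * (q : ℂ) ^ 7 := by
  classical
  have := Fintype.ofFinite (MJ hq hK)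
  have := Fintype.ofFinite (MI hq hK)
  obtain ⟨c, hc, e⟩ := char_conj_word (ρ := ρ) (hq := hq) (hK := hK) (L := [0, 1, 2, 1, 0]) (r := 60)
    (by decide) (by decide +kernel) (g := g60 hq hK 1) (t := 1) rfl one_ne_zero
  have e1 := trace_split_Z (hq := hq) (hK := hK) (ρ := ρ) (ρ (g60 hq hK 1))
  rw [e, h.trace_z hc, Finset.sum_congr rfl fun φ hφ =>
    trace_g60 hq hK φ ρ (Finset.ne_of_mem_erase hφ) (h.line (Finset.ne_of_mem_erase hφ)),
    Finset.sum_const, Finset.card_erase_of_mem (Finset.mem_univ _), Finset.card_univ, AddChar.card_eq,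
    card_F0' hq hK, nsmul_eq_mul, Nat.cast_sub hq.one_lt.le, Nat.cast_one] at e1
  rw [trace_CS, e1]
  ring

end CfsgLib.TwistedLie.E6.MinDeg65
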