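import Cfsg.Agent.E6MinDeg65.Orbit

/-!
The vectors fixed by the radical: a bound from the weights of the radical of the Levi complement.
-/

set_option autoImplicit false

namespace CfsgLib.TwistedLie.E6.MinDeg65

open Cfsg.Lie CfsgLib.Chevalley CfsgLib.TwistedLie CfsgLib.WeightProj65

local notation "S" => sysE6

theorem mv_ok : ∀ r ∈ ([56, 36, 57, 38, 37, 42, 34, 29] : List ℕ), QB.OkOp r ∧ UB.OkOp r := by
  decide +kernel

theorem mv_pair : ∀ r ∈ ([36, 37, 38] : List ℕ), PairOK r ∧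
    r ∈ ([56, 36, 57, 38, 37, 42, 34, 29] : List ℕ) ∧
    pE r ∈ ([56, 36, 57, 38, 37, 42, 34, 29] : List ℕ) := by decide +kernel

theorem mv_t36 : UB.stp 36 4 = [(5, 1)] ∧ UB.stp 36 7 = [(8, 1)] ∧ UB.stp 36 6 = [] ∧ UB.stp 36 8 = [] := by decide +kernel

theorem mv_t56 : UB.stp 56 4 = [(7, -1)] ∧ UB.stp 56 7 = [] ∧ UB.stp 56 6 = [] ∧ UB.stp 56 8 = [] := by decide +kernel

theorem mv_t38 : UB.stp 38 0 = [(2, 1)] ∧ UB.stp 38 6 = [(8, 1)] ∧ UB.stp 38 7 = [] ∧ UB.stp 38 8 = [] := by decide +kernel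

theorem mv_t57 : UB.stp 57 0 = [(6, -1)] ∧ UB.stp 57 6 = [] ∧ UB.stp 57 7 = [] ∧ UB.stp 57 8 = [] := by decide +kernel

theorem mv_t37 : UB.stp 37 0 = [(1, 1)] ∧ UB.stp 37 3 = [(4, 1)] ∧ UB.stp 37 4 = [] ∧ UB.stp 37 6 = [(7, 1)] ∧
      UB.stp 37 7 = [] ∧ UB.stp 37 8 = [] := by decide +kernel

theorem mv_t42 : UB.stp 42 0 = [(3, -1)] ∧ UB.stp 42 3 = [] ∧ UB.stp 42 4 = [] ∧ UB.stp 42 6 = [] ∧
      UB.stp 42 7 = [] ∧ UB.stp 42 8 = [] := by decide +kernel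

theorem mv_t34 : UB.stp 34 1 = [(0, 1)] ∧ UB.stp 34 6 = [] ∧ UB.stp 34 7 = [(6, 1)] ∧ UB.stp 34 8 = [] := by decide +kernel

theorem mv_t29 : UB.stp 29 1 = [] ∧ UB.stp 29 6 = [] ∧ UB.stp 29 7 = [] ∧ UB.stp 29 8 = [] := by decide +kernel

theorem mv_tab :
    (UB.stp 36 4 = [(5, 1)] ∧ UB.stp 36 7 = [(8, 1)] ∧ UB.stp 36 6 = [] ∧ UB.stp 36 8 = []) ∧
    (UB.stp 56 4 = [(7, -1)] ∧ UB.stp 56 7 = [] ∧ UB.stp 56 6 = [] ∧ UB.stp 56 8 = []) ∧
    (UB.stp 38 0 = [(2, 1)] ∧ UB.stp 38 6 = [(8, 1)] ∧ UB.stp 38 7 = [] ∧ UB.stp 38 8 = []) ∧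
    (UB.stp 57 0 = [(6, -1)] ∧ UB.stp 57 6 = [] ∧ UB.stp 57 7 = [] ∧ UB.stp 57 8 = []) ∧
    (UB.stp 37 0 = [(1, 1)] ∧ UB.stp 37 3 = [(4, 1)] ∧ UB.stp 37 4 = [] ∧ UB.stp 37 6 = [(7, 1)] ∧
      UB.stp 37 7 = [] ∧ UB.stp 37 8 = []) ∧
    (UB.stp 42 0 = [(3, -1)] ∧ UB.stp 42 3 = [] ∧ UB.stp 42 4 = [] ∧ UB.stp 42 6 = [] ∧
      UB.stp 42 7 = [] ∧ UB.stp 42 8 = []) ∧
    (UB.stp 34 1 = [(0, 1)] ∧ UB.stp 34 6 = [] ∧ UB.stp 34 7 = [(6, 1)] ∧ UB.stp 34 8 = []) ∧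
    (UB.stp 29 1 = [] ∧ UB.stp 29 6 = [] ∧ UB.stp 29 7 = [] ∧ UB.stp 29 8 = []) :=
  ⟨mv_t36, mv_t56, mv_t38, mv_t57, mv_t37, mv_t42, mv_t34, mv_t29⟩

theorem mv_sym : pE 36 = 56 ∧ pE 37 = 42 ∧ pE 38 = 57 ∧ sgE 36 = 1 ∧ sgE 37 = 1 ∧ sgE 38 = -1 := by
  decide +kernel

/-- The permutation of coordinates by a word. -/
def wordQ (L : List (Fin 4)) (i : Fin 20) : Fin 20 :=
  (QB.pos (wL chevE6 (wdN L) (QB.rt i))).getD 0

/-- The permutation of the Levi coordinates by a word. -/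
def wordU (L : List (Fin 4)) (i : Fin 9) : Fin 9 :=
  (UB.pos (wL chevE6 (wdN L) (UB.rt i))).getD 0

theorem word_ok : ∀ L ∈ ([[3], [2, 3], [3, 2]] : List (List (Fin 4))), wL chevE6 (wdN L) 71 = 71 ∧
    (∀ i, wL chevE6 (wdN L) (QB.rt i) = QB.rt (wordQ L i)) ∧
    (∀ i, wL chevE6 (wdN L) (UB.rt i) = UB.rt (wordU L i)) ∧ Function.Injective (wordU L) := by
  decide +kernel

theorem word_val : wordU [3] 8 = 4 ∧ wordU [3] 4 = 8 ∧ wordU [2, 3] 8 = 0 ∧ wordU [3, 2] 0 = 8 := by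
  decide +kernel

variable {K : Type*} [Field K] [Fintype K] {q : ℕ} (hq : IsPrimePow q) (hK : Fintype.card K = q ^ 2)

local notation "G1" => chevE6.genSubgroup K (e6Words K q)

/-- The elements that act on the coordinates of the radical. -/
noncomputable def LS : Subgroup ↥(chevE6.genSubgroup K (e6Words K q)) where
  carrier := {g | ∃ f, QB.Acts (g : GL chevE6.Idx K) f}
  one_mem' := ⟨id, QB.acts_one⟩
  mul_mem' := fun {a b} ⟨f, hf⟩ ⟨f', hf'⟩ => ⟨_, hf.mul hf'⟩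
  inv_mem' := fun {a} ⟨f, hf⟩ => by
    have hpow : ∀ k : ℕ, ∃ f, QB.Acts ((a ^ k : ↥G1) : GL chevE6.Idx K) f := by
      intro k
      induction k with
      | zero => exact ⟨id, by rw [pow_zero]; exact QB.acts_one⟩
      | succ k ih =>
        obtain ⟨g, hg⟩ := ih
        exact ⟨_, by rw [pow_succ]; exact hg.mul hf⟩
    have e : a⁻¹ = a ^ (orderOf a - 1) := by
      refine (eq_inv_of_mul_eq_one_left ?_).symm
      rw [← pow_succ, Nat.sub_add_cancel (orderOf_pos a), pow_orderOf_eq_one]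
    rw [Set.mem_setOf_eq, e]
    exact hpow _

theorem LS_le : LS (K := K) (q := q) ≤ HZ hq hK := fun _ hg => mem_HZ_acts hq hK hg.choose_spec

variable {V : Type*} [AddCommGroup V] [Module ℂ V] [FiniteDimensional ℂ V] [Fintype (F0 hq hK)]
  {ρ : Representation ℂ ↥(chevE6.genSubgroup K (e6Words K q)) V} (h : Small ρ)
  (ψ : AddChar (F0 hq hK) ℂ) (hψ : ψ ≠ 1)

local notation "CR" => CRep hq hK ρ

theorem LS_stab {g : ↥(LS (K := K) (q := q))} {v : CS hq hK ρ} (hv : v ∈ (CR).Wt ψ 0) :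
    (CR).π ⟨g.1, LS_le hq hK g.2⟩ v ∈ (CR).Wt ψ 0 := by
  obtain ⟨f, hf⟩ := g.2
  refine (CR).maps_to ψ (h := ⟨g.1, LS_le hq hK g.2⟩) hf 0 ?_
  rwa [show Rep.fM hf (0 : QB.M hq hK) = 0 from Subtype.ext hf.zero]

/-- The action on the vectors fixed by the radical. -/
noncomputable def piL : ↥(LS (K := K) (q := q)) →* Module.End ℂ ((CR).Wt ψ 0) where
  toFun g := ((CR).π ⟨g.1, LS_le hq hK g.2⟩).restrict fun _ hv => LS_stab hq hK ψ hv
  map_one' := LinearMap.ext fun v => Subtype.ext (by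
    show piC0 hq hK ρ (⟨(1 : ↥G1), _⟩ : ↥(HZ hq hK)) v.1 = v.1
    exact LinearMap.congr_fun (map_one (piC0 hq hK ρ)) v.1)
  map_mul' g g' := LinearMap.ext fun v => Subtype.ext (by
    show piC0 hq hK ρ ((⟨g.1, LS_le hq hK g.2⟩ : ↥(HZ hq hK)) * ⟨g'.1, LS_le hq hK g'.2⟩) v.1 = _
    exact LinearMap.congr_fun (map_mul (piC0 hq hK ρ) _ _) v.1)

/-- The vectors fixed by the radical as a space of weights of the radical of the Levi complement. -/
noncomputable def LRep : Rep hq hK UB ((CR).Wt ψ 0) where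
  H := LS (K := K) (q := q)
  π := piL hq hK ψ
  hE x := ⟨_, acts_U x.1⟩
  triv := by
    rintro g hw
    refine LinearMap.ext fun v => Subtype.ext ?_
    show (CR).π ⟨g.1, LS_le hq hK g.2⟩ v.1 = v.1
    rw [(CR).triv ⟨g.1, LS_le hq hK g.2⟩ hw, Module.End.one_apply]

/-- A coordinate vector occurring as a weight on the vectors fixed by the radical. -/
def Wgt (B : Fin 9 → K) : Prop :=
  ∃ hB : B ∈ UB.M hq hK, 0 < (LRep hq hK (ρ := ρ) ψ).dim ψ ⟨B, hB⟩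

/-- A dual action by an element of the Levi complement. -/
def Mv (f : (Fin 9 → K) → Fin 9 → K) : Prop :=
  ∃ g : ↥(chevE6.genSubgroup K (e6Words K q)),
    (∃ f', QB.Acts (g : GL chevE6.Idx K) f') ∧ UB.Acts (g : GL chevE6.Idx K) f

variable {hq hK ψ}

theorem Mv.wgt {f} (hf : Mv (K := K) (q := q) f) {B : Fin 9 → K}
    (hB : Wgt hq hK (ρ := ρ) ψ B) : Wgt hq hK (ρ := ρ) ψ (f B) := by
  obtain ⟨g, hg, hU⟩ := hf
  obtain ⟨hm, hd⟩ := hB
  exact ⟨_, hd.trans_eq ((LRep hq hK (ρ := ρ) ψ).dim_eq ψ (h := ⟨g, hg⟩) hU ⟨B, hm⟩).symm⟩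

theorem Mv.inj {f} (hf : Mv (K := K) (q := q) f) {B B' : Fin 9 → K}
    (hB : Wgt hq hK (ρ := ρ) ψ B) (hB' : Wgt hq hK (ρ := ρ) ψ B') (e : f B = f B') : B = B' := by
  obtain ⟨g, hg, hU⟩ := hf
  have := (LRep hq hK (ρ := ρ) ψ).fM_injective (h := ⟨g, hg⟩) hU
    (a₁ := ⟨B, hB.1⟩) (a₂ := ⟨B', hB'.1⟩) (Subtype.ext e)
  exact congrArg Subtype.val this

variable (hq hK)

theorem mv_list {l : List (ℕ × K)} (hm : (l.map fun e => Sys.xG S K e.1 e.2).prod ∈ G1)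
    (hl : ∀ e ∈ l, e.1 ∈ ([56, 36, 57, 38, 37, 42, 34, 29] : List ℕ)) :
    Mv (K := K) (q := q) (UB.opL l) :=
  ⟨⟨_, hm⟩, ⟨_, QB.acts_list l fun e he => (mv_ok _ (hl e he)).1⟩,
    UB.acts_list l fun e he => (mv_ok _ (hl e he)).2⟩

theorem mv_pos {r : ℕ} (hr : r ∈ ([36, 37, 38] : List ℕ)) (a : K) :
    Mv (K := K) (q := q) (UB.opL (pairL hq hK r a)) := by
  obtain ⟨h1, h2, h3⟩ := mv_pair r hr
  refine mv_list (pair_root_mem hq hK h1 a) fun e he => ?_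
  simp only [pairL, List.mem_cons, List.not_mem_nil, or_false] at he
  rcases he with rfl | rfl
  exacts [h2, h3]

include hq hK in
theorem mv_neg : Mv (K := K) (q := q) (UB.opL [(34, (1 : K)), (29, 1)]) := by
  have hm : Sys.xG S K 34 1 * Sys.xG S K 29 1 ∈ G1 := by
    have hp := (pair_mem hq hK (Or.inr ⟨rfl, rfl⟩) (1 : K)).2
    rw [Folded.N, map_one, (by decide +kernel : chevE6.neg (chevE6.simple 2) = 29),
      (by decide +kernel : chevE6.neg (chevE6.simple 4) = 34)] at hp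
    rwa [(xG_commute S K (by decide) (by decide) (by decide) (by decide +kernel)
      (by decide +kernel) (1 : K) (1 : K) : Commute (Sys.xG S K 34 1) (Sys.xG S K 29 1)).eq]
  exact mv_list (by simpa using hm) (by simp)

include hq hK in
theorem mv_word {L : List (Fin 4)} (hL : L ∈ ([[3], [2, 3], [3, 2]] : List (List (Fin 4)))) :
    ∃ c : Fin 9 → K, (∀ i, c i ≠ 0) ∧ Mv (K := K) (q := q) (fun A i => c i * A (wordU L i)) := by
  obtain ⟨h71, hQ, hU, -⟩ := word_ok L hL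
  obtain ⟨fQ, hfQ, -⟩ := QB.acts_weyl (K := K) (L := L) (wordQ L) ⟨h71, hQ⟩
  obtain ⟨fU', hfU, c, hc, hval⟩ := UB.acts_weyl (K := K) (L := L) (wordU L) ⟨h71, hU⟩
  exact ⟨c, hc, ⟨_, nL_word_mem hq hK L⟩, ⟨fQ, hfQ⟩, hfU.congr fun A => funext fun i => hval A i⟩

theorem mv_scale {u : F0 hq hK} (hu : u ≠ 0) :
    Mv (K := K) (q := q) (fun A i => (u : K) * A i) := by
  have hu' : (u : K) ≠ 0 := fun e => hu (Subtype.ext e)
  have hm : tor chevE6 K (torC [1, 1, 2, 3, 2, 1] (Units.mk0 (u : K) hu')) ∈ G1 :=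
    torC_mem hq hK (by decide +kernel) u.2
  refine ⟨⟨_, hm⟩, ⟨_, QB.acts_torC _ _⟩, (UB.acts_torC _ _).congr fun A => funext fun i => ?_⟩
  rw [torusVal_torC, (by decide +kernel : ∀ i, ((List.range 6).map fun j =>
    (([1, 1, 2, 3, 2, 1] : List ℕ).getD j 0 : ℤ) * chevE6.cartan j (UB.rt i)).sum = 1) i, zpow_one]
  rfl

/-- A coordinate vector with last row and column killed. -/
def Norm8 (B : Fin 9 → K) : Prop :=
  Wgt hq hK (ρ := ρ) ψ B ∧ B 8 ≠ 0 ∧ B 6 = 0 ∧ B 7 = 0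

theorem two_var {x y : K} (hxy : ∀ a : K, a * x + phi hq hK a * y = 0) : x = 0 ∧ y = 0 := by
  obtain ⟨t, ht⟩ := exists_phi_ne hq hK
  have e1 := hxy 1
  have e2 := hxy t
  rw [map_one] at e1
  have e3 : x * (t - phi hq hK t) = 0 := by linear_combination e2 - phi hq hK t * e1
  have hx := (mul_eq_zero.1 e3).resolve_right (sub_ne_zero.2 ht.symm)
  exact ⟨hx, by linear_combination e1 - hx⟩

theorem U_sym {B : Fin 9 → K} (hB : B ∈ UB.M hq hK) :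
    (B 1 = 0 → B 3 = 0) ∧ (B 2 = 0 → B 6 = 0) ∧ (B 6 = 0 → B 2 = 0) ∧ (B 7 = 0 → B 5 = 0) := by
  refine ⟨fun e => ?_, fun e => ?_, fun e => ?_, fun e => ?_⟩
  · rw [show (3 : Fin 9) = UB.pr 1 from rfl, hB, e, map_zero, mul_zero]
  · rw [show (6 : Fin 9) = UB.pr 2 from rfl, hB, e, map_zero, mul_zero]
  · rw [show (2 : Fin 9) = UB.pr 6 from rfl, hB, e, map_zero, mul_zero]
  · rw [show (5 : Fin 9) = UB.pr 7 from rfl, hB, e, map_zero, mul_zero]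

/-- The first translation. -/
noncomputable def tA (a : K) : (Fin 9 → K) → Fin 9 → K := UB.opL (pairL hq hK 38 a)

/-- The second translation. -/
noncomputable def tB (b : K) : (Fin 9 → K) → Fin 9 → K := UB.opL (pairL hq hK 36 b)

theorem tAB_coord (a b : K) (B : Fin 9 → K) :
    tB hq hK b (tA hq hK a B) 8 = B 8 ∧ tB hq hK b (tA hq hK a B) 6 = B 6 + a * B 8 ∧
      tB hq hK b (tA hq hK a B) 7 = B 7 + b * B 8 := by
  obtain ⟨⟨-, a7, a6, a8⟩, ⟨-, b7, b6, b8⟩, ⟨-, c6, c7, c8⟩, ⟨-, d6, d7, d8⟩, -⟩ := mv_tab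
  obtain ⟨p36, -, p38, -⟩ := mv_sym
  simp [tA, tB, pairL, Blk.opL, Blk.opR, p36, p38, a7, a6, a8, b7, b6, b8, c6, c7, c8, d6, d7, d8]

theorem tAB_wgt {B : Fin 9 → K} (hB : Wgt hq hK (ρ := ρ) ψ B) (a b : K) :
    Wgt hq hK (ρ := ρ) ψ (tB hq hK b (tA hq hK a B)) :=
  (mv_pos hq hK (r := 36) (by simp) b).wgt ((mv_pos hq hK (r := 38) (by simp) a).wgt hB)

theorem mv_ne (hWgt : ∃ B, Wgt hq hK (ρ := ρ) ψ B ∧ B ≠ 0) :
    ∃ B, Wgt hq hK (ρ := ρ) ψ B ∧ B 8 ≠ 0 := by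
  obtain ⟨B, hB, hne⟩ := hWgt
  obtain ⟨w34, w43, w28, -⟩ := word_val
  have key : ∀ B, Wgt hq hK (ρ := ρ) ψ B → B 0 ≠ 0 ∨ B 4 ≠ 0 ∨ B 8 ≠ 0 →
      ∃ B, Wgt hq hK (ρ := ρ) ψ B ∧ B 8 ≠ 0 := by
    intro B hB hd
    rcases hd with h0 | h4 | h8
    · obtain ⟨c, hc, hf⟩ := mv_word hq hK (L := [2, 3]) (by simp)
      exact ⟨_, hf.wgt hB, by simpa [w28, hc 8] using h0⟩
    · obtain ⟨c, hc, hf⟩ := mv_word hq hK (L := [3]) (by simp)
      exact ⟨_, hf.wgt hB, by simpa [w34, hc 8] using h4⟩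
    · exact ⟨B, hB, h8⟩
  by_contra hcon
  have hdiag : ∀ B, Wgt hq hK (ρ := ρ) ψ B → B 0 = 0 ∧ B 4 = 0 ∧ B 8 = 0 := by
    intro B hB
    by_contra hd
    refine hcon (key B hB ?_)
    tauto
  obtain ⟨h0, h4, h8⟩ := hdiag B hB
  obtain ⟨⟨a4, a7, -⟩, ⟨b4, -⟩, ⟨c0, c6, -⟩, ⟨d0, -⟩, ⟨e0, e3, -⟩, ⟨f0, -⟩, -⟩ := mv_tab
  obtain ⟨p36, p37, p38, g36, g37, g38⟩ := mv_sym
  obtain ⟨h5, h7⟩ := two_var hq hK (x := B 5) (y := -B 7) fun a => by
    have e := (hdiag _ ((mv_pos hq hK (r := 36) (by simp) a).wgt hB)).2.1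
    simp [pairL, Blk.opL, Blk.opR, p36, g36, a4, a7, b4, h4, h8] at e
    linear_combination e
  obtain ⟨h2, h6⟩ := two_var hq hK (x := B 2) (y := B 6) fun a => by
    have e := (hdiag _ ((mv_pos hq hK (r := 38) (by simp) a).wgt hB)).1
    simp [pairL, Blk.opL, Blk.opR, p38, g38, c0, c6, d0, h0, h8] at e
    linear_combination e
  obtain ⟨h1, h3⟩ := two_var hq hK (x := B 1) (y := -B 3) fun a => by
    have e := (hdiag _ ((mv_pos hq hK (r := 37) (by simp) a).wgt hB)).1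
    simp [pairL, Blk.opL, Blk.opR, p37, g37, e0, e3, f0, h0, h4] at e
    linear_combination e
  rw [neg_eq_zero] at h7 h3
  exact hne (funext fun i => by fin_cases i <;> assumption)

theorem exists_norm8 (hWgt : ∃ B, Wgt hq hK (ρ := ρ) ψ B ∧ B ≠ 0) :
    ∃ B, Norm8 hq hK (ρ := ρ) (ψ := ψ) B := by
  obtain ⟨B, hB, h8⟩ := mv_ne hq hK hWgt
  obtain ⟨e8, e6, e7⟩ := tAB_coord hq hK (-(B 6) / B 8) (-(B 7) / B 8) B
  refine ⟨_, tAB_wgt hq hK hB (-(B 6) / B 8) (-(B 7) / B 8),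
    ?_, ?_, ?_⟩
  · exact e8.trans_ne h8
  · exact e6.trans (by field_simp; ring)
  · exact e7.trans (by field_simp; ring)

theorem Norm8.mv37 {B : Fin 9 → K} (hB : Norm8 hq hK (ρ := ρ) (ψ := ψ) B) (a : K) :
    Norm8 hq hK (ρ := ρ) (ψ := ψ) (UB.opL (pairL hq hK 37 a) B) ∧
      UB.opL (pairL hq hK 37 a) B 8 = B 8 := by
  obtain ⟨-, -, -, -, ⟨-, -, -, e6, e7, e8⟩, ⟨-, -, -, f6, f7, f8⟩, -⟩ := mv_tab
  obtain ⟨-, p37, -⟩ := mv_sym
  obtain ⟨hw, h8, h6, h7⟩ := hB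
  have g : UB.opL (pairL hq hK 37 a) B 8 = B 8 ∧ UB.opL (pairL hq hK 37 a) B 6 = 0 ∧
      UB.opL (pairL hq hK 37 a) B 7 = 0 := by
    simp [pairL, Blk.opL, Blk.opR, p37, e6, e7, e8, f6, f7, f8, h6, h7]
  exact ⟨⟨(mv_pos hq hK (r := 37) (by simp) a).wgt hw, g.1.trans_ne h8, g.2⟩, g.1⟩

theorem Norm8.mv34 {B : Fin 9 → K} (hB : Norm8 hq hK (ρ := ρ) (ψ := ψ) B) :
    Norm8 hq hK (ρ := ρ) (ψ := ψ) (UB.opL [(34, (1 : K)), (29, 1)] B) ∧
      UB.opL [(34, (1 : K)), (29, 1)] B 8 = B 8 := by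
  obtain ⟨-, -, -, -, -, -, ⟨-, a6, a7, a8⟩, ⟨-, b6, b7, b8⟩⟩ := mv_tab
  obtain ⟨hw, h8, h6, h7⟩ := hB
  have g : UB.opL [(34, (1 : K)), (29, 1)] B 8 = B 8 ∧ UB.opL [(34, (1 : K)), (29, 1)] B 6 = 0 ∧
      UB.opL [(34, (1 : K)), (29, 1)] B 7 = 0 := by
    simp [Blk.opL, Blk.opR, a6, a7, a8, b6, b7, b8, h6, h7]
  exact ⟨⟨(mv_neg hq hK).wgt hw, g.1.trans_ne h8, g.2⟩, g.1⟩

theorem Norm8.scale {B : Fin 9 → K} (hB : Norm8 hq hK (ρ := ρ) (ψ := ψ) B) {u : F0 hq hK}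
    (hu : u ≠ 0) : Norm8 hq hK (ρ := ρ) (ψ := ψ) (fun i => (u : K) * B i) := by
  obtain ⟨hw, h8, h6, h7⟩ := hB
  exact ⟨(mv_scale hq hK hu).wgt hw, mul_ne_zero (fun e => hu (Subtype.ext e)) h8, by simp [h6],
    by simp [h7]⟩

theorem tAB_inj {B B' : Fin 9 → K} (hB : Norm8 hq hK (ρ := ρ) (ψ := ψ) B)
    (hB' : Norm8 hq hK (ρ := ρ) (ψ := ψ) B') {a b a' b' : K}
    (e : tB hq hK b (tA hq hK a B) = tB hq hK b' (tA hq hK a' B')) : B = B' ∧ a = a' ∧ b = b' := by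
  obtain ⟨x8, x6, x7⟩ := tAB_coord hq hK a b B
  obtain ⟨y8, y6, y7⟩ := tAB_coord hq hK a' b' B'
  rw [e, y8] at x8
  rw [e, y6, hB.2.2.1, hB'.2.2.1, zero_add, zero_add, x8] at x6
  rw [e, y7, hB.2.2.2, hB'.2.2.2, zero_add, zero_add, x8] at x7
  obtain rfl := mul_right_cancel₀ hB.2.1 x6
  obtain rfl := mul_right_cancel₀ hB.2.1 x7
  exact ⟨(mv_pos hq hK (r := 38) (by simp) _).inj hB.1 hB'.1
    ((mv_pos hq hK (r := 36) (by simp) _).inj ((mv_pos hq hK (r := 38) (by simp) _).wgt hB.1)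
      ((mv_pos hq hK (r := 38) (by simp) _).wgt hB'.1) e), rfl, rfl⟩

include h hψ in
theorem exists_wgt : ∃ B, Wgt hq hK (ρ := ρ) ψ B ∧ B ≠ 0 := by
  classical
  by_contra hcon
  have := Fintype.ofFinite (UB.M hq hK)
  set R := LRep hq hK (ρ := ρ) ψ
  have h0 : ∀ B : UB.M hq hK, B ≠ 0 → R.dim ψ B = 0 := fun B hB => by
    by_contra hd
    exact hcon ⟨B.1, ⟨B.2, Nat.pos_of_ne_zero hd⟩, fun e => hB (Subtype.ext e)⟩
  have hsum := R.sum_dim ψ hψ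
  rw [Fintype.sum_eq_single 0 h0] at hsum
  have htop : R.Wt ψ 0 = ⊤ := Submodule.eq_top_of_finrank_eq hsum
  obtain ⟨v, hv, hmoved⟩ := exists_moved hq hK h ψ hψ
  refine hmoved ?_
  let x : UB.M hq hK := ⟨UB.one1 hq hK 8 1, UB.one1_mem hq hK fun _ => map_one _⟩
  have hw : (⟨v, hv⟩ : (CR).Wt ψ 0) ∈ R.Wt ψ 0 := by rw [htop]; exact Submodule.mem_top
  have e := congrArg Subtype.val ((R.mem_Wt ψ).1 hw x)
  rw [show Rep.dotF (0 : UB.M hq hK) x = 0 from Subtype.ext (by simp [Rep.dotF, Blk.dot]),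
    AddChar.map_zero_eq_one, one_smul] at e
  have hg : UB.E x.1 = ((g60 hq hK 1 : ↥G1) : GL chevE6.Idx K) := by
    rw [show x.1 = Pi.single (8 : Fin 9) (1 : K) by simp [x, Blk.one1, show UB.pr 8 = 8 from rfl],
      Blk.E_single]
    rfl
  rw [show h60 hq hK = ⟨_, LS_le hq hK ((R.el x).2 : _ ∈ LS (K := K) (q := q))⟩ from
    Subtype.ext (Subtype.ext hg.symm)]
  exact e

theorem card_le_wgt {ι : Type*} [Fintype ι] (hψ : ψ ≠ 1) (P : ι → Fin 9 → K)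
    (hP : Function.Injective P) (hW : ∀ i, Wgt hq hK (ρ := ρ) ψ (P i)) :
    Fintype.card ι ≤ (CR).dim ψ 0 := by
  classical
  have := Fintype.ofFinite (UB.M hq hK)
  set R := LRep hq hK (ρ := ρ) ψ
  let P' : ι → UB.M hq hK := fun i => ⟨P i, (hW i).1⟩
  have hi : Function.Injective P' := fun i j e => hP (congrArg Subtype.val e)
  calc Fintype.card ι = ∑ B ∈ Finset.univ.image P', 1 := by
        rw [Finset.sum_const, Finset.card_image_of_injective _ hi, Finset.card_univ, smul_eq_mul,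
          mul_one]
    _ ≤ ∑ B ∈ Finset.univ.image P', R.dim ψ B := Finset.sum_le_sum fun B hB => by
        obtain ⟨i, -, rfl⟩ := Finset.mem_image.1 hB
        exact (hW i).2
    _ ≤ ∑ B, R.dim ψ B := Finset.sum_le_sum_of_subset (Finset.subset_univ _)
    _ = _ := R.sum_dim ψ hψ

include h hψ in
/-- The radical-fixed vectors make up at least the rank-one orbit. -/
theorem levi_bound : (q - 1) * (q ^ 4 + q ^ 2 + 1) ≤ (CR).dim ψ 0 := by
  classical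
  obtain ⟨B, hB⟩ := exists_norm8 hq hK (exists_wgt hq hK h hψ)
  have hU : Fintype.card (F0 hq hK)ˣ = q - 1 := by rw [Fintype.card_units, card_F0' hq hK]
  have hu : ∀ u : (F0 hq hK)ˣ, (u : F0 hq hK) ≠ 0 := fun u => u.ne_zero
  have h4 : q ^ 2 + 1 ≤ q ^ 4 := by
    have h2 : 2 ^ 2 ≤ q ^ 2 := Nat.pow_le_pow_left hq.two_le 2
    nlinarith
  by_cases htwo : ∃ B B', Norm8 hq hK (ρ := ρ) (ψ := ψ) B ∧ Norm8 hq hK (ρ := ρ) (ψ := ψ) B' ∧
      B 8 = B' 8 ∧ B ≠ B'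
  · obtain ⟨B, B', hB, hB', e8, hne⟩ := htwo
    let N : Bool × (F0 hq hK)ˣ → Fin 9 → K := fun p i =>
      (p.2 : K) * (if p.1 then B else B') i
    have hN : ∀ p, Norm8 hq hK (ρ := ρ) (ψ := ψ) (N p) := fun p => by
      obtain ⟨_ | _, u⟩ := p
      exacts [hB'.scale hq hK (hu u), hB.scale hq hK (hu u)]
    have hNi : Function.Injective N := by
      rintro ⟨s, u⟩ ⟨s', u'⟩ e
      have h := congrFun e 8
      have hs : (if s then B else B') 8 = B 8 := by cases s <;> simp [e8]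
      have hs' : (if s' then B else B') 8 = B 8 := by cases s' <;> simp [e8]
      simp only [N, hs, hs'] at h
      obtain rfl : u = u' := Units.ext (Subtype.ext (mul_right_cancel₀ hB.2.1 h))
      have h' : (if s then B else B') = if s' then B else B' :=
        funext fun i => mul_left_cancel₀ (fun e => hu u (Subtype.ext e)) (congrFun e i)
      cases s <;> cases s' <;> simp_all
    have := card_le_wgt hq hK hψ (fun p : (Bool × (F0 hq hK)ˣ) × K × K =>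
      tB hq hK p.2.2 (tA hq hK p.2.1 (N p.1)))
      (fun p p' e => by
        obtain ⟨h1, h2, h3⟩ := tAB_inj hq hK (hN _) (hN _) e
        exact Prod.ext (hNi h1) (Prod.ext h2 h3))
      fun p => tAB_wgt hq hK (hN _).1 _ _
    rw [Fintype.card_prod, Fintype.card_prod, Fintype.card_prod, Fintype.card_bool, hU, hK] at this
    refine le_trans ?_ this
    calc (q - 1) * (q ^ 4 + q ^ 2 + 1) ≤ (q - 1) * (q ^ 4 + q ^ 4) :=
          Nat.mul_le_mul_left _ (by omega)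
      _ = _ := by ring
  · push Not at htwo
    -- the residue vanishes
    obtain ⟨-, -, -, -, ⟨e0, e3, -⟩, ⟨f0, f3, -⟩, ⟨a1, -⟩, ⟨b1, -⟩⟩ := mv_tab
    obtain ⟨-, p37, -, -, g37, -⟩ := mv_sym
    have hfix : ∀ a, UB.opL (pairL hq hK 37 a) B = B := fun a =>
      htwo _ _ (hB.mv37 hq hK a).1 hB (hB.mv37 hq hK a).2
    have r4 : B 4 = 0 := by
      have e := congrFun (hfix 1) 3
      simpa [pairL, Blk.opL, Blk.opR, p37, e3, f3] using e
    obtain ⟨r1, r3'⟩ := two_var hq hK (x := B 1) (y := -B 3) fun a => by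
      have e := congrFun (hfix a) 0
      simp [pairL, Blk.opL, Blk.opR, p37, g37, e0, e3, f0, r4] at e
      linear_combination e
    have r3 : B 3 = 0 := neg_eq_zero.1 r3'
    have r0 : B 0 = 0 := by
      have e := congrFun (htwo _ _ (hB.mv34 hq hK).1 hB (hB.mv34 hq hK).2) 1
      simpa [Blk.opL, Blk.opR, a1, b1] using e
    obtain ⟨-, -, s62, s75⟩ := U_sym hq hK hB.1.1
    have r2 := s62 hB.2.2.1
    have r5 := s75 hB.2.2.2
    let P : (F0 hq hK)ˣ → Fin 9 → K := fun u i => (u : K) * B i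
    have hP : ∀ u, Norm8 hq hK (ρ := ρ) (ψ := ψ) (P u) := fun u => hB.scale hq hK (hu u)
    have hPi : Function.Injective P := fun u u' e =>
      Units.ext (Subtype.ext (mul_right_cancel₀ hB.2.1 (congrFun e 8)))
    have hP0 : ∀ u i, i ≠ 8 → P u i = 0 := by
      intro u i hi
      show (u : K) * B i = 0
      have h6 := hB.2.2.1
      have h7 := hB.2.2.2
      fin_cases i <;> first | exact absurd rfl hi | simp [*]
    obtain ⟨c, hc, hw3⟩ := mv_word hq hK (L := [3]) (by simp)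
    obtain ⟨d, hd, hw32⟩ := mv_word hq hK (L := [3, 2]) (by simp)
    obtain ⟨w34, w43, -, w08⟩ := word_val
    have w3i := (word_ok [3] (by simp)).2.2.2
    have w32i := (word_ok [3, 2] (by simp)).2.2.2
    let P4 : (F0 hq hK)ˣ → Fin 9 → K := fun u i => c i * P u (wordU [3] i)
    let P0 : (F0 hq hK)ˣ → Fin 9 → K := fun u i => d i * P u (wordU [3, 2] i)
    obtain ⟨-, -, -, -, ⟨-, -, e4, -, -, e8⟩, ⟨-, -, f4, -, -, f8⟩, -⟩ := mv_tab
    have hC2 : ∀ (p : (F0 hq hK)ˣ × K), UB.opL (pairL hq hK 37 p.2) (P4 p.1) 8 = 0 ∧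
        UB.opL (pairL hq hK 37 p.2) (P4 p.1) 4 = c 4 * P p.1 8 ∧
        UB.opL (pairL hq hK 37 p.2) (P4 p.1) 3 = p.2 * (c 4 * P p.1 8) := by
      intro p
      have k8 : P4 p.1 8 = 0 := by
        simp only [P4, w34, hP0 p.1 4 (by decide), mul_zero]
      have k3 : P4 p.1 3 = 0 := by
        simp only [P4, hP0 p.1 _ (fun e => (show (3 : Fin 9) ≠ 4 by decide) (w3i (e.trans w43.symm))), mul_zero]
      have k4 : P4 p.1 4 = c 4 * P p.1 8 := by simp only [P4, w43]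
      simp [pairL, Blk.opL, Blk.opR, p37, e3, f3, e4, f4, e8, f8, k8, k3, k4]
    have hC3 : ∀ u, P0 u 8 = 0 ∧ P0 u 4 = 0 ∧ P0 u 0 = d 0 * P u 8 := by
      intro u
      simp only [P0, w08]
      exact ⟨by rw [hP0 u _ (fun e => (show (8 : Fin 9) ≠ 0 by decide) (w32i (e.trans w08.symm))),
          mul_zero],
        by rw [hP0 u _ (fun e => (show (4 : Fin 9) ≠ 0 by decide) (w32i (e.trans w08.symm))),
          mul_zero], trivial⟩
    let T : ((F0 hq hK)ˣ × K × K) ⊕ (((F0 hq hK)ˣ × K) ⊕ (F0 hq hK)ˣ) → Fin 9 → K :=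
      Sum.elim (fun p => tB hq hK p.2.2 (tA hq hK p.2.1 (P p.1)))
        (Sum.elim (fun p => UB.opL (pairL hq hK 37 p.2) (P4 p.1)) P0)
    have hTi : Function.Injective T := by
      refine Function.Injective.sumElim (fun p p' e => ?_)
        (Function.Injective.sumElim (fun p p' e => ?_) (fun u u' e => ?_) fun p u e => ?_) ?_
      · obtain ⟨h1, h2, h3⟩ := tAB_inj hq hK (hP _) (hP _) e
        exact Prod.ext (hPi h1) (Prod.ext h2 h3)
      · obtain ⟨-, x4, x3⟩ := hC2 p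
        obtain ⟨-, y4, y3⟩ := hC2 p'
        rw [e, y4] at x4
        rw [e, y3, x4] at x3
        have hu8 : p.1 = p'.1 := Units.ext (Subtype.ext
          (mul_right_cancel₀ hB.2.1 (mul_left_cancel₀ (hc 4) x4).symm))
        exact Prod.ext hu8 (mul_right_cancel₀ (mul_ne_zero (hc 4) (hP p.1).2.1) x3).symm
      · have h := congrFun e 0
        rw [(hC3 u).2.2, (hC3 u').2.2] at h
        exact Units.ext (Subtype.ext (mul_right_cancel₀ hB.2.1 (mul_left_cancel₀ (hd 0) h)))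
      · have h := congrFun e 4
        rw [(hC2 p).2.1, (hC3 u).2.1] at h
        exact mul_ne_zero (hc 4) (hP p.1).2.1 h
      · intro p s e
        have h := congrFun e 8
        rw [(tAB_coord hq hK _ _ _).1] at h
        rcases s with p' | u
        · exact (hP p.1).2.1 (h.trans (hC2 p').1)
        · exact (hP p.1).2.1 (h.trans (hC3 u).1)
    have := card_le_wgt hq hK hψ T hTi (by
      rintro (p | p | u)
      · exact tAB_wgt hq hK (hP _).1 _ _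
      · exact (mv_pos hq hK (r := 37) (by simp) _).wgt (hw3.wgt (hP _).1)
      · exact hw32.wgt (hP _).1)
    simp only [Fintype.card_sum, Fintype.card_prod, hU, hK] at this
    exact (le_of_eq (by ring)).trans this

end CfsgLib.TwistedLie.E6.MinDeg65
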