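import Cfsg.Agent.E6MinDeg65.Levi
import Cfsg.Agent.E6MinDeg65.Arith
import Cfsg.Agent.TwistedLie.E6Facts
import Cfsg.Agent.S0135

/-!
The minimal degree of a non-trivial complex representation of `²E₆(q)`.
-/

set_option autoImplicit false

namespace CfsgLib.TwistedLie.E6.MinDeg65

open Cfsg.Lie CfsgLib.Chevalley CfsgLib.TwistedLie

variable {K : Type*} [Field K] [Fintype K] {q : ℕ} (hq : IsPrimePow q) (hK : Fintype.card K = q ^ 2)

local notation "G1" => chevE6.genSubgroup K (e6Words K q)

include hq hK in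
/-- A faithful representation below the bound is short by at most two. -/
theorem Small.lower {V : Type*} [AddCommGroup V] [Module ℂ V] [FiniteDimensional ℂ V]
    [Fintype (F0 hq hK)] {ρ : Representation ℂ ↥G1 V} (h : Small ρ) :
    minT q ≤ Module.finrank ℂ V + 2 := by
  classical
  have : Nontrivial (AddChar (F0 hq hK) ℂ) := Fintype.one_lt_card_iff_nontrivial.1
    (by rw [AddChar.card_eq, card_F0' hq hK]; exact hq.one_lt)
  obtain ⟨ψ, hψ⟩ := _root_.exists_ne (1 : AddChar (F0 hq hK) ℂ)
  have h1 := levi_bound hq hK h hψ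
  have h2 := finrank_CS hq hK h ψ hψ
  have h3 := h.finrank_eq (hq := hq) (hK := hK)
  have hq2 := hq.two_le
  have hq0 : 1 ≤ q := by omega
  zify [hq0] at h1 h3 ⊢
  rw [minT_cast hq2]
  linarith

include hq hK in
theorem min_degree {V : Type*} [AddCommGroup V] [Module ℂ V] [FiniteDimensional ℂ V]
    (ρ : Representation ℂ ↥G1 V) (hirr : ρ.IsIrreducible) (hk : 2 ≤ Module.finrank ℂ V) :
    minT q ≤ Module.finrank ℂ V := by
  classical
  by_contra hlt
  push Not at hlt
  have : IsSimpleGroup ↥G1 := (simpleGroup hq hK).1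
  have hfaith : ∀ g, ρ g = 1 → g = 1 := by
    intro g hg
    by_contra hne
    have hker : ρ.ker = ⊤ := (MonoidHom.normal_ker ρ).eq_bot_or_eq_top.resolve_left fun h => by
      have : g ∈ ρ.ker := hg
      rw [h] at this
      exact hne (Subgroup.mem_bot.1 this)
    have hall : ∀ h, ρ h = 1 := fun h => MonoidHom.mem_ker.1 (hker ▸ Subgroup.mem_top h)
    have : Nontrivial V := Module.nontrivial_of_finrank_pos (R := ℂ) (by omega)
    obtain ⟨v, hv⟩ := _root_.exists_ne (0 : V)
    let σ : Subrepresentation ρ := ⟨Submodule.span ℂ {v}, fun h w hw => by rw [hall h]; exact hw⟩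
    rcases hirr.eq_bot_or_eq_top σ with h | h
    · have h' := congrArg Subrepresentation.toSubmodule h
      exact hv (Submodule.span_singleton_eq_bot.1 h')
    · have h' : Submodule.span ℂ {v} = (⊤ : Submodule ℂ V) := congrArg Subrepresentation.toSubmodule h
      have h1 : Module.finrank ℂ (Submodule.span ℂ ({v} : Set V)) = 1 := finrank_span_singleton hv
      rw [h', finrank_top] at h1
      omega
  have := Fintype.ofFinite (F0 hq hK)
  have hlow := Small.lower hq hK (ρ := ρ) ⟨hfaith, hlt⟩
  have := hirr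
  have hdvd : Module.finrank ℂ V ∣ ordN q :=
    (Cfsg.Agent.S0135.result ρ).trans (Dvd.intro_left _ (card_group hq hK))
  obtain e | e : Module.finrank ℂ V = minT q - 1 ∨ Module.finrank ℂ V = minT q - 2 := by omega
  · exact no_dvd hq.two_le (Or.inl rfl) (e ▸ hdvd)
  · exact no_dvd hq.two_le (Or.inr rfl) (e ▸ hdvd)

end CfsgLib.TwistedLie.E6.MinDeg65
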