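import Cfsg.Agent.E6MinDeg65.Base

/-!
Dual actions of group elements on the coordinates of a block.
-/

set_option autoImplicit false

namespace CfsgLib.TwistedLie.E6.MinDeg65

open Cfsg.Lie CfsgLib.Chevalley CfsgLib.TwistedLie

local notation "S" => sysE6

variable {K : Type*} [Field K]

namespace Blk

variable {n : ℕ} (B : Blk n)

theorem dot_ext {A A' : Fin n → K} (h : ∀ x, dot A x = dot A' x) : A = A' :=
  funext fun i => by simpa [dot_single] using h (Pi.single i 1)

theorem dot_list_sum {ι : Type*} (A : Fin n → K) (l : List ι) (x : ι → Fin n → K) :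
    dot A (l.map x).sum = (l.map fun a => dot A (x a)).sum := by
  induction l with
  | nil => simp [dot]
  | cons a l ih => rw [List.map_cons, List.sum_cons, dot_add_right, ih, List.map_cons, List.sum_cons]

/-- The element normalises the highest root group and transforms the coordinates by the transpose
of `f`. -/
def Acts (g : GL chevE6.Idx K) (f : (Fin n → K) → Fin n → K) : Prop :=
  (∀ t, ∃ t', g * zE t * g⁻¹ = zE t') ∧
    ∀ x, ∃ y, B.Rel (g * B.E x * g⁻¹) y ∧ ∀ A, dot A y = dot (f A) x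

theorem acts_one : B.Acts (1 : GL chevE6.Idx K) id :=
  ⟨fun t => ⟨t, by rw [one_mul, inv_one, mul_one]⟩,
    fun x => ⟨x, by rw [one_mul, inv_one, mul_one]; exact B.rel_E x, fun _ => rfl⟩⟩

variable {B}

theorem Acts.rel {g : GL chevE6.Idx K} {f} (h : B.Acts g f) {k : GL chevE6.Idx K} {x : Fin n → K}
    (hk : B.Rel k x) : ∃ y, B.Rel (g * k * g⁻¹) y ∧ ∀ A, dot A y = dot (f A) x := by
  obtain ⟨w, rfl⟩ := hk
  obtain ⟨y, hy, hd⟩ := h.2 x
  obtain ⟨t', ht'⟩ := h.1 w
  refine ⟨y, ?_, hd⟩
  rw [show g * (B.E x * zE w) * g⁻¹ = g * B.E x * g⁻¹ * (g * zE w * g⁻¹) by group, ht',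
    ← add_zero y]
  exact Rel.mul B hy (B.rel_z t')

theorem Acts.mul {g g' : GL chevE6.Idx K} {f f'} (h : B.Acts g f) (h' : B.Acts g' f') :
    B.Acts (g * g') (f' ∘ f) := by
  refine ⟨fun t => ?_, fun x => ?_⟩
  · obtain ⟨t1, e1⟩ := h'.1 t
    obtain ⟨t2, e2⟩ := h.1 t1
    refine ⟨t2, ?_⟩
    rw [show g * g' * zE t * (g * g')⁻¹ = g * (g' * zE t * g'⁻¹) * g⁻¹ by group, e1, e2]
  · obtain ⟨y1, r1, d1⟩ := h'.2 x
    obtain ⟨y2, r2, d2⟩ := h.rel r1
    refine ⟨y2, ?_, fun A => by rw [d2, d1]; rfl⟩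
    rwa [show g * g' * B.E x * (g * g')⁻¹ = g * (g' * B.E x * g'⁻¹) * g⁻¹ by group]

theorem Acts.congr {g : GL chevE6.Idx K} {f f'} (h : B.Acts g f) (e : ∀ A, f A = f' A) :
    B.Acts g f' := by
  rwa [← funext e]

theorem Acts.unique {g : GL chevE6.Idx K} {f f'} (h : B.Acts g f) (h' : B.Acts g f') : f = f' := by
  funext A
  refine dot_ext fun x => ?_
  obtain ⟨y, r, d⟩ := h.2 x
  obtain ⟨y', r', d'⟩ := h'.2 x
  rw [← d, ← d', B.rel_unique r r']

theorem Acts.smul {g : GL chevE6.Idx K} {f} (h : B.Acts g f) (c : K) (A : Fin n → K) :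
    f (c • A) = c • f A := by
  refine dot_ext fun x => ?_
  obtain ⟨y, -, d⟩ := h.2 x
  rw [← d, dot_smul_left, dot_smul_left, d]

theorem Acts.add {g : GL chevE6.Idx K} {f} (h : B.Acts g f) (A A' : Fin n → K) :
    f (A + A') = f A + f A' := by
  refine dot_ext fun x => ?_
  obtain ⟨y, -, d⟩ := h.2 x
  rw [← d, dot_add_left, dot_add_left, d, d]

theorem Acts.zero {g : GL chevE6.Idx K} {f} (h : B.Acts g f) : f 0 = 0 := by
  have := h.smul 0 0
  rwa [zero_smul, zero_smul] at this

/-- An element that permutes the root groups of the block. -/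
theorem acts_mono {g : GL chevE6.Idx K} (hz : ∀ t, ∃ t', g * zE t * g⁻¹ = zE t') (p : Fin n → Fin n)
    (v : Fin n → K) (h : ∀ i t, g * B.xr i t * g⁻¹ = B.xr (p i) (v i * t)) :
    B.Acts g fun A i => v i * A (p i) := by
  refine ⟨hz, fun x => ⟨(B.ord.map fun i => Pi.single (p i) (v i * x i)).sum, ?_, fun A => ?_⟩⟩
  · have e : g * B.E x * g⁻¹ = (B.ord.map fun i => B.xr (p i) (v i * x i)).prod := by
      rw [← MulAut.conj_apply, E, EL, map_list_prod, List.map_map]
      refine congrArg List.prod (List.map_congr_left fun i _ => ?_)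
      exact h i (x i)
    rw [e]
    exact B.rel_list _ _ _ fun i _ => B.rel_xr _ _
  · rw [dot_list_sum, ((show B.ord.Perm (List.finRange n) from B.ord_perm).map _).sum_eq,
      ← Fin.sum_univ_def]
    refine Finset.sum_congr rfl fun i _ => ?_
    rw [dot_single]
    ring

variable (B)

/-- The position of a root. -/
def pos (w : ℕ) : Option (Fin n) := (List.finRange n).find? fun i => B.rt i == w

/-- The effect of a root group on a coordinate. -/
def stp (r : ℕ) (i : Fin n) : List (Fin n × ℤ) :=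
  match chevE6.commTerms r (B.rt i) with
  | [(w, C, _, _)] => ((B.pos w).map fun j => (j, C)).toList
  | _ => []

/-- A root whose root group normalises the block. -/
def OkOp (r : ℕ) : Prop :=
  r < 72 ∧ chevE6.commTerms r 71 = [] ∧ 71 ≠ r ∧ 71 ≠ chevE6.neg r ∧
    ∀ i, B.rt i ≠ r ∧ B.rt i ≠ chevE6.neg r ∧
      chevE6.commTerms r (B.rt i) = (B.stp r i).map fun e => (B.rt e.1, e.2, 1, 1)

instance (r : ℕ) : Decidable (B.OkOp r) := by unfold OkOp; infer_instance

/-- The dual action of a root element. -/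
def opR (r : ℕ) (a : K) (A : Fin n → K) : Fin n → K :=
  fun i => A i + ((B.stp r i).map fun e => (e.2 : K) * a * A e.1).sum

/-- The dual action of a product of root elements. -/
def opL : List (ℕ × K) → (Fin n → K) → Fin n → K
  | [] => id
  | (r, a) :: l => fun A => opL l (B.opR r a A)

theorem stp_length (r : ℕ) (i : Fin n) : (B.stp r i).length ≤ 1 := by
  unfold stp
  split
  · rcases B.pos _ with _ | _ <;> simp
  · simp

theorem acts_root {r : ℕ} (h : B.OkOp r) (a : K) : B.Acts (Sys.xG S K r a) (B.opR r a) := by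
  obtain ⟨hr, h71, hne, hne', hi⟩ := h
  refine ⟨fun t => ⟨t, conj_none hr (by decide) hne hne' h71 a t⟩, fun x => ?_⟩
  refine ⟨(B.ord.map fun i => Pi.single i (x i) +
    ((B.stp r i).map fun e => Pi.single e.1 ((e.2 : K) * a * x i)).sum).sum, ?_, fun A => ?_⟩
  · have e : Sys.xG S K r a * B.E x * (Sys.xG S K r a)⁻¹ = (B.ord.map fun i =>
        B.xr i (x i) * ((B.stp r i).map fun e => B.xr e.1 ((e.2 : K) * a * x i)).prod).prod := by
      rw [← MulAut.conj_apply, E, EL, map_list_prod, List.map_map]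
      refine congrArg List.prod (List.map_congr_left fun i _ => ?_)
      show Sys.xG S K r a * B.xr i (x i) * (Sys.xG S K r a)⁻¹ = _
      obtain ⟨h1, h2, h3⟩ := hi i
      have hl := B.stp_length r i
      rcases hst : B.stp r i with _ | ⟨⟨j, C⟩, _ | ⟨b, l⟩⟩
      · rw [hst] at h3
        rw [List.map_nil, List.prod_nil, mul_one]
        exact conj_none hr (B.rt_lt i) h1 h2 h3 a (x i)
      · rw [hst] at h3
        rw [List.map_cons, List.map_nil, List.prod_singleton]
        exact conj_term hr (B.rt_lt i) h1 h2 h3 a (x i)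
      · rw [hst] at hl
        simp at hl
    rw [e]
    refine B.rel_list _ _ _ fun i _ => Rel.mul B (B.rel_xr _ _) ?_
    exact B.rel_list _ _ _ fun e _ => B.rel_xr _ _
  · rw [dot_list_sum, ((show B.ord.Perm (List.finRange n) from B.ord_perm).map _).sum_eq,
      ← Fin.sum_univ_def]
    refine Finset.sum_congr rfl fun i _ => ?_
    rw [dot_add_right, dot_single, dot_list_sum, opR, add_mul]
    congr 1
    induction B.stp r i with
    | nil => simp
    | cons e l ih =>
      rw [List.map_cons, List.sum_cons, ih, List.map_cons, List.sum_cons, add_mul, dot_single]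
      ring

theorem acts_list (l : List (ℕ × K)) (h : ∀ e ∈ l, B.OkOp e.1) :
    B.Acts (l.map fun e => Sys.xG S K e.1 e.2).prod (B.opL l) := by
  induction l with
  | nil => exact B.acts_one
  | cons e l ih =>
    rw [List.map_cons, List.prod_cons]
    exact (B.acts_root (h e (List.mem_cons_self ..)) e.2).mul
      (ih fun a ha => h a (List.mem_cons_of_mem _ ha))

theorem opR_zero (r : ℕ) (A : Fin n → K) : B.opR r 0 A = A := by
  funext i
  rw [opR, List.sum_eq_zero, add_zero]
  intro c hc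
  obtain ⟨e, -, rfl⟩ := List.mem_map.1 hc
  simp

theorem opR_of_nil {r : ℕ} {i : Fin n} (h : B.stp r i = []) (a : K) (A : Fin n → K) :
    B.opR r a A i = A i := by simp [opR, h]

theorem opR_of_one {r : ℕ} {i j : Fin n} {C : ℤ} (h : B.stp r i = [(j, C)]) (a : K)
    (A : Fin n → K) : B.opR r a A i = A i + (C : K) * a * A j := by simp [opR, h]

/-- Coordinates with no sources above a height are kept. -/
theorem opR_low (ht : Fin n → ℕ) {r : ℕ} (hlow : ∀ i, ∀ e ∈ B.stp r i, ht i < ht e.1) (a : K)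
    {A : Fin n → K} {k : ℕ} (hA : ∀ j, k < ht j → A j = 0) {i : Fin n} (hi : k ≤ ht i) :
    B.opR r a A i = A i := by
  rw [opR, List.sum_eq_zero, add_zero]
  intro c hc
  obtain ⟨e, he, rfl⟩ := List.mem_map.1 hc
  rw [hA e.1 (lt_of_le_of_lt hi (hlow i e he)), mul_zero]

theorem opL_low (ht : Fin n → ℕ) (l : List (ℕ × K))
    (hlow : ∀ e ∈ l, ∀ i, ∀ e' ∈ B.stp e.1 i, ht i < ht e'.1)
    {A : Fin n → K} {k : ℕ} (hA : ∀ j, k < ht j → A j = 0) :
    ∀ i, k ≤ ht i → B.opL l A i = A i := by
  induction l generalizing A with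
  | nil => intro i _; rfl
  | cons e l ih =>
    intro i hi
    have hl := hlow e (List.mem_cons_self ..)
    have h1 : ∀ j, k ≤ ht j → B.opR e.1 e.2 A j = A j := fun j hj => B.opR_low ht hl e.2 hA hj
    show B.opL l (B.opR e.1 e.2 A) i = A i
    rw [ih (fun a ha => hlow a (List.mem_cons_of_mem _ ha))
      (fun j hj => by rw [h1 j hj.le, hA j hj]) i hi, h1 i hi]

end Blk

/-- Conjugation by a product of fundamental reflections, with the sign. -/
theorem nL_conj_const {L : List ℕ} (hL : ∀ i ∈ L, i < chevE6.rank) {r : ℕ} (hr : r < chevE6.nroots) :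
    ∃ c : K, c ≠ 0 ∧ ∀ t : K, nL S K L * Sys.xG S K r t * (nL S K L)⁻¹ =
      Sys.xG S K (wL chevE6 L r) (c * t) := by
  induction L with
  | nil => exact ⟨1, one_ne_zero, fun t => by simp [nL, wL]⟩
  | cons i L ih =>
    have hi := hL i (List.mem_cons_self ..)
    have hL' : ∀ j ∈ L, j < chevE6.rank := fun j hj => hL j (List.mem_cons_of_mem _ hj)
    obtain ⟨c, hc, h⟩ := ih hL'
    have hw := wL_lt sysE6 hL' hr
    refine ⟨(sysE6.eta i (wL chevE6 L r) : K) * c, mul_ne_zero ?_ hc, fun t => ?_⟩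
    · rcases sysE6.eta_sign i hi _ hw with e | e <;> simp [e]
    · rw [nL_cons, show Sys.nG S K (chevE6.simple i) 1 * nL S K L * Sys.xG S K r t *
          (Sys.nG S K (chevE6.simple i) 1 * nL S K L)⁻¹ = Sys.nG S K (chevE6.simple i) 1 *
            (nL S K L * Sys.xG S K r t * (nL S K L)⁻¹) * (Sys.nG S K (chevE6.simple i) 1)⁻¹ by group,
        h, Sys.nG_conj_xG S K hi hw, mul_inv_cancel_right]
      show Sys.xG S K (chevE6.reflectRoot i (wL chevE6 L r)) _ = _
      rw [← mul_assoc]
      rfl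

end CfsgLib.TwistedLie.E6.MinDeg65
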