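import Cfsg.Agent.E6MinDeg65.Cells

/-!
The count of the weights and the action of the highest root of the Levi complement.
-/

set_option autoImplicit false

namespace CfsgLib.TwistedLie.E6.MinDeg65

open Cfsg.Lie CfsgLib.Chevalley CfsgLib.TwistedLie CfsgLib.WeightProj65

local notation "S" => sysE6

theorem cells_inj : ∀ i j : Fin cells.length, (cells.get i).s = (cells.get j).s → i = j := by
  decide +kernel

theorem ok_stab_fix : ∀ r ∈ ([56, 36, 45, 59] : List ℕ), QB.OkOp r ∧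
    ∀ i, ∀ e ∈ QB.stp r i, e.1 ∉ ([0, 1, 5, 7] : List (Fin 20)) := by decide +kernel

theorem pE_stab : pE 56 = 36 ∧ pE 45 = 59 := by decide +kernel

theorem sixty_high : ∀ s : Fin 20, QB.pr s = s → s ∉ ([0, 1, 5, 7] : List (Fin 20)) →
    ∃ i, ∃ C ∈ ([1, -1] : List ℤ), QB.stp 60 i = [(s, C)] := by decide +kernel

variable {K : Type*} [Field K] [Fintype K] {q : ℕ} (hq : IsPrimePow q) (hK : Fintype.card K = q ^ 2)
  {V : Type*} [AddCommGroup V] [Module ℂ V] [FiniteDimensional ℂ V] [Fintype (F0 hq hK)]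
  {ρ : Representation ℂ ↥(chevE6.genSubgroup K (e6Words K q)) V} (h : Small ρ)
  (ψ : AddChar (F0 hq hK) ℂ) (hψ : ψ ≠ 1)

local notation "G1" => chevE6.genSubgroup K (e6Words K q)
local notation "CR" => CRep hq hK ρ

theorem g60_acts : QB.Acts ((g60 hq hK (1 : F0 hq hK) : ↥G1) : GL chevE6.Idx K) (QB.opR 60 (1 : K)) :=
  QB.acts_root ok60 1

/-- The root element of the highest Levi root in the normaliser. -/
noncomputable def h60 : ↥(HZ hq hK) := inH hq hK (g60_acts hq hK)

open scoped Classical in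
/-- The weights of a cell, as a set. -/
noncomputable def cellSet [Fintype (QB.M hq hK)] (c : Cell) : Finset (QB.M hq hK) :=
  Finset.univ.filter fun A => 0 < (CR).dim ψ A ∧ InCell hq hK c A

include h hψ in
theorem cellSet_spec [Fintype (QB.M hq hK)] {c : Cell} (hc : c ∈ cells) :
    (cellSet (ρ := ρ) hq hK ψ c).card = (q - 1) * q ^ c.dn ∧
      ∀ A ∈ cellSet (ρ := ρ) hq hK ψ c, (CR).dim ψ A = 1 := by
  classical
  obtain ⟨f, hf, hP, hS, -⟩ := cell_param hq hK h ψ hψ hc
  let D := {x : Fin 9 → K // x ∈ UB.M hq hK ∧ ∀ k, k ∉ c.down → x k = 0}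
  have := Fintype.ofFinite D
  have hD : Fintype.card D = q ^ c.dn := by
    rw [← Nat.card_eq_fintype_card]
    exact UB.card_supp hq hK (fun k => k ∈ c.down) (cell_down c hc) (cell_count c hc)
  let P : (F0 hq hK)ˣ × D → QB.M hq hK := fun p =>
    Rep.fM hf (trans hq hK ⟨p.2.1, p.2.2.1⟩ (pureTop hq hK (p.1 : F0 hq hK)))
  have hmem : ∀ p, P p ∈ cellSet (ρ := ρ) hq hK ψ c := fun p => by
    obtain ⟨h1, h2, -⟩ := hP (p.1 : F0 hq hK) ⟨p.2.1, p.2.2.1⟩ p.1.ne_zero p.2.2.2
    exact Finset.mem_filter.2 ⟨Finset.mem_univ _, by rw [show (CR).dim ψ (P p) = 1 from h2]; omega, h1⟩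
  have hinj : Function.Injective P := by
    intro p p' e
    have e1 := congrArg Subtype.val ((CR).fM_injective (h := inH hq hK (g := nCell hq hK c) hf) hf e)
    simp only [trans_val, pureTop_val] at e1
    have e19 := congrFun e1 19
    rw [(fU_coord _ _).1, (fU_coord _ _).1, Pi.single_eq_same, Pi.single_eq_same] at e19
    refine Prod.ext (Units.ext (Subtype.ext e19)) (Subtype.ext (funext fun k => ?_))
    have e2 := congrFun e1 (lev1 k)
    have hne : lev1 k ≠ 19 := fun e => by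
      have := lev1_mem k; rw [e] at this; exact absurd this (by decide)
    rw [(fU_coord _ _).2, (fU_coord _ _).2, Pi.single_eq_of_ne hne, Pi.single_eq_of_ne hne,
      Pi.single_eq_same, Pi.single_eq_same, zero_add, zero_add, e19] at e2
    refine mul_left_cancel₀ ?_ (mul_right_cancel₀ (fun e => p'.1.ne_zero (Subtype.ext e)) e2)
    rcases (by decide +kernel : ∀ k, lev1C k = 1 ∨ lev1C k = -1) k with e | e <;> simp [e]
  have himg : cellSet (ρ := ρ) hq hK ψ c = Finset.univ.image P := by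
    refine Finset.ext fun A => ⟨fun hA => ?_, fun hA => ?_⟩
    · obtain ⟨-, hd, hin⟩ := Finset.mem_filter.1 hA
      obtain ⟨u, a, hu, ha, rfl⟩ := hS A hd hin
      exact Finset.mem_image.2 ⟨(Units.mk0 u hu, ⟨a.1, a.2, ha⟩), Finset.mem_univ _, rfl⟩
    · obtain ⟨p, -, rfl⟩ := Finset.mem_image.1 hA
      exact hmem p
  refine ⟨?_, fun A hA => ?_⟩
  · rw [himg, Finset.card_image_of_injective _ hinj, Finset.card_univ, Fintype.card_prod,
      Fintype.card_units, card_F0' hq hK, hD]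
  · obtain ⟨-, hd, hin⟩ := Finset.mem_filter.1 hA
    obtain ⟨u, a, hu, ha, rfl⟩ := hS A hd hin
    exact (hP u a hu ha).2.1

include h hψ in
theorem sum_cells {M : Type*} [AddCommMonoid M] [Fintype (QB.M hq hK)] (T : QB.M hq hK → M)
    (hT : ∀ A, (CR).dim ψ A = 0 → T A = 0) :
    ∑ A, T A = T 0 +
      ∑ i : Fin cells.length, ∑ A ∈ cellSet (ρ := ρ) hq hK ψ (cells.get i), T A := by
  classical
  rw [← Finset.add_sum_erase _ _ (Finset.mem_univ (0 : QB.M hq hK))]
  congr 1
  have hdis : ((Finset.univ : Finset (Fin cells.length)) : Set (Fin cells.length)).PairwiseDisjoint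
      fun i => cellSet (ρ := ρ) hq hK ψ (cells.get i) := by
    intro i _ j _ hij
    refine Finset.disjoint_left.2 fun A hA hA' => hij (cells_inj i j ?_)
    exact cell_unique hq hK (List.get_mem _ _) (List.get_mem _ _) (Finset.mem_filter.1 hA).2.2
      (Finset.mem_filter.1 hA').2.2
  rw [← Finset.sum_biUnion hdis]
  refine (Finset.sum_subset (fun A hA => ?_) fun A hA hA' => ?_).symm
  · obtain ⟨i, -, hA⟩ := Finset.mem_biUnion.1 hA
    refine Finset.mem_erase.2 ⟨fun e => ?_, Finset.mem_univ _⟩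
    subst e
    exact (Finset.mem_filter.1 hA).2.2.1 rfl
  · refine hT A (by_contra fun hd => hA' ?_)
    obtain ⟨c, hc, hin⟩ := exists_cell hq hK
      (exists_long hq hK h ψ hψ (Nat.pos_of_ne_zero hd) (Finset.ne_of_mem_erase hA))
    obtain ⟨i, rfl⟩ := List.get_of_mem hc
    exact Finset.mem_biUnion.2 ⟨i, Finset.mem_univ _,
      Finset.mem_filter.2 ⟨Finset.mem_univ _, Nat.pos_of_ne_zero hd, hin⟩⟩

include h hψ in
/-- The dimension of the fixed space. -/
theorem finrank_CS :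
    (Module.finrank ℂ (CS hq hK ρ) : ℤ) = ((CR).dim ψ 0 : ℤ) +
      ((q : ℤ) - 1) * ((q : ℤ) ^ 9 + q ^ 8 + q ^ 6 + q ^ 5 + q ^ 4 + q ^ 3 + q + 1) := by
  classical
  have := Fintype.ofFinite (QB.M hq hK)
  rw [← (CR).sum_dim ψ hψ, sum_cells hq hK h ψ hψ (fun A => (CR).dim ψ A) fun A hA => hA]
  push_cast
  congr 1
  have hi : ∀ i : Fin cells.length,
      ∑ A ∈ cellSet (ρ := ρ) hq hK ψ (cells.get i), ((CR).dim ψ A : ℤ) =
        ((q : ℤ) - 1) * (q : ℤ) ^ (cells.get i).dn := by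
    intro i
    obtain ⟨h1, h2⟩ := cellSet_spec hq hK h ψ hψ (List.get_mem cells i)
    rw [Finset.sum_congr rfl fun A hA => by rw [h2 A hA], Finset.sum_const, h1, nsmul_eq_mul]
    push_cast [Nat.cast_sub hq.one_lt.le]
    ring
  rw [Finset.sum_congr rfl fun i _ => hi i, ← Finset.mul_sum]
  congr 1
  show ∑ i : Fin 8, (q : ℤ) ^ (cells.get i).dn = _
  rw [Fin.sum_univ_eight]
  simp [cells]

include h hψ in
/-- The root element moves the weights of the high cells. -/
theorem moved_high [Fintype (QB.M hq hK)] {c : Cell} (hc : c ∈ cells)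
    (hs : c.s ∉ ([0, 1, 5, 7] : List (Fin 20))) {A : QB.M hq hK}
    (hA : A ∈ cellSet (ρ := ρ) hq hK ψ c) :
    LinearMap.trace ℂ (CS hq hK ρ) ((CR).π (h60 hq hK) * (CR).pr ψ A) = 0 := by
  refine (CR).trace_moved ψ hψ (h := h60 hq hK) (g60_acts hq hK) fun e => ?_
  classical
  obtain ⟨i, C, hC, hst⟩ := sixty_high c.s (cell_perm c hc).2.2.2.2 hs
  have e1 := congrFun e i
  rw [QB.opR_of_one hst, mul_one, add_eq_left] at e1
  refine (Finset.mem_filter.1 hA).2.2.1 ((mul_eq_zero.1 e1).resolve_left ?_)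
  simp only [List.mem_cons, List.not_mem_nil, or_false] at hC
  rcases hC with e | e <;> simp [e]

include h hψ in
/-- The root element fixes the lines of the low cells. -/
theorem fixed_low [Fintype (QB.M hq hK)] {c : Cell} (hc : c ∈ cells)
    (hs : c.s ∈ ([0, 1, 5, 7] : List (Fin 20))) {A : QB.M hq hK}
    (hA : A ∈ cellSet (ρ := ρ) hq hK ψ c) :
    LinearMap.trace ℂ (CS hq hK ρ) ((CR).π (h60 hq hK) * (CR).pr ψ A) = 1 := by
  classical
  have hd := (cellSet_spec hq hK h ψ hψ hc).2 A hA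
  rw [(CR).trace_scalar ψ (c := 1) (fun v hv => ?_), hd, Nat.cast_one, mul_one]
  obtain ⟨f, hf, -, hS, hpure⟩ := cell_param hq hK h ψ hψ hc
  obtain ⟨-, hd0, hin⟩ := Finset.mem_filter.1 hA
  obtain ⟨u, a, hu, ha, rfl⟩ := hS A hd0 hin
  set P := pureTop hq hK u
  set H := h60 hq hK
  let n : ↥(HZ hq hK) := inH hq hK hf
  let U : ↥(HZ hq hK) := inH hq hK (g := gU hq hK a) (acts_U a.1)
  have hPd : (CR).dim ψ P = 1 := dim_pure hq hK h ψ hψ hu
  -- on the pure line of the cell the element is a commutator of stabilisers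
  have hS0 : ∀ w ∈ (CR).Wt ψ (Rep.fM hf P), (CR).π H w = w := by
    intro w hw
    obtain ⟨w0, hw0⟩ := hpure u
    have hfix : ∀ r, r = 56 ∨ r = 45 → ∀ x : K, QB.opL (pairL hq hK r x) (Rep.fM hf P).1 =
        (Rep.fM hf P).1 := by
      intro r hr x
      rw [hw0]
      funext i
      refine opL_keep QB (fun j => j ≠ c.s) _ (fun j hj => Pi.single_eq_of_ne hj _) ?_ i ?_
      all_goals
        intro p hp
        have hp' : p.1 ∈ ([56, 36, 45, 59] : List ℕ) := by
          simp only [pairL, List.mem_cons, List.not_mem_nil, or_false] at hp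
          rcases hr with rfl | rfl <;> rcases hp with rfl | rfl <;> simp [pE_stab]
      · exact fun j _ e he => fun e0 => (ok_stab_fix p.1 hp').2 j e he (e0 ▸ hs)
      · exact fun e he => fun e0 => (ok_stab_fix p.1 hp').2 i e he (e0 ▸ hs)
    obtain ⟨x, y, e⟩ := g60_comm hq hK (1 : F0 hq hK)
    have hx : QB.Acts ((gP1 hq hK x : ↥G1) : GL chevE6.Idx K) (QB.opL (pairL hq hK 56 x)) :=
      QB.acts_list _ fun p hp => by
        simp only [pairL, List.mem_cons, List.not_mem_nil, or_false] at hp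
        rcases hp with rfl | rfl <;> exact (ok_stab_fix _ (by simp [pE_stab])).1
    have hy : QB.Acts ((gP2 hq hK y : ↥G1) : GL chevE6.Idx K) (QB.opL (pairL hq hK 45 y)) :=
      QB.acts_list _ fun p hp => by
        simp only [pairL, List.mem_cons, List.not_mem_nil, or_false] at hp
        rcases hp with rfl | rfl <;> exact (ok_stab_fix _ (by simp [pE_stab])).1
    have eH : H = inH hq hK hx * inH hq hK hy * (inH hq hK hx)⁻¹ * (inH hq hK hy)⁻¹ := Subtype.ext e
    have hd1 : (CR).dim ψ (Rep.fM hf P) ≤ 1 := by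
      rw [show (CR).dim ψ (Rep.fM hf P) = 1 from ((CR).dim_eq ψ (h := n) hf P).trans hPd]
    rw [eH]
    exact (CR).commutator_one ψ (h := inH hq hK hx) (k := inH hq hK hy) hx hy
      (hfix 56 (Or.inl rfl) x) (hfix 45 (Or.inr rfl) y) hd1 hw
  -- transport
  have hL : ∀ i ∈ wdN c.L, i < chevE6.rank := by
    intro i hi
    obtain ⟨b, -, hb⟩ := List.mem_flatMap.1 hi
    exact blkN_lt b i hb
  have hcomm : Commute (U : ↥(HZ hq hK)) (n * H * n⁻¹) := by
    refine Subtype.ext (Subtype.ext ?_)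
    show UB.E a.1 * (nL S K (wdN c.L) * Sys.xG S K 60 (1 : K) * (nL S K (wdN c.L))⁻¹) =
      nL S K (wdN c.L) * Sys.xG S K 60 (1 : K) * (nL S K (wdN c.L))⁻¹ * UB.E a.1
    obtain ⟨κ, -, e⟩ := nL_conj_const (K := K) hL (show 60 < chevE6.nroots by decide)
    rw [e]
    refine (UB.commute_E fun k => ?_).eq.symm
    by_cases hk : k ∈ c.down
    · obtain ⟨h1, h2, h3⟩ := cell_sixty c hc hs k hk
      exact Or.inr (xG_commute S K (wL_lt sysE6 hL (by decide)) (UB.rt_lt k) h1 h2 h3 _ _)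
    · exact Or.inl (ha k hk)
  have h1 : (CR).π n v ∈ (CR).Wt ψ (trans hq hK a P) :=
    (CR).maps_to ψ (h := n) hf (trans hq hK a P) hv
  have h2 : (CR).π U ((CR).π n v) ∈ (CR).Wt ψ P := (CR).maps_to ψ (h := U) (acts_U a.1) P h1
  obtain ⟨w', hw', ew'⟩ : ∃ w' ∈ (CR).Wt ψ (Rep.fM hf P), (CR).π n w' = (CR).π U ((CR).π n v) := by
    have hfin : Module.finrank ℂ ((CR).Wt ψ (Rep.fM hf P)) = Module.finrank ℂ ((CR).Wt ψ P) :=
      (CR).dim_eq ψ (h := n) hf P
    have hsur := (LinearMap.injective_iff_surjective_of_finrank_eq_finrank hfin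
      (f := ((CR).π n).restrict fun w hw => (CR).maps_to ψ (h := n) hf P hw)).1
      fun w w' e => Subtype.ext ((CR).π_inj n (congrArg Subtype.val e))
    obtain ⟨w', hw'⟩ := hsur ⟨_, h2⟩
    exact ⟨w'.1, w'.2, congrArg Subtype.val hw'⟩
  rw [one_smul]
  apply (CR).π_inj (U * n)
  have eUn : U * n * H = n * H * n⁻¹ * (U * n) := by
    rw [← mul_assoc (n * H * n⁻¹) U, ← hcomm.eq]
    simp only [mul_assoc, inv_mul_cancel, mul_one]
  have hm : ∀ (a b : ↥(HZ hq hK)) (w : ↥(CS hq hK ρ)),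
      (CR).π (a * b) w = (CR).π a ((CR).π b w) := fun a b w =>
    LinearMap.congr_fun ((CR).π.map_mul a b) w
  have eUv : (CR).π (U * n) v = (CR).π n w' := (hm U n v).trans ew'.symm
  rw [← hm, eUn, hm, eUv, ← hm, show n * H * n⁻¹ * n = n * H by group, hm, hS0 w' hw']

include h hψ in
/-- The root element of the highest Levi root does not centralise the radical-fixed space. -/
theorem exists_moved : ∃ v ∈ (CR).Wt ψ 0, (CR).π (h60 hq hK) v ≠ v := by
  classical
  by_contra hcon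
  push Not at hcon
  have := Fintype.ofFinite (QB.M hq hK)
  set T := fun A : QB.M hq hK => LinearMap.trace ℂ (CS hq hK ρ) ((CR).π (h60 hq hK) * (CR).pr ψ A)
    with hT
  have h0 : ∀ A, (CR).dim ψ A = 0 → T A = 0 := by
    intro A hA
    show LinearMap.trace ℂ (CS hq hK ρ) _ = 0
    have hb : (CR).Wt ψ A = ⊥ := Submodule.finrank_eq_zero.1 hA
    rw [(CR).trace_scalar ψ (c := 0) fun v hv => ?_, zero_mul]
    rw [hb, Submodule.mem_bot] at hv
    rw [hv, map_zero, smul_zero]
  have hsum := sum_cells hq hK h ψ hψ T h0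
  have hT0 : T 0 = ((CR).dim ψ 0 : ℂ) := by
    show LinearMap.trace ℂ (CS hq hK ρ) _ = _
    rw [(CR).trace_scalar ψ (c := 1) fun v hv => by rw [hcon v hv, one_smul], one_mul]
  have hcell : ∀ i : Fin cells.length, ∑ A ∈ cellSet (ρ := ρ) hq hK ψ (cells.get i), T A =
      if (cells.get i).s ∈ ([0, 1, 5, 7] : List (Fin 20)) then
        ((q : ℂ) - 1) * (q : ℂ) ^ (cells.get i).dn else 0 := by
    intro i
    have hc := List.get_mem cells i
    split_ifs with hs
    · rw [Finset.sum_congr rfl fun A hA => fixed_low hq hK h ψ hψ hc hs hA, Finset.sum_const,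
        (cellSet_spec hq hK h ψ hψ hc).1, nsmul_eq_mul, mul_one]
      push_cast [Nat.cast_sub hq.one_lt.le]
      ring
    · exact Finset.sum_eq_zero fun A hA => moved_high hq hK h ψ hψ hc hs hA
  have htr : LinearMap.trace ℂ (CS hq hK ρ) ((CR).π (h60 hq hK)) =
      (Module.finrank ℂ (CS hq hK ρ) : ℂ) - (q : ℂ) ^ 10 + ((q : ℂ) - 1) * (q : ℂ) ^ 7 :=
    h.trace_sixty (h60 hq hK).2
  rw [← (CR).trace_split ψ hψ, hT0, Finset.sum_congr rfl fun i _ => hcell i, htr] at hsum
  have hC : (Module.finrank ℂ (CS hq hK ρ) : ℂ) = ((CR).dim ψ 0 : ℂ) +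
      ((q : ℂ) - 1) * ((q : ℂ) ^ 9 + q ^ 8 + q ^ 6 + q ^ 5 + q ^ 4 + q ^ 3 + q + 1) := by
    have := congrArg (fun z : ℤ => (z : ℂ)) (finrank_CS hq hK h ψ hψ)
    push_cast at this
    exact this
  have hlow : (∑ i : Fin cells.length, if (cells.get i).s ∈ ([0, 1, 5, 7] : List (Fin 20)) then
      ((q : ℂ) - 1) * (q : ℂ) ^ (cells.get i).dn else 0) =
        ((q : ℂ) - 1) * ((q : ℂ) ^ 4 + q ^ 3 + q + 1) := by
    show (∑ i : Fin 8, if (cells.get i).s ∈ ([0, 1, 5, 7] : List (Fin 20)) then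
      ((q : ℂ) - 1) * (q : ℂ) ^ (cells.get i).dn else 0) = _
    rw [Fin.sum_univ_eight]
    simp [cells]
    ring
  rw [hlow, hC] at hsum
  have : (q : ℂ) ^ 5 = 0 := by linear_combination -hsum
  exact pow_ne_zero 5 (Nat.cast_ne_zero.2 (by have := hq.two_le; omega)) this

end CfsgLib.TwistedLie.E6.MinDeg65
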