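import Cfsg.Agent.E6MinDeg65.Elems

/-!
Tables for the translations by the radical of the Levi complement.
-/

set_option autoImplicit false

namespace CfsgLib.TwistedLie.E6.MinDeg65

open Cfsg.Lie CfsgLib.Chevalley CfsgLib.TwistedLie

/-- The effect of the translations on the coordinates of the radical. -/
def uTab : Fin 9 → Fin 20 → List (Fin 20 × ℤ) :=
  ![
    ![[(1, 1)], [], [], [], [], [(7, 1)], [(8, 1)], [], [], [], [], [(13, 1)], [(14, 1)], [], [], [], [], [], [(19, 1)], []],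
    ![[(2, 1)], [], [], [], [(7, -1)], [], [(9, 1)], [], [], [], [(13, -1)], [], [(15, 1)], [], [], [], [], [(19, -1)], [], []],
    ![[(3, 1)], [], [], [], [(8, -1)], [(9, -1)], [], [], [], [], [(14, -1)], [(15, -1)], [], [], [], [], [(19, 1)], [], [], []],
    ![[(4, -1)], [], [(7, 1)], [(8, 1)], [], [], [], [], [], [], [], [(16, -1)], [(17, -1)], [], [], [(19, 1)], [], [], [], []],
    ![[(5, -1)], [(7, -1)], [], [(9, 1)], [], [], [], [], [], [], [(16, 1)], [], [(18, -1)], [], [(19, -1)], [], [], [], [], []],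
    ![[(6, -1)], [(8, -1)], [(9, -1)], [], [], [], [], [], [], [], [(17, 1)], [(18, 1)], [], [(19, 1)], [], [], [], [], [], []],
    ![[(10, -1)], [], [(13, 1)], [(14, 1)], [], [(16, 1)], [(17, 1)], [], [], [(19, -1)], [], [], [], [], [], [], [], [], [], []],
    ![[(11, -1)], [(13, -1)], [], [(15, 1)], [(16, -1)], [], [(18, 1)], [], [(19, 1)], [], [], [], [], [], [], [], [], [], [], []],
    ![[(12, -1)], [(14, -1)], [(15, -1)], [], [(17, -1)], [(18, -1)], [], [(19, -1)], [], [], [], [], [], [], [], [], [], [], [], []]]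

theorem uTab_eq : ∀ k i, QB.stp (UB.rt k) i = uTab k i := by decide +kernel

theorem uTab_ok : ∀ k, QB.OkOp (UB.rt k) := by decide +kernel

/-- The coordinate reached from the top by a translation. -/
def lev1 : Fin 9 → Fin 20 := ![18, 17, 16, 15, 14, 13, 9, 8, 7]

/-- The sign of that step. -/
def lev1C : Fin 9 → ℤ := ![1, -1, 1, 1, -1, 1, -1, 1, -1]

theorem uTab_top : ∀ k, uTab k 19 = [] := by decide +kernel

theorem uTab_lev1 : ∀ j k, uTab j (lev1 k) = if j = k then [(19, lev1C k)] else [] := by decide +kernel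

theorem lev1_inj : Function.Injective lev1 := by decide +kernel

theorem lev1_pr : ∀ k, lev1 (UB.pr k) = QB.pr (lev1 k) ∧
    lev1C (UB.pr k) * UB.sg k = QB.sg (lev1 k) * lev1C k := by decide +kernel

/-- The height of a coordinate. -/
def htQ : Fin 20 → ℕ := ![1, 2, 3, 4, 3, 4, 5, 5, 6, 7, 4, 5, 6, 6, 7, 8, 7, 8, 9, 10]

/-- The cells: position, word, permutation, and the translations that lower it. -/
structure Cell where
  /-- the long position -/
  s : Fin 20
  /-- the word -/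
  L : List (Fin 4)
  /-- the translations -/
  down : List (Fin 9)
  /-- their number of parameters -/
  dn : ℕ

/-- The eight cells. -/
def cells : List Cell :=
  [⟨19, [], [0, 1, 2, 3, 4, 5, 6, 7, 8], 9⟩, ⟨18, [1], [1, 2, 3, 4, 5, 6, 7, 8], 8⟩,
   ⟨14, [1, 2], [2, 4, 5, 6, 7, 8], 6⟩, ⟨12, [1, 2, 1], [2, 5, 6, 7, 8], 5⟩,
   ⟨7, [1, 2, 3], [4, 5, 7, 8], 4⟩, ⟨5, [1, 2, 1, 3], [5, 7, 8], 3⟩,
   ⟨1, [1, 2, 1, 3, 2], [8], 1⟩, ⟨0, [1, 2, 1, 3, 2, 1], [], 0⟩]

/-- The permutation of the coordinates of a cell. -/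
def Cell.perm (c : Cell) (i : Fin 20) : Fin 20 :=
  (QB.pos (wL chevE6 (wdN c.L) (QB.rt i))).getD 0

theorem cell_perm : ∀ c ∈ cells, wL chevE6 (wdN c.L) 71 = 71 ∧
    (∀ i, wL chevE6 (wdN c.L) (QB.rt i) = QB.rt (c.perm i)) ∧ c.perm c.s = 19 ∧
    Function.Injective c.perm ∧ QB.pr c.s = c.s := by decide +kernel

theorem cell_down : ∀ c ∈ cells, (∀ k ∈ c.down, UB.pr k ∈ c.down) := by decide +kernel

theorem cell_low : ∀ c ∈ cells, ∀ k ∈ c.down, ∀ i, ∀ e ∈ uTab k (c.perm i), ∀ j, c.perm j = e.1 →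
    htQ i < htQ j := by decide +kernel

theorem cell_sixty : ∀ c ∈ cells, c.s ∈ ([0, 1, 5, 7] : List (Fin 20)) → ∀ k ∈ c.down,
    UB.rt k ≠ wL chevE6 (wdN c.L) 60 ∧ UB.rt k ≠ chevE6.neg (wL chevE6 (wdN c.L) 60) ∧
      chevE6.commTerms (wL chevE6 (wdN c.L) 60) (UB.rt k) = [] := by decide +kernel

theorem cell_count : ∀ c ∈ cells,
    ∑ k ∈ Finset.univ.filter (fun k : Fin 9 => k ∈ c.down ∧ (k : ℕ) ≤ UB.pr k),
      (if UB.pr k = k then 1 else 2) = c.dn := by decide +kernel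

theorem cell_long : ∀ s : Fin 20, QB.pr s = s → ∃ c ∈ cells, c.s = s := by decide +kernel

theorem cell_inj : ∀ c ∈ cells, ∀ d ∈ cells, c.s = d.s → c.L = d.L ∧ c.down = d.down ∧ c.dn = d.dn := by
  decide +kernel

theorem ht_long : ∀ s t : Fin 20, QB.pr s = s → QB.pr t = t → htQ s = htQ t → s = t := by
  decide +kernel

/-- A long coordinate above a cell, reached by a long translation. -/
theorem cell_up_long : ∀ c ∈ cells, ∀ k : Fin 9, UB.pr k = k → k ∉ c.down →
    ∃ r, QB.pr r = r ∧ htQ c.s < htQ r ∧ c.perm r = lev1 k := by decide +kernel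

/-- The three short orbits with their long companions and the coordinate of the norm. -/
def shorts : List (Fin 9 × Fin 9 × Fin 9 × Fin 9 × Fin 20) :=
  [(1, 3, 0, 4, 12), (2, 6, 0, 8, 5), (5, 7, 4, 8, 1)]

/-- The test behind the next statement. -/
def upShortB (c : Cell) (e : Fin 9 × Fin 9 × Fin 9 × Fin 9 × Fin 20) : Bool :=
  c.down.contains e.1 || ((!c.down.contains e.2.2.1 || !c.down.contains e.2.2.2.1) &&
    ([0, 1, 5, 7, 12, 14, 18, 19] : List (Fin 20)).any fun r =>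
      decide (htQ c.s < htQ r) && decide (c.perm r = e.2.2.2.2))

theorem upShort_all : cells.all (fun c => shorts.all fun e => upShortB c e) = true := by
  decide +kernel

/-- A long coordinate above a cell, reached by the norm of a short translation. -/
theorem cell_up_short : ∀ c ∈ cells, ∀ e ∈ shorts, e.1 ∉ c.down →
    (e.2.2.1 ∉ c.down ∨ e.2.2.2.1 ∉ c.down) ∧
      ∃ r ∈ ([0, 1, 5, 7, 12, 14, 18, 19] : List (Fin 20)), htQ c.s < htQ r ∧
        c.perm r = e.2.2.2.2 := by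
  intro c hc e he hn
  have h := List.all_eq_true.1 (List.all_eq_true.1 upShort_all c hc) e he
  rw [upShortB] at h
  simp only [Bool.or_eq_true, Bool.and_eq_true, List.contains_iff_mem, List.any_eq_true,
    decide_eq_true_eq, Bool.not_eq_true'] at h
  obtain h | ⟨h1, r, hr, h2, h3⟩ := h
  · exact absurd h hn
  · exact ⟨h1.imp (fun h m => by simp_all) (fun h m => by simp_all), r, hr, h2, h3⟩

theorem long_list : ∀ r ∈ ([0, 1, 5, 7, 12, 14, 18, 19] : List (Fin 20)), QB.pr r = r := by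
  decide +kernel

theorem short_cases : ∀ k : Fin 9, UB.pr k = k ∨ ∃ e ∈ shorts, k = e.1 ∨ k = e.2.1 := by
  intro k
  fin_cases k
  · exact Or.inl rfl
  · exact Or.inr ⟨(1, 3, 0, 4, 12), by simp [shorts], Or.inl rfl⟩
  · exact Or.inr ⟨(2, 6, 0, 8, 5), by simp [shorts], Or.inl rfl⟩
  · exact Or.inr ⟨(1, 3, 0, 4, 12), by simp [shorts], Or.inr rfl⟩
  · exact Or.inl rfl
  · exact Or.inr ⟨(5, 7, 4, 8, 1), by simp [shorts], Or.inl rfl⟩
  · exact Or.inr ⟨(2, 6, 0, 8, 5), by simp [shorts], Or.inr rfl⟩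
  · exact Or.inr ⟨(5, 7, 4, 8, 1), by simp [shorts], Or.inr rfl⟩
  · exact Or.inl rfl

theorem short_pr : ∀ e ∈ shorts, UB.pr e.1 = e.2.1 ∧ UB.pr e.2.2.1 = e.2.2.1 ∧
    UB.pr e.2.2.2.1 = e.2.2.2.1 := by
  intro e he
  simp only [shorts, List.mem_cons, List.not_mem_nil, or_false] at he
  rcases he with rfl | rfl | rfl <;> exact ⟨rfl, rfl, rfl⟩

end CfsgLib.TwistedLie.E6.MinDeg65
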