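import Cfsg.Agent.E6MinDeg65.Fixed
import Cfsg.Agent.E6MinDeg65.Tables2

/-!
The weights of the radical with a non-zero top coordinate form one orbit of lines.
-/

set_option autoImplicit false

namespace CfsgLib.TwistedLie.E6.MinDeg65

open Cfsg.Lie CfsgLib.Chevalley CfsgLib.TwistedLie CfsgLib.WeightProj65

local notation "S" => sysE6

section Plain

variable {K : Type*} [Field K]

/-- The factors of a translation. -/
def uList (a : Fin 9 → K) : List (ℕ × K) := UB.ord.map fun k => (UB.rt k, a k)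

/-- A translation of the coordinates of the radical. -/
def fU (a : Fin 9 → K) : (Fin 20 → K) → Fin 20 → K := QB.opL (uList a)

theorem acts_U (a : Fin 9 → K) : QB.Acts (UB.E a) (fU a) := by
  have e : UB.E a = ((uList a).map fun e => Sys.xG S K e.1 e.2).prod := by
    rw [uList, List.map_map]
    rfl
  rw [e]
  refine QB.acts_list _ fun e he => ?_
  obtain ⟨k, -, rfl⟩ := List.mem_map.1 he
  exact uTab_ok k

theorem opL_keep {n : ℕ} (B : Blk n) (P : Fin n → Prop) (l : List (ℕ × K)) {A : Fin n → K}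
    (hA : ∀ i, P i → A i = 0) (hl : ∀ e ∈ l, ∀ i, P i → ∀ e' ∈ B.stp e.1 i, P e'.1) :
    ∀ i, (∀ e ∈ l, ∀ e' ∈ B.stp e.1 i, P e'.1) → B.opL l A i = A i := by
  induction l generalizing A with
  | nil => intro i _; rfl
  | cons e l ih =>
    intro i hi
    have h1 : ∀ j, (∀ e' ∈ B.stp e.1 j, P e'.1) → B.opR e.1 e.2 A j = A j := by
      intro j hj
      rw [Blk.opR, List.sum_eq_zero, add_zero]
      intro c hc
      obtain ⟨e', he', rfl⟩ := List.mem_map.1 hc
      rw [hA _ (hj e' he'), mul_zero]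
    show B.opL l (B.opR e.1 e.2 A) i = A i
    rw [ih (fun j hj => (h1 j (hl e (List.mem_cons_self ..) j hj)).trans (hA j hj))
      (fun a ha => hl a (List.mem_cons_of_mem _ ha)) i fun a ha => hi a (List.mem_cons_of_mem _ ha),
      h1 i (hi e (List.mem_cons_self ..))]

theorem fU_coord (a : Fin 9 → K) (A : Fin 20 → K) :
    fU a A 19 = A 19 ∧ ∀ k, fU a A (lev1 k) = A (lev1 k) + (lev1C k : K) * a k * A 19 := by
  have key : ∀ (l : List (Fin 9)), l.Nodup → ∀ A : Fin 20 → K,
      QB.opL (l.map fun k => (UB.rt k, a k)) A 19 = A 19 ∧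
        ∀ k, QB.opL (l.map fun k => (UB.rt k, a k)) A (lev1 k) =
          A (lev1 k) + if k ∈ l then (lev1C k : K) * a k * A 19 else 0 := by
    intro l
    induction l with
    | nil => intro _ A; exact ⟨rfl, fun k => by simp [Blk.opL]⟩
    | cons j l ih =>
      intro hnd A
      obtain ⟨hj, hnd'⟩ := List.nodup_cons.1 hnd
      obtain ⟨i1, i2⟩ := ih hnd' (QB.opR (UB.rt j) (a j) A)
      have t19 : QB.opR (UB.rt j) (a j) A 19 = A 19 :=
        QB.opR_of_nil (by rw [uTab_eq, uTab_top]) _ _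
      refine ⟨i1.trans t19, fun k => ?_⟩
      show QB.opL _ (QB.opR (UB.rt j) (a j) A) (lev1 k) = _
      rw [i2 k, t19]
      by_cases hk : j = k
      · subst hk
        rw [if_neg hj, add_zero, if_pos (List.mem_cons_self ..),
          QB.opR_of_one (by rw [uTab_eq, uTab_lev1, if_pos rfl])]
      · rw [QB.opR_of_nil (by rw [uTab_eq, uTab_lev1, if_neg hk])]
        simp [Ne.symm hk]
  obtain ⟨h1, h2⟩ := key UB.ord UB.ord_nodup A
  exact ⟨h1, fun k => (h2 k).trans (by rw [if_pos (UB.mem_ord k)])⟩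

theorem fU_zero (A : Fin 20 → K) : fU (0 : Fin 9 → K) A = A := by
  have key : ∀ (l : List (Fin 9)) (A : Fin 20 → K),
      QB.opL (l.map fun k => (UB.rt k, (0 : Fin 9 → K) k)) A = A := by
    intro l
    induction l with
    | nil => intro A; rfl
    | cons j l ih =>
      intro A
      show QB.opL _ (QB.opR (UB.rt j) 0 A) = A
      rw [ih, QB.opR_zero]
  exact key _ A

theorem fU_norm (a : Fin 9 → K) (u : K) : ∀ e ∈ shorts, ∃ σ τ : K, σ ≠ 0 ∧
    fU a (Pi.single 19 u) e.2.2.2.2 = u * (σ * (a e.1 * a e.2.1) + τ * (a e.2.2.1 * a e.2.2.2.1)) := by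
  have hord : UB.ord = [0, 4, 8, 1, 3, 2, 6, 5, 7] := by decide +kernel
  intro e he
  simp only [shorts, List.mem_cons, List.not_mem_nil, or_false] at he
  rcases he with rfl | rfl | rfl
  · refine ⟨1, -1, one_ne_zero, ?_⟩
    simp [fU, uList, hord, Blk.opL, Blk.opR, uTab_eq, uTab, Pi.single_apply]
    ring
  · refine ⟨1, -1, one_ne_zero, ?_⟩
    simp [fU, uList, hord, Blk.opL, Blk.opR, uTab_eq, uTab, Pi.single_apply]
    ring
  · refine ⟨-1, 1, neg_ne_zero.2 one_ne_zero, ?_⟩
    simp [fU, uList, hord, Blk.opL, Blk.opR, uTab_eq, uTab, Pi.single_apply]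
    ring

end Plain

/-- The coordinates of the middle level. -/
abbrev lev2L : List (Fin 20) := [12, 5, 1, 2, 4, 3, 10, 6, 11]

/-- The coordinates of the level next to the top. -/
abbrev lev1L : List (Fin 20) := [18, 17, 16, 15, 14, 13, 9, 8, 7]

theorem lev1_mem : ∀ k, lev1 k ∈ lev1L := by decide +kernel

theorem lev1_surj : ∀ i ∈ lev1L, ∃ k, lev1 k = i := by decide +kernel

theorem all_levels : ∀ i : Fin 20, i = 19 ∨ i ∈ lev1L ∨ i ∈ lev2L ∨ i = 0 := by decide +kernel

theorem lev1_sg : ∀ k, lev1C (UB.pr k) * QB.sg (lev1 k) = UB.sg k * lev1C k := by decide +kernel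

theorem lev1_closed : ∀ r ∈ ([56, 36, 37, 42, 34, 29, 38, 57] : List ℕ), QB.OkOp r ∧
    ∀ i, i ∈ lev1L ∨ i = 19 → ∀ e ∈ QB.stp r i, e.1 ∈ lev1L := by decide +kernel

theorem lev2_closed : QB.OkOp 32 ∧
    ∀ i, i ∈ lev1L ∨ i = 19 → ∀ e ∈ QB.stp 32 i, e.1 ∈ lev1L ∨ e.1 ∈ lev2L := by decide +kernel

theorem stp_kill :
    QB.stp 56 6 = [(12, -1)] ∧ QB.stp 36 6 = [] ∧
    QB.stp 37 4 = [(5, 1)] ∧ QB.stp 42 4 = [] ∧
    QB.stp 34 2 = [(1, 1)] ∧ QB.stp 29 2 = [] ∧
    QB.stp 37 1 = [(2, 1)] ∧ QB.stp 42 1 = [(4, 1)] ∧ (QB.stp 37 4).all (fun e => e.1 == 5) ∧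
    QB.stp 38 1 = [(3, 1)] ∧ QB.stp 57 1 = [(10, 1)] ∧ QB.stp 38 10 = [(12, 1)] ∧
    QB.stp 36 5 = [(6, 1)] ∧ QB.stp 56 5 = [(11, -1)] ∧ QB.stp 36 11 = [(12, 1)] ∧
    QB.stp 32 1 = [(0, 1)] := by decide +kernel

variable {K : Type*} [Field K] [Fintype K] {q : ℕ} (hq : IsPrimePow q) (hK : Fintype.card K = q ^ 2)

local notation "G1" => chevE6.genSubgroup K (e6Words K q)

/-- A translation in the group. -/
noncomputable def gU (a : UB.M hq hK) : ↥G1 := ⟨UB.E a.1, UB.E_mem hq hK a.2⟩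

theorem card_UBM : Nat.card (UB.M hq hK) = q ^ 9 :=
  (Nat.card_congr (Equiv.subtypeEquivRight fun x => ⟨fun h => ⟨h, fun i hi => absurd trivial hi⟩,
    fun h => h.1⟩)).trans (UB.card_supp hq hK (fun _ => True) (fun _ _ => trivial) (by decide +kernel))

variable {V : Type*} [AddCommGroup V] [Module ℂ V] [FiniteDimensional ℂ V] [Fintype (F0 hq hK)]
  {ρ : Representation ℂ ↥(chevE6.genSubgroup K (e6Words K q)) V} (h : Small ρ)
  (ψ : AddChar (F0 hq hK) ℂ) (hψ : ψ ≠ 1)

local notation "CR" => CRep hq hK ρ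

/-- A group element acting on the coordinates, inside the normaliser. -/
noncomputable def inH {g : ↥(chevE6.genSubgroup K (e6Words K q))} {f}
    (hf : QB.Acts (g : GL chevE6.Idx K) f) : ↥(HZ hq hK) := ⟨g, mem_HZ_acts hq hK hf⟩

omit [Fintype (F0 hq hK)] in
theorem fix_val {A : QB.M hq hK} {s : Fin 20} (hs : QB.pr s = s) :
    phi hq hK (A.1 s) = A.1 s := by
  have := A.2 s
  rw [hs, QB.sg_fix s hs, Int.cast_one, one_mul] at this
  exact this.symm

include h hψ in
theorem long_sum {s : Fin 20} (hs : QB.pr s = s) [Fintype (QB.M hq hK)] [DecidableEq K] :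
    ∑ A ∈ Finset.univ.filter (fun A : QB.M hq hK => A.1 s ≠ 0), (CR).dim ψ A = (q - 1) * q ^ 9 := by
  classical
  set D := fun A : QB.M hq hK => (CR).dim ψ A with hD
  have htot : ∑ A, D A = Module.finrank ℂ (CS hq hK ρ) := (CR).sum_dim ψ hψ
  have hdot : ∀ (A : QB.M hq hK) (t : F0 hq hK),
      Rep.dotF A (longEl hs t) = (⟨A.1 s, fix_val hq hK hs⟩ : F0 hq hK) * t := fun A t =>
    Subtype.ext (by
      show Blk.dot A.1 (longEl hs t).1 = A.1 s * (t : K)
      rw [longEl_val, Blk.dot_single])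
  have key : (q : ℂ) * ∑ A ∈ Finset.univ.filter (fun A : QB.M hq hK => A.1 s = 0), (D A : ℂ) =
      (Module.finrank ℂ (CS hq hK ρ) : ℂ) +
        ((q : ℂ) - 1) * ((Module.finrank ℂ (CS hq hK ρ) : ℂ) - (q : ℂ) ^ 10) := by
    have e1 : ∑ t : F0 hq hK, LinearMap.trace ℂ (CS hq hK ρ) ((CR).act (longEl hs t)) =
        (q : ℂ) * ∑ A ∈ Finset.univ.filter (fun A : QB.M hq hK => A.1 s = 0), (D A : ℂ) := by
      simp only [(CR).trace_act ψ hψ, hdot]
      rw [Finset.sum_comm, Finset.mul_sum, Finset.sum_filter]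
      refine Finset.sum_congr rfl fun A _ => ?_
      rw [← Finset.sum_mul]
      rw [show ∑ t : F0 hq hK, ψ ((⟨A.1 s, fix_val hq hK hs⟩ : F0 hq hK) * t) = _ from
        (Finset.sum_congr rfl fun b _ => by rw [mul_comm]).trans
          (AddChar.sum_mulShift _ (AddChar.IsPrimitive.of_ne_one hψ)), card_F0' hq hK]
      by_cases hA : A.1 s = 0
      · rw [if_pos hA, if_pos (Subtype.ext hA)]
      · rw [if_neg hA, if_neg fun e => hA (congrArg Subtype.val e)]
        simp
    rw [← e1, ← Finset.add_sum_erase _ _ (Finset.mem_univ (0 : F0 hq hK)),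
      Finset.sum_congr rfl fun t ht => h.trace_long hs (Finset.ne_of_mem_erase ht), Finset.sum_const,
      Finset.card_erase_of_mem (Finset.mem_univ _), Finset.card_univ, card_F0' hq hK, nsmul_eq_mul,
      Nat.cast_sub hq.one_lt.le, Nat.cast_one]
    congr 1
    rw [show longEl hs (0 : F0 hq hK) = 0 from Subtype.ext (by
      rw [longEl_val]; simp), AddChar.map_zero_eq_one, LinearMap.trace_one]
  have hsplit := Finset.sum_filter_add_sum_filter_not Finset.univ (fun A : QB.M hq hK => A.1 s = 0) D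
  rw [htot] at hsplit
  have hc : (q : ℂ) * ((∑ A ∈ Finset.univ.filter (fun A : QB.M hq hK => ¬ A.1 s = 0), D A : ℕ) : ℂ) =
      (q : ℂ) * (((q - 1) * q ^ 9 : ℕ) : ℂ) := by
    have e := congrArg (fun n : ℕ => (q : ℂ) * (n : ℂ)) hsplit
    simp only [Nat.cast_add, mul_add] at e
    rw [Nat.cast_sum, key] at e
    rw [Nat.cast_mul, Nat.cast_sub hq.one_lt.le, Nat.cast_one, Nat.cast_pow]
    linear_combination e
  have hq0 : (q : ℂ) ≠ 0 := Nat.cast_ne_zero.2 (by have := hq.two_le; omega)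
  exact Nat.cast_injective (mul_left_cancel₀ hq0 hc)

omit [Fintype (F0 hq hK)] in
theorem scale_mem {u : F0 hq hK} (hu : u ≠ 0) :
    ∃ g : ↥(HZ hq hK), QB.Acts ((g : ↥G1) : GL chevE6.Idx K) fun A i => (u : K) * A i := by
  have hu' : (u : K) ≠ 0 := fun e => hu (Subtype.ext e)
  let c : ℕ → Kˣ := torC [1, 2, 2, 3, 2, 1] (Units.mk0 (u : K) hu')
  have hm : tor chevE6 K c ∈ G1 := torC_mem hq hK (by decide +kernel) u.2
  have hf := QB.acts_torC (K := K) [1, 2, 2, 3, 2, 1] (Units.mk0 (u : K) hu')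
  have hv : ∀ i, torusVal chevE6 c (QB.rt i) = Units.mk0 (u : K) hu' := by
    intro i
    rw [torusVal_torC, show ((List.range 6).map fun j =>
      (([1, 2, 2, 3, 2, 1] : List ℕ).getD j 0 : ℤ) * chevE6.cartan j (QB.rt i)).sum = 1 from
        (by decide +kernel : ∀ i, ((List.range 6).map fun j =>
          (([1, 2, 2, 3, 2, 1] : List ℕ).getD j 0 : ℤ) * chevE6.cartan j (QB.rt i)).sum = 1) i,
      zpow_one]
  exact ⟨inH hq hK (g := ⟨_, hm⟩) hf, hf.congr fun A => funext fun i => by rw [hv]; rfl⟩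

include h hψ in
theorem top_sum {c : F0 hq hK} (hc : c ≠ 0) [Fintype (QB.M hq hK)] [DecidableEq K] :
    ∑ A ∈ Finset.univ.filter (fun A : QB.M hq hK => A.1 19 = c), (CR).dim ψ A = q ^ 9 := by
  classical
  set D := fun A : QB.M hq hK => (CR).dim ψ A
  have hle : ∀ c d : F0 hq hK, c ≠ 0 → d ≠ 0 →
      ∑ A ∈ Finset.univ.filter (fun A : QB.M hq hK => A.1 19 = c), D A ≤
        ∑ A ∈ Finset.univ.filter (fun A : QB.M hq hK => A.1 19 = d), D A := by
    intro c d hc hd
    obtain ⟨g, hg⟩ := scale_mem hq hK (mul_ne_zero hd (inv_ne_zero hc))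
    refine (le_of_eq ?_).trans (Finset.sum_le_sum_of_subset_of_nonneg
      (s := (Finset.univ.filter fun A : QB.M hq hK => A.1 19 = c).image (Rep.fM hg))
      (fun B hB => ?_) fun _ _ _ => Nat.zero_le _)
    · rw [Finset.sum_image fun A _ A' _ e => (CR).fM_injective (h := g) hg e]
      exact Finset.sum_congr rfl fun A _ => ((CR).dim_eq ψ (h := g) hg A).symm
    · obtain ⟨A, hA, rfl⟩ := Finset.mem_image.1 hB
      rw [Finset.mem_filter] at hA ⊢
      refine ⟨Finset.mem_univ _, ?_⟩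
      show ((d * c⁻¹ : F0 hq hK) : K) * A.1 19 = d
      rw [hA.2]
      exact congrArg Subtype.val (show d * c⁻¹ * c = d by rw [mul_assoc, inv_mul_cancel₀ hc, mul_one])
  have hs := long_sum hq hK h ψ hψ (show QB.pr 19 = 19 from rfl)
  have e : Finset.univ.filter (fun A : QB.M hq hK => A.1 19 ≠ 0) =
      ((Finset.univ : Finset (F0 hq hK)).erase 0).biUnion fun d =>
        Finset.univ.filter fun A : QB.M hq hK => A.1 19 = d := by
    ext A
    simp only [Finset.mem_filter, Finset.mem_univ, true_and, Finset.mem_biUnion, Finset.mem_erase]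
    constructor
    · intro hA
      exact ⟨⟨A.1 19, fix_val hq hK rfl⟩, ⟨fun e => hA (congrArg Subtype.val e), trivial⟩, rfl⟩
    · rintro ⟨d, ⟨hd, -⟩, e⟩ h0
      exact hd (Subtype.ext (e.symm.trans h0))
  rw [e, Finset.sum_biUnion, Finset.sum_congr rfl fun d hd => le_antisymm
    (hle d c (Finset.ne_of_mem_erase hd) hc) (hle c d hc (Finset.ne_of_mem_erase hd)), Finset.sum_const,
    Finset.card_erase_of_mem (Finset.mem_univ _), Finset.card_univ, card_F0' hq hK, smul_eq_mul] at hs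
  · exact Nat.eq_of_mul_eq_mul_left (by have := hq.two_le; omega) hs
  · intro d _ d' _ hne
    refine Finset.disjoint_left.2 fun A hA hA' => hne ?_
    rw [Finset.mem_filter] at hA hA'
    exact Subtype.ext (hA.2.symm.trans hA'.2)

/-- The translate of a weight. -/
noncomputable def trans (a : UB.M hq hK) (A : QB.M hq hK) : QB.M hq hK :=
  Rep.fM (g := gU hq hK a) (acts_U a.1) A

omit [FiniteDimensional ℂ V] [Fintype (F0 hq hK)] in
theorem trans_val (a : UB.M hq hK) (A : QB.M hq hK) : (trans hq hK a A).1 = fU a.1 A.1 := rfl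

omit [Fintype (F0 hq hK)] in
theorem dim_trans (a : UB.M hq hK) (A : QB.M hq hK) :
    (CR).dim ψ (trans hq hK a A) = (CR).dim ψ A :=
  (CR).dim_eq ψ (h := inH hq hK (g := gU hq hK a) (acts_U a.1)) (acts_U a.1) A

include h hψ in
/-- The translates exhaust the weights with given top coordinate. -/
theorem top_orbit {A0 : QB.M hq hK} (h0 : 0 < (CR).dim ψ A0) (hc : A0.1 19 ≠ 0) :
    (CR).dim ψ A0 = 1 ∧ ∀ A : QB.M hq hK, 0 < (CR).dim ψ A → A.1 19 = A0.1 19 →
      ∃ a, A = trans hq hK a A0 := by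
  classical
  have := Fintype.ofFinite (QB.M hq hK)
  have := Fintype.ofFinite (UB.M hq hK)
  let c : F0 hq hK := ⟨A0.1 19, fix_val hq hK rfl⟩
  have hs := top_sum hq hK h ψ hψ (c := c) fun e => hc (congrArg Subtype.val e)
  have hinj : Function.Injective fun a => trans hq hK a A0 := by
    intro a a' e
    refine Subtype.ext (funext fun k => ?_)
    have e1 := congrArg (fun A : QB.M hq hK => A.1 (lev1 k)) e
    simp only [trans_val, (fU_coord _ _).2] at e1
    have hC : (lev1C k : K) ≠ 0 := by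
      rcases (by decide +kernel : ∀ k, lev1C k = 1 ∨ lev1C k = -1) k with e | e <;> simp [e]
    exact mul_left_cancel₀ hC (mul_right_cancel₀ hc (add_left_cancel e1))
  set I := (Finset.univ : Finset (UB.M hq hK)).image fun a => trans hq hK a A0 with hI
  have hsub : I ⊆ Finset.univ.filter fun A : QB.M hq hK => A.1 19 = c := by
    intro A hA
    obtain ⟨a, -, rfl⟩ := Finset.mem_image.1 hA
    rw [Finset.mem_filter]
    exact ⟨Finset.mem_univ _, (fU_coord _ _).1⟩
  have hIsum : ∑ A ∈ I, (CR).dim ψ A = q ^ 9 * (CR).dim ψ A0 := by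
    rw [hI, Finset.sum_image fun a _ a' _ e => hinj e]
    simp only [dim_trans]
    rw [Finset.sum_const, Finset.card_univ, ← Nat.card_eq_fintype_card, card_UBM, smul_eq_mul]
  have hle := Finset.sum_le_sum_of_subset (f := fun A => (CR).dim ψ A) hsub
  rw [hIsum, hs] at hle
  have h9 : 0 < q ^ 9 := pow_pos (by have := hq.two_le; omega) _
  have h1 : (CR).dim ψ A0 = 1 := by nlinarith
  refine ⟨h1, fun A hA hA19 => ?_⟩
  by_contra hn
  have hnI : A ∉ I := fun hm => by
    obtain ⟨a, -, ha⟩ := Finset.mem_image.1 hm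
    exact hn ⟨a, ha.symm⟩
  have h2 := Finset.sum_lt_sum_of_subset hsub (i := A)
    (Finset.mem_filter.2 ⟨Finset.mem_univ _, hA19⟩) hnI hA
    (f := fun A => (CR).dim ψ A) fun _ _ _ => Nat.zero_le _
  rw [hIsum, hs, h1, mul_one] at h2
  exact lt_irrefl _ h2

include h hψ in
/-- A normalised weight is the pure one. -/
theorem star {A : QB.M hq hK} (hA : 0 < (CR).dim ψ A) (hc : A.1 19 ≠ 0)
    (h1 : ∀ i ∈ lev1L, A.1 i = 0) : A.1 = Pi.single 19 (A.1 19) := by
  have uniq : ∀ {g : ↥G1} {f}, QB.Acts (g : GL chevE6.Idx K) f →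
      f A.1 19 = A.1 19 → (∀ i ∈ lev1L, f A.1 i = 0) → f A.1 = A.1 := by
    intro g f hf e19 e1
    have hd : 0 < (CR).dim ψ (Rep.fM hf A) := by
      exact hA.trans_eq ((CR).dim_eq ψ (h := inH hq hK hf) hf A).symm
    obtain ⟨a, ha⟩ := (top_orbit hq hK h ψ hψ hA hc).2 (Rep.fM hf A) hd e19
    have ha0 : a.1 = 0 := funext fun k => by
      have e := congrArg (fun A : QB.M hq hK => A.1 (lev1 k)) ha
      simp only [trans_val, (fU_coord _ _).2, h1 _ (lev1_mem k), zero_add] at e
      change f A.1 (lev1 k) = _ at e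
      rw [e1 _ (lev1_mem k)] at e
      rcases mul_eq_zero.1 e.symm with e2 | e2
      · refine (mul_eq_zero.1 e2).resolve_left ?_
        rcases (by decide +kernel : ∀ k, lev1C k = 1 ∨ lev1C k = -1) k with e | e <;> simp [e]
      · exact absurd e2 hc
    have e := congrArg Subtype.val ha
    rw [trans_val, ha0, fU_zero] at e
    exact e
  have pairFix : ∀ {g : ↥G1} (l : List (ℕ × K)),
      (g : GL chevE6.Idx K) = (l.map fun e => Sys.xG S K e.1 e.2).prod →
      (∀ e ∈ l, e.1 ∈ ([56, 36, 37, 42, 34, 29, 38, 57] : List ℕ)) → QB.opL l A.1 = A.1 := by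
    intro g l hg hl
    have hf : QB.Acts (g : GL chevE6.Idx K) (QB.opL l) :=
      hg ▸ QB.acts_list l fun e he => (lev1_closed e.1 (hl e he)).1
    refine uniq hf ?_ fun i hi => ?_
    · exact opL_keep QB (fun i => i ∈ lev1L) l h1
        (fun e he i hi => (lev1_closed e.1 (hl e he)).2 i (Or.inl hi)) 19
        fun e he => (lev1_closed e.1 (hl e he)).2 19 (Or.inr rfl)
    · rw [opL_keep QB (fun i => i ∈ lev1L) l h1
        (fun e he i hi => (lev1_closed e.1 (hl e he)).2 i (Or.inl hi)) i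
        fun e he => (lev1_closed e.1 (hl e he)).2 i (Or.inl hi), h1 i hi]
  have posPair : ∀ r, PairOK r → r ∈ ([56, 36, 37, 38] : List ℕ) →
      ∀ a : K, QB.opL (pairL hq hK r a) A.1 = A.1 := by
    intro r hr hm a
    refine pairFix (g := ⟨_, pair_root_mem hq hK hr a⟩) _ rfl fun e he => ?_
    have hp : pE r ∈ ([56, 36, 37, 42, 34, 29, 38, 57] : List ℕ) ∧
        r ∈ ([56, 36, 37, 42, 34, 29, 38, 57] : List ℕ) :=
      (by decide +kernel : ∀ r ∈ ([56, 36, 37, 38] : List ℕ),
        pE r ∈ ([56, 36, 37, 42, 34, 29, 38, 57] : List ℕ) ∧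
          r ∈ ([56, 36, 37, 42, 34, 29, 38, 57] : List ℕ)) r hm
    simp only [pairL, List.mem_cons, List.not_mem_nil, or_false] at he
    rcases he with rfl | rfl
    exacts [hp.2, hp.1]
  obtain ⟨t, ht⟩ := exists_phi_ne hq hK
  obtain ⟨k56a, k36a, k37a, k42a, k34a, k29a, k37b, k42b, -, k38, k57, k38b, k36b, k56b, k36c,
    k32⟩ := stp_kill
  obtain ⟨p56, p37, p36, p38⟩ : pE 56 = 36 ∧ pE 37 = 42 ∧ pE 36 = 56 ∧ pE 38 = 57 := by
    decide +kernel
  obtain ⟨g56, g37, g36, g38⟩ : sgE 56 = 1 ∧ sgE 37 = 1 ∧ sgE 36 = 1 ∧ sgE 38 = -1 := by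
    decide +kernel
  have v12 : A.1 12 = 0 := by
    have e := congrFun (posPair 56 (by decide +kernel) (by simp) 1) 6
    simp only [pairL, Blk.opL, id, Blk.opR, p56, k56a, k36a, List.map_cons, List.map_nil,
      List.sum_cons, List.sum_nil] at e
    simpa using e
  have v5 : A.1 5 = 0 := by
    have e := congrFun (posPair 37 (by decide +kernel) (by simp) 1) 4
    simp only [pairL, Blk.opL, id, Blk.opR, p37, k37a, k42a, List.map_cons, List.map_nil,
      List.sum_cons, List.sum_nil] at e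
    simpa using e
  have v1 : A.1 1 = 0 := by
    have hm : Sys.xG S K 34 1 * Sys.xG S K 29 1 ∈ G1 := by
      have hp := (pair_mem hq hK (Or.inr ⟨rfl, rfl⟩) (1 : K)).2
      rw [Folded.N, map_one, (by decide +kernel : chevE6.neg (chevE6.simple 2) = 29),
        (by decide +kernel : chevE6.neg (chevE6.simple 4) = 34)] at hp
      rwa [(xG_commute S K (by decide) (by decide) (by decide) (by decide +kernel)
        (by decide +kernel) (1 : K) (1 : K) : Commute (Sys.xG S K 34 1) (Sys.xG S K 29 1)).eq]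
    have e := congrFun (pairFix (g := ⟨_, hm⟩) [(34, 1), (29, 1)] (by simp) (by simp)) 2
    simp only [Blk.opL, id, Blk.opR, k34a, k29a, List.map_cons, List.map_nil,
      List.sum_cons, List.sum_nil] at e
    simpa using e
  have two : ∀ x y : K, (∀ a, a * x + phi hq hK a * y = 0) → x = 0 ∧ y = 0 := by
    intro x y hxy
    have e1 := hxy 1
    have e2 := hxy t
    rw [map_one] at e1
    have e3 : x * (t - phi hq hK t) = 0 := by linear_combination e2 - phi hq hK t * e1
    have hx := (mul_eq_zero.1 e3).resolve_right (sub_ne_zero.2 ht.symm)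
    exact ⟨hx, by linear_combination e1 - hx⟩
  obtain ⟨v2, v4⟩ := two (A.1 2) (A.1 4) fun a => by
    have e := congrFun (posPair 37 (by decide +kernel) (by simp) a) 1
    simp only [pairL, Blk.opL, id, Blk.opR, p37, g37, k37b, k42b, k37a, List.map_cons, List.map_nil,
      List.sum_cons, List.sum_nil, v5, Int.cast_one] at e
    linear_combination e
  obtain ⟨v3, v10'⟩ := two (A.1 3) (-A.1 10) fun a => by
    have e := congrFun (posPair 38 (by decide +kernel) (by simp) a) 1
    simp only [pairL, Blk.opL, id, Blk.opR, p38, g38, k38, k57, k38b, List.map_cons, List.map_nil,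
      List.sum_cons, List.sum_nil, v12, Int.cast_one, Int.cast_neg] at e
    linear_combination e
  have v10 : A.1 10 = 0 := neg_eq_zero.1 v10'
  obtain ⟨v6, v11'⟩ := two (A.1 6) (-A.1 11) fun a => by
    have e := congrFun (posPair 36 (by decide +kernel) (by simp) a) 5
    simp only [pairL, Blk.opL, id, Blk.opR, p36, g36, k36b, k56b, k36c, List.map_cons, List.map_nil,
      List.sum_cons, List.sum_nil, v12, Int.cast_one, Int.cast_neg] at e
    linear_combination e
  have v11 : A.1 11 = 0 := neg_eq_zero.1 v11'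
  have hlev2 : ∀ i ∈ lev2L, A.1 i = 0 := by
    intro i hi
    fin_cases hi <;> assumption
  have v0 : A.1 0 = 0 := by
    have hm : Sys.xG S K 32 (1 : K) ∈ G1 := by
      have hp := (fix_mem hq hK (Or.inr rfl) (t := (1 : K)) (map_one _)).2
      rwa [(by decide +kernel : chevE6.neg (chevE6.simple 3) = 32)] at hp
    have hf : QB.Acts (K := K) (Sys.xG S K 32 1) (QB.opR 32 1) := QB.acts_root lev2_closed.1 1
    have hsame : ∀ i, i ∈ lev1L ∨ i = 19 → QB.opR 32 1 A.1 i = A.1 i := by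
      intro i hi
      rw [Blk.opR, List.sum_eq_zero, add_zero]
      intro c hc'
      obtain ⟨e', he', rfl⟩ := List.mem_map.1 hc'
      rcases lev2_closed.2 i hi e' he' with hm | hm
      · rw [h1 _ hm, mul_zero]
      · rw [hlev2 _ hm, mul_zero]
    have e := congrFun (uniq (g := ⟨_, hm⟩) hf (hsame 19 (Or.inr rfl))
      fun i hi => (hsame i (Or.inl hi)).trans (h1 i hi)) 1
    rw [QB.opR_of_one k32, Int.cast_one, one_mul, one_mul] at e
    exact add_eq_left.1 e
  funext i
  rcases all_levels i with rfl | hi | hi | rfl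
  · rw [Pi.single_eq_same]
  · rw [h1 i hi, Pi.single_eq_of_ne]
    rintro rfl
    exact absurd hi (by decide)
  · rw [hlev2 i hi, Pi.single_eq_of_ne]
    rintro rfl
    exact absurd hi (by decide)
  · rw [v0, Pi.single_eq_of_ne (by decide)]

include h hψ in
/-- Every weight with non-zero top coordinate is a translate of a pure one, and a line. -/
theorem top_weight {A : QB.M hq hK} (hA : 0 < (CR).dim ψ A) (hc : A.1 19 ≠ 0) :
    (CR).dim ψ A = 1 ∧ ∃ a ∈ UB.M hq hK, A.1 = fU a (Pi.single 19 (A.1 19)) := by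
  refine ⟨(top_orbit hq hK h ψ hψ hA hc).1, ?_⟩
  -- normalise
  have hb : (fun k => -((lev1C k : K) * A.1 (lev1 k) * (A.1 19)⁻¹)) ∈ UB.M hq hK := by
    intro k
    show -((lev1C (UB.pr k) : K) * A.1 (lev1 (UB.pr k)) * (A.1 19)⁻¹) =
      (UB.sg k : K) * phi hq hK (-((lev1C k : K) * A.1 (lev1 k) * (A.1 19)⁻¹))
    have hs : (lev1C (UB.pr k) : K) * (QB.sg (lev1 k) : K) = (UB.sg k : K) * (lev1C k : K) := by
      exact_mod_cast congrArg (Int.cast : ℤ → K) (lev1_sg k)
    rw [(lev1_pr k).1, A.2 (lev1 k), map_neg, map_mul, map_mul, map_inv₀, map_intCast,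
      fix_val hq hK (show QB.pr 19 = 19 from rfl)]
    linear_combination -(phi hq hK (A.1 (lev1 k)) * (A.1 19)⁻¹) * hs
  let b : UB.M hq hK := ⟨_, hb⟩
  have hB0 : ∀ i ∈ lev1L, (trans hq hK b A).1 i = 0 := by
    intro i hi
    obtain ⟨k, rfl⟩ := lev1_surj i hi
    rw [trans_val, (fU_coord _ _).2]
    show A.1 (lev1 k) + (lev1C k : K) * -((lev1C k : K) * A.1 (lev1 k) * (A.1 19)⁻¹) * A.1 19 = 0
    have hC : (lev1C k : K) * (lev1C k : K) = 1 := by
      rcases (by decide +kernel : ∀ k, lev1C k = 1 ∨ lev1C k = -1) k with e | e <;> simp [e]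
    field_simp
    linear_combination -(A.1 (lev1 k)) * hC
  have h19 : (trans hq hK b A).1 19 = A.1 19 := (fU_coord _ _).1
  have hdim : 0 < (CR).dim ψ (trans hq hK b A) := by rwa [dim_trans]
  have hpure := star hq hK h ψ hψ hdim (by rwa [h19]) hB0
  rw [h19] at hpure
  obtain ⟨a, ha⟩ := (top_orbit hq hK h ψ hψ hdim (by rwa [h19])).2 A hA h19.symm
  exact ⟨a.1, a.2, by conv_lhs => rw [ha, trans_val, hpure]⟩

end CfsgLib.TwistedLie.E6.MinDeg65
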