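import Cfsg.Agent.E6MinDeg65.Elems

/-!
The two halves of the radical and conjugation by the root group of the highest root of the Levi
complement.
-/

set_option autoImplicit false

namespace CfsgLib.TwistedLie.E6.MinDeg65

open Cfsg.Lie CfsgLib.Chevalley CfsgLib.TwistedLie

local notation "S" => sysE6

namespace Blk

variable {n : ℕ} (B : Blk n) {K : Type*} [Field K]

/-- The commutator form of two coordinate vectors. -/
def pairC (y x : Fin n → K) : K :=
  (B.ord.map fun i => (B.ord.map fun j => (B.cz i j : K) * y i * x j).sum).sum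

theorem E_swap (y x : Fin n → K) :
    B.E y * B.E x = B.E x * B.E y * zE (B.pairC y x) := by
  have key : ∀ l : List (Fin n), B.EL l y * B.E x = B.E x * B.EL l y *
      zE ((l.map fun i => (B.ord.map fun j => (B.cz i j : K) * y i * x j).sum).sum) := by
    intro l
    induction l with
    | nil => simp [EL, zE_zero]
    | cons i l ih =>
      rw [EL_cons, List.map_cons, List.sum_cons, ← zE_add, mul_assoc, ih, ← mul_assoc, ← mul_assoc,
        show B.xr i (y i) * B.E x = _ from B.swap i (y i) B.ord x, mul_assoc (B.EL B.ord x * B.xr i (y i)),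
        ← (B.EL_commute_z l y _).eq]
      simp only [mul_assoc]
      rfl
  exact key B.ord

theorem commute_E {g : GL chevE6.Idx K} {x : Fin n → K}
    (h : ∀ i, x i = 0 ∨ Commute g (B.xr i (x i))) : Commute g (B.E x) := by
  refine Commute.list_prod_right _ _ fun k hk => ?_
  obtain ⟨i, -, rfl⟩ := List.mem_map.1 hk
  rcases h i with h0 | h0
  · rw [h0, xr, Sys.xG_zero]; exact Commute.one_right g
  · exact h0

theorem EL_filter (l : List (Fin n)) (P : Fin n → Bool) (x : Fin n → K)
    (h : ∀ i ∈ l, P i = false → x i = 0) : B.EL l x = B.EL (l.filter P) x := by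
  induction l with
  | nil => rfl
  | cons a l ih =>
    have ih' := ih fun i hi => h i (List.mem_cons_of_mem _ hi)
    cases hP : P a with
    | true => rw [List.filter_cons_of_pos hP, EL_cons, EL_cons, ih']
    | false =>
      rw [List.filter_cons_of_neg (by simp [hP]), EL_cons, ih', h a (List.mem_cons_self ..) hP, xr,
        Sys.xG_zero, one_mul]

/-- Products of factors supported in an abelian part add up. -/
theorem prod_exact {ι : Type*} (P : Fin n → Prop) (hP : ∀ i j, P i → P j → B.cz i j = 0)
    (l : List ι) (g : ι → GL chevE6.Idx K) (v : ι → Fin n → K) (hg : ∀ a ∈ l, g a = B.E (v a))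
    (hv : ∀ a ∈ l, ∀ i, v a i ≠ 0 → P i) :
    (l.map g).prod = B.E (l.map v).sum ∧ ∀ i, (l.map v).sum i ≠ 0 → P i := by
  induction l with
  | nil => exact ⟨B.E_zero.symm, fun i hi => absurd rfl hi⟩
  | cons a l ih =>
    obtain ⟨h1, h2⟩ := ih (fun b hb => hg b (List.mem_cons_of_mem _ hb))
      fun b hb => hv b (List.mem_cons_of_mem _ hb)
    have ha := hv a (List.mem_cons_self ..)
    rw [List.map_cons, List.map_cons, List.prod_cons, List.sum_cons, hg a (List.mem_cons_self ..), h1]
    refine ⟨B.E_add_exact fun i j hi hj => hP i j (ha i hi) (h2 j hj), fun i hi => ?_⟩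
    by_contra hc
    refine hi ?_
    rw [Pi.add_apply, show v a i = 0 from by_contra fun h => hc (ha i h),
      show (l.map v).sum i = 0 from by_contra fun h => hc (h2 i h), add_zero]

/-- Conjugation by a root element preserving an abelian part. -/
theorem conj_exact {r : ℕ} (h : B.OkOp r) (P : Fin n → Prop) [DecidablePred P]
    (hP : ∀ i j, P i → P j → B.cz i j = 0) (hc : ∀ i, P i → ∀ e ∈ B.stp r i, P e.1) (a : K)
    {x : Fin n → K} (hx : ∀ i, x i ≠ 0 → P i) :
    ∃ y, Sys.xG S K r a * B.E x * (Sys.xG S K r a)⁻¹ = B.E y ∧ ∀ i, y i ≠ 0 → P i := by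
  obtain ⟨hr, h71, hne, hne', hi⟩ := h
  have key : ∀ i, ∃ v, Sys.xG S K r a * B.xr i (x i) * (Sys.xG S K r a)⁻¹ = B.E v ∧
      ∀ j, v j ≠ 0 → P j := by
    intro i
    by_cases hxi : x i = 0
    · refine ⟨0, ?_, fun j hj => absurd rfl hj⟩
      rw [hxi, xr, Sys.xG_zero, mul_one, mul_inv_cancel, E_zero]
    obtain ⟨h1, h2, h3⟩ := hi i
    have hl := B.stp_length r i
    rcases hst : B.stp r i with _ | ⟨⟨j, C⟩, _ | ⟨b, l⟩⟩
    · rw [hst] at h3
      refine ⟨Pi.single i (x i), ?_, fun j hj => ?_⟩
      · rw [E_single]; exact conj_none hr (B.rt_lt i) h1 h2 h3 a (x i)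
      · rcases eq_or_ne j i with rfl | hne
        · exact hx _ hxi
        · exact absurd (Pi.single_eq_of_ne hne _) hj
    · rw [hst] at h3
      have hPi := hx i hxi
      have hPj : P j := hc i hPi (j, C) (by rw [hst]; exact List.mem_cons_self ..)
      refine ⟨Pi.single i (x i) + Pi.single j ((C : K) * a * x i), ?_, fun k hk => ?_⟩
      · rw [show Sys.xG S K r a * B.xr i (x i) * (Sys.xG S K r a)⁻¹ = _ from
          conj_term hr (B.rt_lt i) h1 h2 h3 a (x i), ← B.E_add_exact (fun k l hk hl => ?_),
          E_single, E_single]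
        · rfl
        · have e1 : k = i := by_contra fun e => hk (Pi.single_eq_of_ne e _)
          have e2 : l = j := by_contra fun e => hl (Pi.single_eq_of_ne e _)
          rw [e1, e2]; exact hP i j hPi hPj
      · rcases eq_or_ne k i with rfl | hki
        · exact hPi
        rcases eq_or_ne k j with rfl | hkj
        · exact hPj
        exact absurd (by simp [Pi.single_eq_of_ne hki, Pi.single_eq_of_ne hkj]) hk
    · rw [hst] at hl
      simp at hl
  choose v hv hvP using key
  obtain ⟨h1, h2⟩ := B.prod_exact P hP B.ord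
    (fun i => Sys.xG S K r a * B.xr i (x i) * (Sys.xG S K r a)⁻¹) v (fun i _ => hv i) fun i _ => hvP i
  refine ⟨_, ?_, h2⟩
  rw [← h1, ← MulAut.conj_apply, E, EL, map_list_prod, List.map_map]
  rfl

/-- The terms of the quadratic form attached to a root element. -/
def qfT (r : ℕ) : List (Fin n) → List (Fin n × Fin n × ℤ)
  | [] => []
  | i :: l => qfT r l ++ (B.stp r i).flatMap fun e =>
      (l.filter fun j => B.cz e.1 j != 0).map fun j => (i, j, e.2 * B.cz e.1 j)

/-- Its value. -/
def qf (r : ℕ) (l : List (Fin n)) (a : K) (x : Fin n → K) : K :=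
  a * ((B.qfT r l).map fun e => (e.2.2 : K) * x e.1 * x e.2.1).sum

theorem conj_qf {r : ℕ} (h : B.OkOp r) (P : Fin n → Prop) [DecidablePred P]
    (hP : ∀ i j, P i → P j → B.cz i j = 0) (hc : ∀ i, ∀ e ∈ B.stp r i, P e.1) (a : K)
    (x : Fin n → K) (l : List (Fin n)) :
    ∃ y, (∀ i, y i ≠ 0 → P i) ∧ Sys.xG S K r a * B.EL l x * (Sys.xG S K r a)⁻¹ =
      B.EL l x * B.E y * zE (B.qf r l a x) := by
  obtain ⟨hr, h71, hne, hne', hi⟩ := h
  induction l with
  | nil => exact ⟨0, fun i hi => absurd rfl hi, by simp [EL, qf, qfT, E_zero, zE_zero]⟩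
  | cons i l ih =>
    obtain ⟨y, hy, e⟩ := ih
    obtain ⟨h1, h2, h3⟩ := hi i
    have hl := B.stp_length r i
    have eL : Sys.xG S K r a * B.EL (i :: l) x * (Sys.xG S K r a)⁻¹ =
        (Sys.xG S K r a * B.xr i (x i) * (Sys.xG S K r a)⁻¹) *
          (B.EL l x * B.E y * zE (B.qf r l a x)) := by
      rw [← e, EL_cons]; group
    rcases hst : B.stp r i with _ | ⟨⟨j, C⟩, _ | ⟨b, m⟩⟩
    · rw [hst] at h3
      refine ⟨y, hy, ?_⟩
      rw [eL, show Sys.xG S K r a * B.xr i (x i) * (Sys.xG S K r a)⁻¹ = _ from
        conj_none hr (B.rt_lt i) h1 h2 h3 a (x i)]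
      rw [EL_cons, qf, qf, qfT, hst, List.flatMap_nil, List.append_nil]
      simp only [mul_assoc]
      rfl
    · rw [hst] at h3
      have hPj : P j := hc i (j, C) (by rw [hst]; exact List.mem_cons_self ..)
      refine ⟨Pi.single j ((C : K) * a * x i) + y, fun k hk => ?_, ?_⟩
      · rcases eq_or_ne k j with rfl | hkj
        · exact hPj
        · refine hy k fun h0 => hk ?_
          rw [Pi.add_apply, Pi.single_eq_of_ne hkj, h0, add_zero]
      set c := (C : K) * a * x i
      have hs := B.swap j c l x
      have hq : B.qf r (i :: l) a x =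
          (l.map fun k => (B.cz j k : K) * c * x k).sum + B.qf r l a x := by
        rw [qf, qf, qfT, hst, List.map_append, List.sum_append, mul_add, add_comm]
        congr 1
        rw [List.flatMap_cons, List.flatMap_nil, List.append_nil, List.map_map]
        clear hs eL e hst hl
        induction l with
        | nil => simp
        | cons k l ihl =>
          simp only [List.map_cons, List.sum_cons]
          by_cases hz : B.cz j k = 0
          · rw [List.filter_cons_of_neg (by simp [hz]), ihl, hz]
            simp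
          · rw [List.filter_cons_of_pos (by simp [hz]), List.map_cons, List.sum_cons, mul_add, ihl]
            congr 1
            simp only [Function.comp_apply, c]
            push_cast
            ring
      have hex : B.xr j c * B.E y = B.E (Pi.single j c + y) := by
        rw [← E_single]
        refine B.E_add_exact fun k k' hk hk' => hP k k' ?_ (hy k' hk')
        rcases eq_or_ne k j with rfl | hkj
        · exact hPj
        · exact absurd (Pi.single_eq_of_ne hkj _) hk
      rw [eL, show Sys.xG S K r a * B.xr i (x i) * (Sys.xG S K r a)⁻¹ = B.xr i (x i) * B.xr j c from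
        conj_term hr (B.rt_lt i) h1 h2 h3 a (x i), EL_cons, hq, ← zE_add, ← hex,
        mul_assoc (B.xr i (x i)), ← mul_assoc (B.xr j c), ← mul_assoc (B.xr j c), hs]
      simp only [mul_assoc]
      have hcom : ∀ w, Commute (B.E y) (zE w) := fun w => B.EL_commute_z B.ord y w
      exact congrArg _ (congrArg _ (congrArg _ ((hcom _).left_comm _).symm))
    · rw [hst] at hl
      simp at hl

end Blk

end CfsgLib.TwistedLie.E6.MinDeg65
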