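import Cfsg.Agent.E6MinDeg65.Center

/-!
The trace of the root element of the highest root of the Levi complement on the non-central weights.
-/

set_option autoImplicit false

namespace CfsgLib.TwistedLie.E6.MinDeg65

open Cfsg.Lie CfsgLib.Chevalley CfsgLib.TwistedLie CfsgLib.WeightProj65

local notation "S" => sysE6

variable {K : Type*} [Field K] [Fintype K] {q : ℕ} (hq : IsPrimePow q) (hK : Fintype.card K = q ^ 2)

local notation "G1" => chevE6.genSubgroup K (e6Words K q)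

/-- The first pair element. -/
noncomputable def gP1 (a : K) : ↥G1 :=
  ⟨((pairL hq hK 56 a).map fun e => Sys.xG S K e.1 e.2).prod,
    pair_root_mem hq hK (by decide +kernel) a⟩

/-- The second pair element. -/
noncomputable def gP2 (a : K) : ↥G1 :=
  ⟨((pairL hq hK 45 a).map fun e => Sys.xG S K e.1 e.2).prod,
    pair_root_mem hq hK (by decide +kernel) a⟩

theorem exists_trace (t : F0 hq hK) : ∃ a : K, a + phi hq hK a = t := by
  obtain ⟨s, hs⟩ : ∃ s : K, s + phi hq hK s ≠ 0 := by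
    by_contra hcon
    push Not at hcon
    have h1 := hcon 1
    rw [map_one] at h1
    obtain ⟨t, ht⟩ := exists_phi_ne hq hK
    have h2 := hcon t
    refine ht ?_
    have : (1 : K) + 1 = 0 := h1
    linear_combination h2 - t * this
  refine ⟨s * ((s + phi hq hK s)⁻¹ * t), ?_⟩
  have hfix : phi hq hK ((s + phi hq hK s)⁻¹ * t) = (s + phi hq hK s)⁻¹ * t := by
    rw [map_mul, map_inv₀, map_add, phi_phi, F0_phi, add_comm]
  rw [map_mul, hfix, ← add_mul, ← mul_assoc, mul_inv_cancel₀ hs, one_mul]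

/-- The root element of the highest Levi root is a commutator. -/
theorem g60_comm (t : F0 hq hK) : ∃ a b, g60 hq hK t =
    gP1 hq hK a * gP2 hq hK b * (gP1 hq hK a)⁻¹ * (gP2 hq hK b)⁻¹ := by
  obtain ⟨a, ha⟩ := exists_trace hq hK (-t)
  rw [show ((-t : F0 hq hK) : K) = -(t : K) from rfl] at ha
  refine ⟨a, 1, Subtype.ext ?_⟩
  have e1 : pE 56 = 36 ∧ pE 45 = 59 ∧ sgE 56 = 1 ∧ sgE 45 = -1 := by decide +kernel
  show Sys.xG S K 60 (t : K) = _
  simp only [gP1, gP2, pairL, e1.1, e1.2.1, e1.2.2.1, e1.2.2.2, Int.cast_one, one_mul, Int.cast_neg,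
    map_one, List.map_cons, List.map_nil, List.prod_cons, List.prod_nil, mul_one,
    Subgroup.coe_mul, Subgroup.coe_inv]
  have c1 : ∀ u v : K, Sys.xG S K 56 u * Sys.xG S K 45 v * (Sys.xG S K 56 u)⁻¹ =
      Sys.xG S K 45 v * Sys.xG S K 60 (((-1 : ℤ) : K) * u * v) := fun u v =>
    conj_term (by decide) (by decide) (by decide) (by decide +kernel) (by decide +kernel) u v
  have c2 : ∀ u v : K, Sys.xG S K 36 u * Sys.xG S K 59 v * (Sys.xG S K 36 u)⁻¹ =
      Sys.xG S K 59 v * Sys.xG S K 60 (((1 : ℤ) : K) * u * v) := fun u v =>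
    conj_term (by decide) (by decide) (by decide) (by decide +kernel) (by decide +kernel) u v
  have c3 : ∀ r s, r < chevE6.nroots → s < chevE6.nroots → s ≠ r → s ≠ chevE6.neg r →
      chevE6.commTerms r s = [] → ∀ u v : K,
        Sys.xG S K r u * Sys.xG S K s v * (Sys.xG S K r u)⁻¹ = Sys.xG S K s v :=
    fun r s hr hs h1 h2 h u v => conj_none hr hs h1 h2 h u v
  have a1 := c3 36 45 (by decide) (by decide) (by decide) (by decide +kernel) (by decide +kernel)
  have a2 := c3 56 59 (by decide) (by decide) (by decide) (by decide +kernel) (by decide +kernel)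
  have a3 := c3 56 60 (by decide) (by decide) (by decide) (by decide +kernel) (by decide +kernel)
  have a4 := c3 45 60 (by decide) (by decide) (by decide) (by decide +kernel) (by decide +kernel)
  have a5 := c3 59 60 (by decide) (by decide) (by decide) (by decide +kernel) (by decide +kernel)
  set A := phi hq hK a
  have key : Sys.xG S K 56 a * Sys.xG S K 36 A * (Sys.xG S K 45 1 * Sys.xG S K 59 (-1)) *
      (Sys.xG S K 56 a * Sys.xG S K 36 A)⁻¹ =
      Sys.xG S K 60 (t : K) * (Sys.xG S K 45 1 * Sys.xG S K 59 (-1)) := by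
    calc Sys.xG S K 56 a * Sys.xG S K 36 A * (Sys.xG S K 45 1 * Sys.xG S K 59 (-1)) *
        (Sys.xG S K 56 a * Sys.xG S K 36 A)⁻¹
        = Sys.xG S K 56 a * ((Sys.xG S K 36 A * Sys.xG S K 45 1 * (Sys.xG S K 36 A)⁻¹) *
          (Sys.xG S K 36 A * Sys.xG S K 59 (-1) * (Sys.xG S K 36 A)⁻¹)) * (Sys.xG S K 56 a)⁻¹ := by
          group
      _ = (Sys.xG S K 56 a * Sys.xG S K 45 1 * (Sys.xG S K 56 a)⁻¹) *
          ((Sys.xG S K 56 a * Sys.xG S K 59 (-1) * (Sys.xG S K 56 a)⁻¹) *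
            (Sys.xG S K 56 a * Sys.xG S K 60 (((1 : ℤ) : K) * A * -1) * (Sys.xG S K 56 a)⁻¹)) := by
          rw [a1, c2]; group
      _ = _ := by
          rw [c1, a2, a3]
          have k1 : ∀ u, Commute (Sys.xG S K 45 (1 : K)) (Sys.xG S K 60 u) := fun u =>
            mul_inv_eq_iff_eq_mul.1 (a4 1 u)
          have k2 : ∀ u, Commute (Sys.xG S K 59 (-1 : K)) (Sys.xG S K 60 u) := fun u =>
            mul_inv_eq_iff_eq_mul.1 (a5 (-1) u)
          rw [(k2 _).eq, (k1 _).eq, mul_assoc, ← mul_assoc (Sys.xG S K 45 1), (k1 _).eq,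
            mul_assoc (Sys.xG S K 60 _) (Sys.xG S K 45 1), ← mul_assoc, Sys.xG_add]
          congr 2
          push_cast
          linear_combination -ha
  rw [← mul_inv_eq_iff_eq_mul] at key
  exact key.symm

variable (ψ : AddChar (F0 hq hK) ℂ) {V : Type*} [AddCommGroup V] [Module ℂ V] [FiniteDimensional ℂ V]
  (ρ : Representation ℂ ↥(chevE6.genSubgroup K (e6Words K q)) V)

theorem g60_g2 (t : F0 hq hK) (p : F0 hq hK × MJ hq hK) :
    g60 hq hK t * g2 hq hK p = g2 hq hK p * g60 hq hK t := by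
  refine Subtype.ext ?_
  show Sys.xG S K 60 (t : K) * (zE (p.1 : K) * QB.E p.2.1) = zE (p.1 : K) * QB.E p.2.1 * Sys.xG S K 60 (t : K)
  refine (Commute.mul_right (zE_commute (by norm_num) (by norm_num) _ _) (QB.commute_E fun i => ?_)).eq
  by_cases hi : Up i
  · obtain ⟨hr, -, -, -, h⟩ := ok60
    obtain ⟨h1, h2, h3⟩ := h i
    rw [stp60_of_up i hi] at h3
    exact Or.inr (xG_commute S K hr (QB.rt_lt i) h1 h2 h3 _ _)
  · exact Or.inl (p.2.2.2 i hi)

omit [Fintype K] in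
theorem conj_pair_J {r : ℕ} (hr : r ∈ ([56, 36, 45, 59] : List ℕ)) (a : K) {x : Fin 20 → K}
    (hx : ∀ i, x i ≠ 0 → Up i) :
    ∃ y, Sys.xG S K r a * QB.E x * (Sys.xG S K r a)⁻¹ = QB.E y ∧ ∀ i, y i ≠ 0 → Up i :=
  QB.conj_exact (ok_stab r hr).1 Up up_comm (ok_stab r hr).2 a hx

omit [FiniteDimensional ℂ V] in
/-- The pair elements keep the line of the trivial character of the upper half. -/
theorem pair_stab {r : ℕ} (hr : r = 56 ∨ r = 45) {g : ↥G1} {a : K}
    (hg : (g : GL chevE6.Idx K) = ((pairL hq hK r a).map fun e => Sys.xG S K e.1 e.2).prod) {v : V}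
    (hv : v ∈ wt (act2 hq hK ρ) (pairChar hq hK ψ 1)) :
    ρ g v ∈ wt (act2 hq hK ρ) (pairChar hq hK ψ 1) := by
  have hmem : r ∈ ([56, 36, 45, 59] : List ℕ) ∧ pE r ∈ ([56, 36, 45, 59] : List ℕ) := by
    rcases hr with rfl | rfl <;> decide +kernel
  intro p
  obtain ⟨t, j⟩ := p
  have hj : ∀ i, j.1 i ≠ 0 → Up i := fun i hi => by_contra fun h => hi (j.2.2 i h)
  obtain ⟨y1, e1, hy1⟩ := conj_pair_J hmem.1 (-a) hj
  obtain ⟨y2, e2, hy2⟩ := conj_pair_J hmem.2 (-((sgE r : K) * phi hq hK a)) hy1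
  have hgj : (g⁻¹ * gE hq hK ⟨j.1, j.2.1⟩ * g : ↥G1).1 = QB.E y2 := by
    rw [← e2, ← e1]
    show (g : GL chevE6.Idx K)⁻¹ * QB.E j.1 * (g : GL chevE6.Idx K) = _
    rw [hg]
    simp only [pairL, List.map_cons, List.map_nil, List.prod_cons, List.prod_nil, mul_one,
      ← Sys.xG_inv]
    group
  have hy : y2 ∈ QB.M hq hK := QB.mem_M_of_rel hq hK (Subtype.prop _) (hgj ▸ QB.rel_E y2)
  let j' : MJ hq hK := ⟨y2, hy, fun i hi => by_contra fun h => hi (hy2 i h)⟩
  have e : g2 hq hK (t, j) * g = g * g2 hq hK (t, j') := by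
    refine Subtype.ext ?_
    show zE (t : K) * QB.E j.1 * (g : GL chevE6.Idx K) = (g : GL chevE6.Idx K) * (zE (t : K) * QB.E y2)
    rw [← hgj]
    show _ = (g : GL chevE6.Idx K) * (zE (t : K) *
      ((g : GL chevE6.Idx K)⁻¹ * QB.E j.1 * (g : GL chevE6.Idx K)))
    have c : Commute (g : GL chevE6.Idx K) (zE (t : K)) := by
      rw [hg]
      refine Commute.list_prod_left _ _ fun k hk => ?_
      obtain ⟨e, he, rfl⟩ := List.mem_map.1 hk
      have h36 : 36 ≤ e.1 ∧ e.1 < 71 := by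
        simp only [pairL, List.mem_cons, List.not_mem_nil, or_false] at he
        rcases he with rfl | rfl <;> rcases hr with rfl | rfl <;> dsimp only <;> decide +kernel
      exact zE_commute h36.1 h36.2 _ _
    rw [← mul_assoc, c.eq, mul_assoc, mul_assoc, mul_assoc, mul_inv_cancel_left]
  show ρ (g2 hq hK (t, j)) (ρ g v) = _
  rw [← Module.End.mul_apply, ← map_mul, e, map_mul, Module.End.mul_apply,
    show ρ (g2 hq hK (t, j')) v = _ from hv _, map_smul]
  rfl

theorem g60_fix (hd : Module.finrank ℂ (wt (act2 hq hK ρ) (pairChar hq hK ψ 1)) ≤ 1)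
    (t : F0 hq hK) {v : V} (hv : v ∈ wt (act2 hq hK ρ) (pairChar hq hK ψ 1)) :
    ρ (g60 hq hK t) v = v := by
  rcases eq_or_ne v 0 with rfl | hv0
  · rw [map_zero]
  have line : ∀ {g : ↥G1}, ρ g v ∈ wt (act2 hq hK ρ) (pairChar hq hK ψ 1) →
      ∃ c : ℂ, c ≠ 0 ∧ ρ g v = c • v := by
    intro g hg
    have h1 : Module.finrank ℂ (wt (act2 hq hK ρ) (pairChar hq hK ψ 1)) = 1 :=
      le_antisymm hd (Nat.one_le_iff_ne_zero.2 fun h0 => by
        rw [Submodule.finrank_eq_zero] at h0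
        exact hv0 ((Submodule.mem_bot ℂ).1 (h0 ▸ hv)))
    obtain ⟨c, hc⟩ := exists_smul_eq_of_finrank_eq_one h1
      (x := (⟨v, hv⟩ : wt (act2 hq hK ρ) (pairChar hq hK ψ 1)))
      (fun e => hv0 (congrArg Subtype.val e)) ⟨_, hg⟩
    have hc' : ρ g v = c • v := (congrArg Subtype.val hc).symm
    refine ⟨c, fun h0 => hv0 (ρ_inj ρ g ?_), hc'⟩
    rw [hc', h0, zero_smul, map_zero]
  have hinv : ∀ {g : ↥G1} {c : ℂ}, c ≠ 0 → ρ g v = c • v → ρ g⁻¹ v = c⁻¹ • v := by
    intro g c hc hg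
    apply ρ_inj ρ g
    rw [Representation.self_inv_apply, map_smul, hg, smul_smul, inv_mul_cancel₀ hc, one_smul]
  obtain ⟨a, b, e⟩ := g60_comm hq hK t
  obtain ⟨c1, hc1, h1⟩ := line (pair_stab hq hK ψ ρ (Or.inl rfl) (g := gP1 hq hK a) rfl hv)
  obtain ⟨c2, hc2, h2⟩ := line (pair_stab hq hK ψ ρ (Or.inr rfl) (g := gP2 hq hK b) rfl hv)
  rw [e, map_mul, map_mul, map_mul, Module.End.mul_apply, hinv hc2 h2, map_smul,
    Module.End.mul_apply, hinv hc1 h1, map_smul, Module.End.mul_apply, h2, map_smul, h1, smul_smul,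
    smul_smul, smul_smul, show c2⁻¹ * c1⁻¹ * c2 * c1 = 1 by field_simp, one_smul]

omit [Fintype K] in
theorem qf60_val (t : K) (x : Fin 20 → K) :
    QB.qf 60 lowList t x = t * (x 2 * x 4 - x 1 * x 5 + x 0 * x 7) := by
  rw [Blk.qf, qfT60]
  simp only [List.map_cons, List.map_nil, List.sum_cons, List.sum_nil]
  push_cast
  ring

/-- The quadratic form on the lower half. -/
noncomputable def q60 (i : MI hq hK) : F0 hq hK :=
  ⟨i.1 2 * i.1 4 - i.1 1 * i.1 5 + i.1 0 * i.1 7, by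
    show phi hq hK _ = i.1 2 * i.1 4 - i.1 1 * i.1 5 + i.1 0 * i.1 7
    have h := i.2.1
    have f0 : phi hq hK (i.1 0) = i.1 0 := by
      have := h 0; rw [show QB.pr 0 = 0 from rfl, QB.sg_fix 0 rfl, Int.cast_one, one_mul] at this
      exact this.symm
    have f1 : phi hq hK (i.1 1) = i.1 1 := by
      have := h 1; rw [show QB.pr 1 = 1 from rfl, QB.sg_fix 1 rfl, Int.cast_one, one_mul] at this
      exact this.symm
    have f5 : phi hq hK (i.1 5) = i.1 5 := by
      have := h 5; rw [show QB.pr 5 = 5 from rfl, QB.sg_fix 5 rfl, Int.cast_one, one_mul] at this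
      exact this.symm
    have f7 : phi hq hK (i.1 7) = i.1 7 := by
      have := h 7; rw [show QB.pr 7 = 7 from rfl, QB.sg_fix 7 rfl, Int.cast_one, one_mul] at this
      exact this.symm
    have f24 : i.1 4 = phi hq hK (i.1 2) := by
      have := h 2
      rwa [show QB.pr 2 = 4 from rfl, show QB.sg 2 = 1 by decide +kernel, Int.cast_one, one_mul]
        at this
    rw [map_add, map_sub, map_mul, map_mul, map_mul, f0, f1, f5, f7, f24, phi_phi]
    ring⟩

/-- The scalar of the root element on a shifted line. -/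
theorem g60_scalar (hd : Module.finrank ℂ (wt (act2 hq hK ρ) (pairChar hq hK ψ 1)) ≤ 1)
    [Fintype (MJ hq hK)] (i : MI hq hK) {v : V}
    (hv : v ∈ wt (act2 hq hK ρ) (pairChar hq hK ψ (piC hq hK ψ i))) :
    ρ (g60 hq hK 1) v = ψ (q60 hq hK i) • v := by
  have hvi := shift_mem hq hK ψ ρ (-i) (piC hq hK ψ i) hv
  rw [← piC_add, add_neg_cancel, show piC hq hK ψ (0 : MI hq hK) = 1 from DFunLike.ext _ _ fun j => by
    show ψ (bil hq hK j 0) = 1
    rw [show bil hq hK j 0 = 0 from Subtype.ext (by simp [bil, pairC_eq]),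
      AddChar.map_zero_eq_one]] at hvi
  set w := ρ (gE hq hK ⟨(-i).1, (-i).2.1⟩) v with hw
  have hlow : ∀ k, i.1 k ≠ 0 → ¬ Up k := fun k hk h => hk (i.2.2 k h)
  have hback : v = ρ (gE hq hK ⟨i.1, i.2.1⟩) w := by
    have e : gE hq hK ⟨i.1, i.2.1⟩ * gE hq hK ⟨(-i).1, (-i).2.1⟩ = 1 := Subtype.ext (by
      show QB.E i.1 * QB.E (-i.1) = 1
      rw [QB.E_add_exact fun k l hk hl => low_comm k l (hlow k hk) (hlow l fun h => hl (by simp [h])),
        add_neg_cancel, Blk.E_zero])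
    rw [hw, ← Module.End.mul_apply, ← map_mul, e, map_one, Module.End.one_apply]
  obtain ⟨y, hy, ey⟩ := QB.conj_qf (K := K) ok60 Up up_comm stp60_up 1 i.1 lowList
  have hEL : QB.EL lowList i.1 = QB.E i.1 := by
    rw [Blk.E, ← low_filter]
    exact (QB.EL_filter _ _ _ fun k _ hk => i.2.2 k (by simpa only [Bool.not_eq_false', decide_eq_true_eq] using hk)).symm
  rw [hEL, qf60_val, one_mul] at ey
  have hyM : y ∈ QB.M hq hK := by
    refine QB.mem_M_of_rel hq hK (g := QB.E y * zE (q60 hq hK i : K)) ?_ ⟨_, rfl⟩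
    have e : QB.E y * zE (q60 hq hK i : K) = (QB.E i.1)⁻¹ *
        (Sys.xG S K 60 (1 : K) * QB.E i.1 * (Sys.xG S K 60 (1 : K))⁻¹) := by
      rw [ey, mul_assoc (QB.E i.1), inv_mul_cancel_left]
      rfl
    rw [e]
    exact mul_mem (inv_mem (QB.E_mem hq hK i.2.1))
      (mul_mem (mul_mem (g60 hq hK 1).2 (QB.E_mem hq hK i.2.1)) (inv_mem (g60 hq hK 1).2))
  let j' : MJ hq hK := ⟨y, hyM, fun k hk => by_contra fun h => hk (hy k h)⟩
  have e : g60 hq hK 1 * gE hq hK ⟨i.1, i.2.1⟩ =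
      gE hq hK ⟨i.1, i.2.1⟩ * g2 hq hK (q60 hq hK i, j') * g60 hq hK 1 := by
    refine Subtype.ext ?_
    show Sys.xG S K 60 (1 : K) * QB.E i.1 =
      QB.E i.1 * (zE (q60 hq hK i : K) * QB.E y) * Sys.xG S K 60 (1 : K)
    rw [← mul_inv_eq_iff_eq_mul, ey,
      show zE (q60 hq hK i : K) * QB.E y = QB.E y * zE (q60 hq hK i : K) from
        (QB.EL_commute_z QB.ord y _).eq.symm, mul_assoc]
    rfl
  conv_lhs => rw [hback]
  rw [← Module.End.mul_apply, ← map_mul, e, map_mul, Module.End.mul_apply,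
    g60_fix hq hK ψ ρ hd 1 hvi, map_mul, Module.End.mul_apply,
    show ρ (g2 hq hK (q60 hq hK i, j')) w = _ from hvi _, map_smul, ← hback]
  congr 1
  show ψ (q60 hq hK i) * (1 : AddChar (MJ hq hK) ℂ) j' = _
  rw [AddChar.one_apply, mul_one]

/-- The norm to the small field. -/
noncomputable def normF (c : K) : F0 hq hK :=
  ⟨c * phi hq hK c, by
    show phi hq hK (c * phi hq hK c) = c * phi hq hK c
    rw [map_mul, phi_phi, mul_comm]⟩

/-- The norm sum. -/
theorem sum_norm (hψ : ψ ≠ 1) [Fintype (F0 hq hK)] :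
    ∑ c : K, ψ (normF hq hK c) =
      -(q : ℂ) := by
  classical
  let N : Kˣ →* (F0 hq hK)ˣ := (
    { toFun := fun c => normF hq hK c
      map_one' := Subtype.ext (by simp [normF])
      map_mul' := fun c d => Subtype.ext (by
        show (c : K) * d * phi hq hK ((c : K) * d) =
          (c : K) * phi hq hK c * ((d : K) * phi hq hK d)
        rw [map_mul]; ring) } : Kˣ →* F0 hq hK).toHomUnits
  have h2 := hq.two_le
  have hKu : Nat.card Kˣ = q ^ 2 - 1 := by rw [Nat.card_units, Nat.card_eq_fintype_card, hK]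
  have hFu : Nat.card (F0 hq hK)ˣ = q - 1 := by rw [Nat.card_units, card_F0]
  have hker : Nat.card N.ker = q + 1 := by
    have : N.ker = (powMonoidHom (q + 1) : Kˣ →* Kˣ).ker := by
      ext c
      rw [MonoidHom.mem_ker, MonoidHom.mem_ker, powMonoidHom_apply, Units.ext_iff, Units.ext_iff,
        Units.val_pow_eq_pow_val, pow_succ', ← phi_apply hq hK, Subtype.ext_iff]
      rfl
    rw [this, IsCyclic.card_powMonoidHom_ker, hKu]
    refine Nat.gcd_eq_right ⟨q - 1, ?_⟩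
    obtain ⟨j, rfl⟩ := Nat.exists_eq_add_of_le' (show 1 ≤ q by omega)
    rw [Nat.add_sub_cancel]
    refine Nat.sub_eq_of_eq_add ?_
    ring
  have hsur : Function.Surjective N := by
    rw [← MonoidHom.range_eq_top, ← Subgroup.card_eq_iff_eq_top, hFu]
    have e := Subgroup.card_eq_card_quotient_mul_card_subgroup N.ker
    rw [Nat.card_congr (QuotientGroup.quotientKerEquivRange N).toEquiv, hker, hKu] at e
    refine Nat.eq_of_mul_eq_mul_right (show 0 < q + 1 by omega) (e.symm.trans ?_)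
    obtain ⟨j, rfl⟩ := Nat.exists_eq_add_of_le' (show 1 ≤ q by omega)
    rw [Nat.add_sub_cancel]
    refine Nat.sub_eq_of_eq_add ?_
    ring
  have hfib : ∀ v : (F0 hq hK)ˣ, (Finset.univ.filter fun c => N c = v).card = q + 1 := by
    intro v
    have e := MonoidHom.card_fiber_eq_of_mem_range N (x := v) (y := 1)
      (MonoidHom.mem_range.2 (hsur v)) ⟨1, map_one N⟩
    rw [e, ← hker, Nat.card_eq_fintype_card, Fintype.card_subtype]
    congr 1
    ext c
    simp [MonoidHom.mem_ker]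
  have hsplit : ∀ {α : Type _} [Field α] [Fintype α] (f : α → ℂ),
      ∑ a : α, f a = f 0 + ∑ a : αˣ, f a := by
    intro α _ _ f
    rw [← Finset.add_sum_erase _ _ (Finset.mem_univ (0 : α))]
    congr 1
    refine (Finset.sum_bij' (fun (a : αˣ) _ => (a : α))
      (fun a ha => Units.mk0 a (Finset.ne_of_mem_erase ha)) ?_ ?_ ?_ ?_ ?_).symm
    · intro a _; exact Finset.mem_erase.2 ⟨a.ne_zero, Finset.mem_univ _⟩
    · intros; exact Finset.mem_univ _
    · intros; exact Units.ext rfl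
    · intros; rfl
    · intros; rfl
  rw [hsplit]
  have hF : ∑ v : (F0 hq hK)ˣ, ψ (v : F0 hq hK) = -1 := by
    have e := AddChar.sum_eq_zero_of_ne_one hψ
    rw [hsplit, AddChar.map_zero_eq_one] at e
    exact eq_neg_of_add_eq_zero_right (by convert e)
  have hsum : ∑ c : Kˣ, ψ ((N c : (F0 hq hK)ˣ) : F0 hq hK) = ((q : ℂ) + 1) * -1 := by
    rw [← Finset.sum_fiberwise' Finset.univ N fun v => ψ ((v : (F0 hq hK)ˣ) : F0 hq hK), ← hF,
      Finset.mul_sum]
    refine Finset.sum_congr rfl fun v _ => ?_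
    rw [Finset.sum_const, hfib, nsmul_eq_mul]
    push_cast
    ring
  rw [show normF hq hK 0 = 0 from Subtype.ext (zero_mul _),
    AddChar.map_zero_eq_one]
  refine Eq.trans ?_ (show (1 : ℂ) + ((q : ℂ) + 1) * -1 = -(q : ℂ) by ring)
  rw [← hsum]
  rfl

theorem sum_hyp (hψ : ψ ≠ 1) [Fintype (F0 hq hK)] :
    ∑ a : F0 hq hK, ∑ b : F0 hq hK, ψ (a * b) = q := by
  classical
  rw [Finset.sum_congr rfl fun a _ => show ∑ b : F0 hq hK, ψ (a * b) = _ from
    (Finset.sum_congr rfl fun b _ => by rw [mul_comm]).trans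
      (AddChar.sum_mulShift a (AddChar.IsPrimitive.of_ne_one hψ))]
  rw [Finset.sum_eq_single (0 : F0 hq hK)]
  · rw [if_pos rfl, card_F0' hq hK]
  · intro b _ hb; rw [if_neg hb]; simp
  · simp

/-- The sum of the quadratic form. -/
theorem sum_q60 (hψ : ψ ≠ 1) [Fintype (F0 hq hK)] [Fintype (MI hq hK)] :
    ∑ i : MI hq hK, ψ (q60 hq hK i) = -((q : ℂ) ^ 7) := by
  classical
  have mfix : ∀ (i : MI hq hK) (k : Fin 20), QB.pr k = k → phi hq hK (i.1 k) = i.1 k := fun i k hk => by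
    have := i.2.1 k
    rw [hk, QB.sg_fix k hk, Int.cast_one, one_mul] at this
    exact this.symm
  let F := F0 hq hK
  let P := (F × F) × (F × F) × K × K × K
  let fwd : MI hq hK → P := fun i => ((⟨i.1 0, mfix i 0 rfl⟩, ⟨i.1 7, mfix i 7 rfl⟩),
    (⟨i.1 1, mfix i 1 rfl⟩, ⟨i.1 5, mfix i 5 rfl⟩), i.1 2, i.1 3, i.1 6)
  have hinj : Function.Injective fwd := by
    intro i i' h
    have h0 : i.1 0 = i'.1 0 := congrArg (fun p : P => (p.1.1 : K)) h
    have h7 : i.1 7 = i'.1 7 := congrArg (fun p : P => (p.1.2 : K)) h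
    have h1 : i.1 1 = i'.1 1 := congrArg (fun p : P => (p.2.1.1 : K)) h
    have h5 : i.1 5 = i'.1 5 := congrArg (fun p : P => (p.2.1.2 : K)) h
    have h2 : i.1 2 = i'.1 2 := congrArg (fun p : P => p.2.2.1) h
    have h3 : i.1 3 = i'.1 3 := congrArg (fun p : P => p.2.2.2.1) h
    have h6 : i.1 6 = i'.1 6 := congrArg (fun p : P => p.2.2.2.2) h
    refine Subtype.ext (funext fun k => ?_)
    by_cases hk : Up k
    · rw [i.2.2 k hk, i'.2.2 k hk]
    · have e4 : i.1 4 = i'.1 4 := by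
        rw [show (4 : Fin 20) = QB.pr 2 from rfl, i.2.1 2, i'.2.1 2, h2]
      have e10 : i.1 10 = i'.1 10 := by
        rw [show (10 : Fin 20) = QB.pr 3 from rfl, i.2.1 3, i'.2.1 3, h3]
      have e11 : i.1 11 = i'.1 11 := by
        rw [show (11 : Fin 20) = QB.pr 6 from rfl, i.2.1 6, i'.2.1 6, h6]
      fin_cases k <;> first | exact absurd (by decide) hk | assumption
  have hcF : Fintype.card F = q := card_F0' hq hK
  have hbij : Function.Bijective fwd := (Fintype.bijective_iff_injective_and_card _).2 ⟨hinj, by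
    rw [← Nat.card_eq_fintype_card, card_MI]
    simp only [P, Fintype.card_prod, hcF, hK]
    ring⟩
  have e : ∀ i, ψ (q60 hq hK i) = ψ (((fwd i).1.1 : F) * (fwd i).1.2) *
      ψ (-(((fwd i).2.1.1 : F) * (fwd i).2.1.2)) *
      ψ (normF hq hK (fwd i).2.2.1) := by
    intro i
    rw [← AddChar.map_add_eq_mul, ← AddChar.map_add_eq_mul]
    refine congrArg ψ (Subtype.ext ?_)
    have f24 : i.1 4 = phi hq hK (i.1 2) := by
      have := i.2.1 2
      rwa [show QB.pr 2 = 4 from rfl, show QB.sg 2 = 1 by decide +kernel, Int.cast_one, one_mul]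
        at this
    show i.1 2 * i.1 4 - i.1 1 * i.1 5 + i.1 0 * i.1 7 =
      i.1 0 * i.1 7 + -(i.1 1 * i.1 5) + i.1 2 * phi hq hK (i.1 2)
    rw [f24]; ring
  rw [Fintype.sum_bijective fwd hbij (fun i => ψ (q60 hq hK i))
    (fun p : P => ψ (p.1.1 * p.1.2) * ψ (-(p.2.1.1 * p.2.1.2)) *
      ψ (normF hq hK p.2.2.1)) e]
  have hneg : ψ⁻¹ ≠ 1 := inv_ne_one.2 hψ
  have hh := sum_hyp hq hK ψ⁻¹ hneg
  simp only [AddChar.inv_apply] at hh
  simp only [P, Fintype.sum_prod_type, mul_assoc, ← Finset.mul_sum]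
  simp only [← mul_assoc, ← Finset.sum_mul]
  simp only [Finset.sum_const, Finset.card_univ, hK, nsmul_eq_mul, ← Finset.mul_sum, sum_norm hq hK ψ hψ,
    ← Finset.sum_mul]
  push_cast
  erw [sum_hyp hq hK ψ hψ, hh]
  ring

/-- The trace of the root element on a non-central weight space of the highest root. -/
theorem trace_g60 (hψ : ψ ≠ 1) [Fintype (F0 hq hK)] [Fintype (MJ hq hK)] [Fintype (MI hq hK)]
    (hd : Module.finrank ℂ (wt (act2 hq hK ρ) (pairChar hq hK ψ 1)) = 1) :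
    LinearMap.trace ℂ V (ρ (g60 hq hK 1) * proj (actZ hq hK ρ) ψ) = -((q : ℂ) ^ 7) := by
  classical
  rw [proj_split hq hK ψ ρ, Finset.mul_sum, map_sum,
    ← Fintype.sum_bijective _ (piC_bijective hq hK ψ hψ)
      (fun i => LinearMap.trace ℂ V (ρ (g60 hq hK 1) *
        proj (act2 hq hK ρ) (pairChar hq hK ψ (piC hq hK ψ i)))) _ fun i => rfl,
    ← sum_q60 hq hK ψ hψ]
  refine Finset.sum_congr rfl fun i _ => ?_
  have e : ρ (g60 hq hK 1) * proj (act2 hq hK ρ) (pairChar hq hK ψ (piC hq hK ψ i)) =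
      ψ (q60 hq hK i) • proj (act2 hq hK ρ) (pairChar hq hK ψ (piC hq hK ψ i)) :=
    LinearMap.ext fun v => g60_scalar hq hK ψ ρ hd.le i (proj_mem _ _ v)
  rw [e, map_smul, trace_proj, dim_shift hq hK ψ ρ hψ, hd, Nat.cast_one, smul_eq_mul, mul_one]

end CfsgLib.TwistedLie.E6.MinDeg65
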