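import Cfsg.Agent.E6MinDeg65.Shift

/-!
Tables for the two blocks.
-/

set_option autoImplicit false

namespace CfsgLib.TwistedLie.E6.MinDeg65

open Cfsg.Lie CfsgLib.Chevalley CfsgLib.TwistedLie

/-- The upper half of the radical. -/
abbrev Up (i : Fin 20) : Prop := i ∈ ([8, 9, 12, 13, 14, 15, 16, 17, 18, 19] : List (Fin 20))

/-- The lower half in the chosen order. -/
def lowList : List (Fin 20) := [0, 1, 5, 7, 2, 4, 3, 10, 6, 11]

/-- The partner of a root of the radical with respect to the highest root. -/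
def prtQ : Fin 20 → Fin 20 :=
  ![19, 18, 17, 16, 15, 14, 13, 12, 11, 10, 9, 8, 7, 6, 5, 4, 3, 2, 1, 0]

theorem up_pr : ∀ i, Up i → Up (QB.pr i) := by decide +kernel

theorem low_pr : ∀ i, ¬ Up i → ¬ Up (QB.pr i) := by decide +kernel

theorem up_comm : ∀ i j, Up i → Up j → QB.cz i j = 0 := by decide +kernel

theorem low_comm : ∀ i j, ¬ Up i → ¬ Up j → QB.cz i j = 0 := by decide +kernel

theorem low_filter : QB.ord.filter (fun i => !decide (Up i)) = lowList := by decide +kernel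

theorem up_card : ∑ i ∈ Finset.univ.filter (fun i : Fin 20 => Up i ∧ (i : ℕ) ≤ QB.pr i),
    (if QB.pr i = i then 1 else 2) = 10 := by decide +kernel

theorem low_card : ∑ i ∈ Finset.univ.filter (fun i : Fin 20 => ¬ Up i ∧ (i : ℕ) ≤ QB.pr i),
    (if QB.pr i = i then 1 else 2) = 10 := by decide +kernel

theorem cz_prt : ∀ i j, QB.cz i j ≠ 0 → j = prtQ i := by decide +kernel

theorem cz_prt_ne : ∀ i, QB.cz i (prtQ i) = 1 ∨ QB.cz i (prtQ i) = -1 := by decide +kernel

theorem prt_up : ∀ i, Up (prtQ i) ↔ ¬ Up i := by decide +kernel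

theorem prt_prt : ∀ i, prtQ (prtQ i) = i := by decide +kernel

theorem ok60 : QB.OkOp 60 := by decide +kernel

theorem stp60_up : ∀ i, ∀ e ∈ QB.stp 60 i, Up e.1 := by decide +kernel

theorem stp60_of_up : ∀ i, Up i → QB.stp 60 i = [] := by decide +kernel

theorem qfT60 : QB.qfT 60 lowList = [(2, 4, 1), (1, 5, -1), (0, 7, 1)] := by decide +kernel

theorem ok_stab : ∀ r ∈ ([56, 36, 45, 59] : List ℕ), QB.OkOp r ∧
    ∀ i, Up i → ∀ e ∈ QB.stp r i, Up e.1 := by decide +kernel

end CfsgLib.TwistedLie.E6.MinDeg65
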